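import Cfsg.Agent.Lib.Helper41.BG11Kit
import Cfsg.Agent.Lib.Helper32.BG12KITA
import Cfsg.Agent.Lib.Helper72.HHFit
import Cfsg.Agent.Lib.Helper34.Nilp
import Cfsg.Agent.Lib.Helper76.CycSylA

/-!
# B&G Section 11: small auxiliary facts for the pieces UNIQS, C3, T11A, T11B (helper15)
-/

set_option autoImplicit false

open Cfsg Cfsg.Agent.Lib.Helper32 Cfsg.Agent.Lib.Helper32.BG10 Cfsg.Agent.Lib.Helper3.BG12
open Cfsg.Agent.Lib.Helper41.BG11

namespace Cfsg.Agent.Lib.Helper15.BG11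

universe u

variable {G : Type u} [Group G] [Finite G]

omit [Finite G] in
theorem aux_sigmaCore_le (M : Subgroup G) : sigmaCore M ≤ M := Subgroup.map_subtype_le _

omit [Finite G] in
theorem aux_le_normalizer_sigmaCore (M : Subgroup G) :
    M ≤ Subgroup.normalizer (sigmaCore M : Set G) :=
  le_normalizer_map_subtype M _

/-- a nilpotent subgroup has, for each `q`-subgroup `X`, a Sylow `q`-subgroup containing `X`
and normalized by everything normalizing it -/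
theorem aux_exists_normal_sylow {S M : Subgroup G} (hnil : Group.IsNilpotent ↥S)
    (hn : M ≤ Subgroup.normalizer (S : Set G)) {q : ℕ} [Fact q.Prime] {X : Subgroup G}
    (hX : IsPGroup q X) (hXS : X ≤ S) :
    ∃ Q ∈ sylSet q S, X ≤ Q ∧ M ≤ Subgroup.normalizer (Q : Set G) := by
  obtain ⟨R, hR, hXR⟩ := exists_sylSet_ge hX hXS
  obtain ⟨P, hP⟩ := exists_sylow_of_mem_sylSet hR
  refine ⟨R, hR, hXR, ?_⟩
  rw [← hP]
  exact hn.trans (Cfsg.Agent.Lib.Helper72.HH.sylow_map_normalizer hnil P)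

/-- (F3) -/
theorem aux_f3 (hG : IsMinSimpleOddOrder G) {M : Subgroup G} (hM : IsCoatom M) {q : ℕ}
    [Fact q.Prime] (hq : q ∈ sigma M) {Q : Subgroup G} (hQ : Q ∈ sylSet q (sigmaCore M)) :
    Q ∈ sylSet q M ∧ Q ∈ sylSet q ⊤ ∧ Subgroup.normalizer (Q : Set G) ≤ M := by
  have h1 : Q ∈ sylSet q M :=
    (Cfsg.Agent.Lib.Helper32.BG12.sylSet_sigmaCore_iff hG hM hq).mp hQ
  obtain ⟨h2, h3⟩ := sigma_sylSet hq h1
  exact ⟨h1, h3, h2⟩

theorem aux_coprime {M : Subgroup G} {p : ℕ} (hp : p.Prime) (hσ : p ∉ sigma M) {D : Subgroup G}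
    (hD : D ≤ sigmaCore M) : (Nat.card D).Coprime p := by
  rw [Nat.coprime_comm, Nat.Prime.coprime_iff_not_dvd hp]
  intro h
  exact hσ (Cfsg.Agent.Lib.Helper32.BG12.mem_sigma_of_dvd_sigmaCore hp
    (h.trans (Subgroup.card_dvd_of_le hD)))

/-- a Sylow `q`-subgroup of `D` is nontrivial when `q` divides the order of `D` -/
theorem aux_sylSet_ne_bot {q : ℕ} (hq : q.Prime) {D X : Subgroup G} (hX : X ∈ sylSet q D)
    (hqD : q ∣ Nat.card D) : X ≠ ⊥ := by
  intro h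
  have h2 := hX.2
  rw [h, Subgroup.card_bot] at h2
  have hpos : 0 < (Nat.card D).factorization q :=
    hq.factorization_pos_of_dvd Nat.card_pos.ne' hqD
  have : 1 < q ^ (Nat.card D).factorization q := Nat.one_lt_pow hpos.ne' hq.one_lt
  omega

omit [Finite G] in
/-- the intersection of two subgroups normalized by `A` is normalized by `A` -/
theorem aux_normalizer_inf {A D₁ D₂ : Subgroup G} (h1 : A ≤ Subgroup.normalizer (D₁ : Set G))
    (h2 : A ≤ Subgroup.normalizer (D₂ : Set G)) :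
    A ≤ Subgroup.normalizer ((D₁ ⊓ D₂ : Subgroup G) : Set G) := by
  intro a ha
  have e1 := Subgroup.mem_normalizer_iff.mp (h1 ha)
  have e2 := Subgroup.mem_normalizer_iff.mp (h2 ha)
  rw [Subgroup.mem_normalizer_iff]
  intro x
  rw [Subgroup.mem_inf, Subgroup.mem_inf, ← e1 x, ← e2 x]

omit [Finite G] in
/-- in a nilpotent subgroup, a `q`-subgroup and a `p`-subgroup (`q ≠ p`) commute elementwise -/
theorem aux_commute_of_nilpotent {W X A : Subgroup G} (hW : Group.IsNilpotent ↥W) {p q : ℕ}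
    (hp : p.Prime) (hq : q.Prime) (hqp : q ≠ p) (hX : IsPGroup q X) (hA : IsPGroup p A)
    (hXW : X ≤ W) (hAW : A ≤ W) : ∀ x ∈ X, ∀ a ∈ A, a * x = x * a := by
  intro x hx a ha
  have : Fact p.Prime := ⟨hp⟩
  have : Fact q.Prime := ⟨hq⟩
  obtain ⟨i, hi⟩ := (IsPGroup.iff_orderOf.mp hX) ⟨x, hx⟩
  obtain ⟨j, hj⟩ := (IsPGroup.iff_orderOf.mp hA) ⟨a, ha⟩
  have hi' : orderOf (⟨x, hXW hx⟩ : ↥W) = q ^ i := by
    rw [Subgroup.orderOf_mk, ← hi, Subgroup.orderOf_mk]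
  have hj' : orderOf (⟨a, hAW ha⟩ : ↥W) = p ^ j := by
    rw [Subgroup.orderOf_mk, ← hj, Subgroup.orderOf_mk]
  have hcop : (orderOf (⟨a, hAW ha⟩ : ↥W)).Coprime (orderOf (⟨x, hXW hx⟩ : ↥W)) := by
    rw [hi', hj']
    exact Nat.Coprime.pow _ _ ((Nat.coprime_primes hp hq).mpr (Ne.symm hqp))
  have := Cfsg.Agent.Lib.Helper34.commute_of_coprime_orderOf (⟨a, hAW ha⟩ : ↥W) ⟨x, hXW hx⟩ hcop
  exact congrArg Subtype.val this.eq

end Cfsg.Agent.Lib.Helper15.BG11
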