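import Cfsg.Agent.Lib.Helper15.BG11Aux

/-!
# B&G Section 11: more auxiliary facts for the pieces C3, T11A, T11B (helper15)
-/

set_option autoImplicit false

open Cfsg Cfsg.Agent.Lib.Helper32 Cfsg.Agent.Lib.Helper32.BG10 Cfsg.Agent.Lib.Helper3.BG12
open Cfsg.Agent.Lib.Helper41.BG11

namespace Cfsg.Agent.Lib.Helper15.BG11

universe u

variable {G : Type u} [Group G] [Finite G]

omit [Finite G] in
/-- a commutative subgroup normalizes its subgroups -/
theorem aux_le_normalizer_of_comm {A A₀ : Subgroup G} (hc : IsMulCommutative ↥A) (h : A₀ ≤ A) :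
    A ≤ Subgroup.normalizer (A₀ : Set G) := by
  have hcomm : ∀ a ∈ A, ∀ y ∈ A, a * y * a⁻¹ = y := by
    intro a ha y hy
    have h1 := hc.is_comm.comm ⟨a, ha⟩ ⟨y, hy⟩
    have h2 : a * y = y * a := congrArg Subtype.val h1
    rw [h2]
    group
  intro a ha
  rw [Subgroup.mem_normalizer_iff]
  intro y
  constructor
  · intro hy
    rw [hcomm a ha y (h hy)]
    exact hy
  · intro hy
    have hyA : y ∈ A := by
      have h3 : a⁻¹ * (a * y * a⁻¹) * a ∈ A :=
        A.mul_mem (A.mul_mem (A.inv_mem ha) (h hy)) ha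
      have h4 : a⁻¹ * (a * y * a⁻¹) * a = y := by group
      rwa [h4] at h3
    rw [hcomm a ha y hyA] at hy
    exact hy

omit [Finite G] in
/-- a `q`-subgroup of `N ⊔ A`, `A` a `p`-group normalizing `N`, `q ≠ p`, lies in `N` -/
theorem aux_le_of_qgroup_sup {N A Y : Subgroup G} (hA : A ≤ Subgroup.normalizer (N : Set G))
    {p q : ℕ} (hp : p.Prime) (hq : q.Prime) (hqp : q ≠ p) (hAp : IsPGroup p A)
    (hYq : IsPGroup q Y) (hY : Y ≤ N ⊔ A) : Y ≤ N := by
  have : Fact p.Prime := ⟨hp⟩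
  have : Fact q.Prime := ⟨hq⟩
  have hT : N ⊔ A ≤ Subgroup.normalizer (N : Set G) := sup_le Subgroup.le_normalizer hA
  have hn : (N.subgroupOf (N ⊔ A)).Normal := Subgroup.normal_subgroupOf_of_le_normalizer hT
  intro y hy
  have hyT : y ∈ N ⊔ A := hY hy
  have hmem : y ∈ ((N ⊔ A : Subgroup G) : Set G) := hyT
  rw [Subgroup.coe_mul_of_right_le_normalizer_left N A hA] at hmem
  obtain ⟨n, hnN, a, haA, rfl⟩ := hmem
  have hnN' : n ∈ N := hnN
  have haA' : a ∈ A := haA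
  suffices haN : a ∈ N from N.mul_mem hnN' haN
  -- the image of `a` in the quotient has order dividing a power of `p` and a power of `q`
  have hnT : n ∈ N ⊔ A := Subgroup.mem_sup_left hnN'
  have haT : a ∈ N ⊔ A := Subgroup.mem_sup_right haA'
  have h1 : (QuotientGroup.mk' (N.subgroupOf (N ⊔ A))) ⟨n * a, hyT⟩ =
      (QuotientGroup.mk' (N.subgroupOf (N ⊔ A))) ⟨a, haT⟩ := by
    have e : (⟨n * a, hyT⟩ : ↥(N ⊔ A)) = ⟨n, hnT⟩ * ⟨a, haT⟩ := rfl
    rw [e, map_mul]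
    have h0 : (QuotientGroup.mk' (N.subgroupOf (N ⊔ A))) ⟨n, hnT⟩ = 1 := by
      rw [QuotientGroup.mk'_apply, QuotientGroup.eq_one_iff]
      exact Subgroup.mem_subgroupOf.mpr hnN'
    rw [h0, one_mul]
  obtain ⟨i, hi⟩ := (IsPGroup.iff_orderOf.mp hYq) ⟨n * a, hy⟩
  obtain ⟨j, hj⟩ := (IsPGroup.iff_orderOf.mp hAp) ⟨a, haA'⟩
  have hi' : orderOf (⟨n * a, hyT⟩ : ↥(N ⊔ A)) = q ^ i := by
    rw [Subgroup.orderOf_mk, ← hi, Subgroup.orderOf_mk]
  have hj' : orderOf (⟨a, haT⟩ : ↥(N ⊔ A)) = p ^ j := by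
    rw [Subgroup.orderOf_mk, ← hj, Subgroup.orderOf_mk]
  have d1 : orderOf ((QuotientGroup.mk' (N.subgroupOf (N ⊔ A))) ⟨a, haT⟩) ∣ q ^ i := by
    rw [← h1, ← hi']
    exact orderOf_map_dvd _ _
  have d2 : orderOf ((QuotientGroup.mk' (N.subgroupOf (N ⊔ A))) ⟨a, haT⟩) ∣ p ^ j := by
    rw [← hj']
    exact orderOf_map_dvd _ _
  have hcop : (q ^ i).Coprime (p ^ j) :=
    Nat.Coprime.pow _ _ ((Nat.coprime_primes hq hp).mpr hqp)
  have h2 : orderOf ((QuotientGroup.mk' (N.subgroupOf (N ⊔ A))) ⟨a, haT⟩) = 1 :=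
    Nat.eq_one_of_dvd_coprimes hcop d1 d2
  rw [orderOf_eq_one_iff, QuotientGroup.mk'_apply, QuotientGroup.eq_one_iff] at h2
  exact Subgroup.mem_subgroupOf.mp h2

/-- a subgroup of `D` containing a Sylow `q`-subgroup of `D` for every prime `q` is `D` -/
theorem aux_le_of_sylow_le {D C : Subgroup G} (hC : C ≤ D)
    (h : ∀ q : ℕ, q.Prime → ∃ X ∈ sylSet q D, X ≤ C) : D ≤ C := by
  have hdvd : Nat.card D ∣ Nat.card C := by
    rw [← Nat.factorization_prime_le_iff_dvd Nat.card_pos.ne' Nat.card_pos.ne']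
    intro q hq
    obtain ⟨X, hX, hXC⟩ := h q hq
    have h1 : q ^ (Nat.card D).factorization q ∣ Nat.card C := by
      rw [← hX.2]
      exact Subgroup.card_dvd_of_le hXC
    exact (hq.pow_dvd_iff_le_factorization Nat.card_pos.ne').mp h1
  have hle : Nat.card D ≤ Nat.card C := Nat.le_of_dvd Nat.card_pos hdvd
  exact (Subgroup.eq_of_le_of_card_ge hC hle).ge

/-- an elementary abelian subgroup of order `p ^ 2` for an ideal prime `p` lies in a unique
maximal subgroup -/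
theorem aux_unique_of_ideal (hG : IsMinSimpleOddOrder G) {p : ℕ} (hp : p.Prime)
    (hpid : IsIdealPrime p G) {A : Subgroup G} (hAe : IsElementaryAbelian p A)
    (hAc : Nat.card A = p ^ 2) (hAT : A ≠ ⊤) : InUniqueMaximal A := by
  have : Fact p.Prime := ⟨hp⟩
  have hAp : IsPGroup p A := IsPGroup.of_card hAc
  obtain ⟨P, hAP⟩ := hAp.exists_le_sylow
  obtain ⟨B, -, hBe, hAB⟩ := hpid.2.2 P A hAP hAe hAc
  have hBcomm : ∀ a ∈ B, ∀ b ∈ B, a * b = b * a := by
    intro a ha b hb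
    exact congrArg Subtype.val (hBe.1.is_comm.comm ⟨a, ha⟩ ⟨b, hb⟩)
  have hBC : B ≤ Subgroup.centralizer (A : Set G) := by
    intro b hb
    exact Subgroup.mem_centralizer_iff.mpr (fun a ha => hBcomm a (hAB.le ha) b hb)
  have hcard : p ^ 2 < Nat.card B := by
    by_contra hle
    push Not at hle
    rw [← hAc] at hle
    exact hAB.ne (Subgroup.eq_of_le_of_card_ge hAB.le hle)
  have h3 : ¬ PRankLE p 2 ↥(Subgroup.centralizer (A : Set G)) :=
    not_prankLE_of_le hBC hBcomm hBe.2 hcard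
  obtain ⟨-, h2⟩ := not_rankLE_of_not_prankLE hp h3
  have hAcomm : ∀ a ∈ A, ∀ b ∈ A, a * b = b * a := by
    intro a ha b hb
    exact congrArg Subtype.val (hAe.1.is_comm.comm ⟨a, ha⟩ ⟨b, hb⟩)
  have h1 : ¬ RankLE 1 ↥A := by
    intro h
    refine not_prankLE_of_le (le_refl A) hAcomm hAe.2 ?_ (h p hp)
    rw [hAc]
    exact Nat.pow_lt_pow_right hp.one_lt (by norm_num)
  exact ut_of hG A hAT h1 (Or.inr h2)

end Cfsg.Agent.Lib.Helper15.BG11
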