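import Cfsg.Agent.Lib.Helper15.BG11Aux2

/-!
# B&G Section 12, piece C3 (B&G 12.3) (helper15, for helper41)
-/

set_option autoImplicit false

open Cfsg Cfsg.Agent.Lib.Helper32 Cfsg.Agent.Lib.Helper32.BG10 Cfsg.Agent.Lib.Helper3.BG12
open Cfsg.Agent.Lib.Helper41.BG11

namespace Cfsg.Agent.Lib.Helper15.BG11

universe u

variable {G : Type u} [Group G] [Finite G]

theorem c3 (hG : IsMinSimpleOddOrder G) (hNorm : PNorm G) (hUniqS : PUniqS G) (hBeta : PBeta G)
    (hBU : PBU G) : PC3 G := by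
  intro M Ms p A A₀ D hM hMs hne hp hAM hAe hAc hA₀ hA₀c hN hDM hMD hDπ
  have : Fact p.Prime := ⟨hp⟩
  have hAp : IsPGroup p A := IsPGroup.of_card hAc
  have hAMs : A ≤ Ms := (aux_le_normalizer_of_comm hAe.1 hA₀).trans hN
  have hAD : A ≤ Subgroup.normalizer ((D ⊓ Ms : Subgroup G) : Set G) :=
    aux_normalizer_inf (hAM.trans hMD) (hAMs.trans Subgroup.le_normalizer)
  have hcopD : (Nat.card A).Coprime (Nat.card ↥(D ⊓ Ms)) := by
    rw [hAc]
    apply Nat.Coprime.pow_left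
    rw [Nat.Prime.coprime_iff_not_dvd hp]
    intro h
    exact (hDπ p hp (h.trans (Subgroup.card_dvd_of_le inf_le_left))).2 rfl
  have hAsol : Group.IsSolvable ↥A :=
    minSimple_solvable hG (fun h => hM.1 (top_le_iff.mp (h ▸ hAM)))
  have hAT : A ≠ ⊤ := fun h => hM.1 (top_le_iff.mp (h ▸ hAM))
  suffices hs : ∀ q : ℕ, q.Prime → ∃ X ∈ sylSet q (D ⊓ Ms),
      X ≤ (D ⊓ Ms) ⊓ Subgroup.centralizer (A : Set G) from
    (aux_le_of_sylow_le inf_le_left hs).trans inf_le_right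
  intro q hq
  have : Fact q.Prime := ⟨hq⟩
  obtain ⟨X, hX, hAX⟩ := exists_invariant_sylow (q := q) A (D ⊓ Ms) hAD hcopD hAsol
  refine ⟨X, hX, le_inf hX.1 ?_⟩
  by_contra hXC
  have hXq : IsPGroup q X := isPGroup_of_mem_sylSet hX
  have hXM : X ≤ M := (hX.1.trans inf_le_left).trans hDM
  have hXMs : X ≤ Ms := hX.1.trans inf_le_right
  have hX1 : X ≠ ⊥ := by
    intro h
    apply hXC
    rw [h]
    exact bot_le
  have hqD : q ∣ Nat.card D := by
    obtain ⟨k, hk⟩ := IsPGroup.iff_card.mp hXq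
    have hk0 : k ≠ 0 := by
      rintro rfl
      rw [pow_zero] at hk
      exact hX1 (Subgroup.card_eq_one.mp hk)
    have h1 : q ∣ Nat.card X := by
      rw [hk]
      exact dvd_pow_self q hk0
    exact h1.trans (Subgroup.card_dvd_of_le (hX.1.trans inf_le_left))
  obtain ⟨hqM, hqp⟩ := hDπ q hq hqD
  -- the commutators `x a x⁻¹ a⁻¹` lie in `X`
  have hcX : ∀ x ∈ X, ∀ a ∈ A, x * a * x⁻¹ * a⁻¹ ∈ X := by
    intro x hx a ha
    have h1 : a * x⁻¹ * a⁻¹ ∈ X :=
      (Subgroup.mem_normalizer_iff.mp (hAX ha) x⁻¹).mp (X.inv_mem hx)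
    have h2 : x * a * x⁻¹ * a⁻¹ = x * (a * x⁻¹ * a⁻¹) := by group
    rw [h2]
    exact X.mul_mem hx h1
  have hcomm_of : ∀ x a : G, x * a * x⁻¹ * a⁻¹ = 1 → a * x = x * a := by
    intro x a h
    calc a * x = (x * a * x⁻¹ * a⁻¹)⁻¹ * (x * a) := by group
      _ = x * a := by rw [h, inv_one, one_mul]
  by_cases hpσ : p ∈ sigma Ms
  · have hAS : A ≤ sigmaCore Ms :=
      Cfsg.Agent.Lib.Helper32.BG12.pgroup_le_sigmaCore hG hMs hpσ hAp hAMs
    obtain ⟨x, hx, a, ha, hxa⟩ : ∃ x ∈ X, ∃ a ∈ A, a * x ≠ x * a := by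
      by_contra hcon
      push Not at hcon
      exact hXC (fun x hx => Subgroup.mem_centralizer_iff.mpr (fun a ha => hcon x hx a ha))
    have hc1 : x * a * x⁻¹ * a⁻¹ ∈ sigmaCore Ms := by
      have h1 : x * a * x⁻¹ ∈ sigmaCore Ms :=
        (Subgroup.mem_normalizer_iff.mp (aux_le_normalizer_sigmaCore Ms (hXMs hx)) a).mp (hAS ha)
      exact Subgroup.mul_mem _ h1 (Subgroup.inv_mem _ (hAS ha))
    have hc2 := hcX x hx a ha
    have hc3 : x * a * x⁻¹ * a⁻¹ ≠ 1 := fun h => hxa (hcomm_of x a h)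
    have hqMs : q ∈ sigma Ms := by
      apply Cfsg.Agent.Lib.Helper32.BG12.mem_sigma_of_dvd_sigmaCore hq
      obtain ⟨i, hi⟩ := (IsPGroup.iff_orderOf.mp hXq) ⟨_, hc2⟩
      have hi' : orderOf (x * a * x⁻¹ * a⁻¹) = q ^ i := by
        rw [← hi, Subgroup.orderOf_mk]
      have hi0 : i ≠ 0 := by
        rintro rfl
        rw [pow_zero, orderOf_eq_one_iff] at hi'
        exact hc3 hi'
      have h1 : orderOf (x * a * x⁻¹ * a⁻¹) ∣ Nat.card ↥(sigmaCore Ms) := by
        have := orderOf_dvd_natCard (⟨_, hc1⟩ : ↥(sigmaCore Ms))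
        rwa [Subgroup.orderOf_mk] at this
      rw [hi'] at h1
      exact (dvd_pow_self q hi0).trans h1
    have hXS : X ≤ sigmaCore Ms :=
      Cfsg.Agent.Lib.Helper32.BG12.pgroup_le_sigmaCore hG hMs hqMs hXq hXMs
    by_cases hqid : IsIdealPrime q G
    · exact hne (hBU M Ms X q hM hMs hq hqid hqM hqMs hXq hX1 hXM hXMs)
    · by_cases hpid : IsIdealPrime p G
      · obtain ⟨L, -, huniq⟩ := aux_unique_of_ideal hG hp hpid hAe hAc hAT
        have e1 := huniq M ⟨hM, hAM⟩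
        have e2 := huniq Ms ⟨hMs, hAMs⟩
        exact hne (e2.trans e1.symm)
      · have hWnil : Group.IsNilpotent ↥(A ⊔ X) := by
          apply hBeta Ms (A ⊔ X) hMs (sup_le hAS hXS)
          intro r hr hrW
          have h1 : r ∣ Nat.card X * Nat.card A :=
            hrW.trans (Cfsg.Agent.Lib.Helper76.CS.card_sup_dvd hAX)
          obtain ⟨k, hk⟩ := IsPGroup.iff_card.mp hXq
          rw [hk, hAc] at h1
          rcases (Nat.Prime.dvd_mul hr).mp h1 with h2 | h2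
          · have : r = q := (Nat.prime_dvd_prime_iff_eq hr hq).mp (hr.dvd_of_dvd_pow h2)
            rw [this]
            exact hqid
          · have : r = p := (Nat.prime_dvd_prime_iff_eq hr hp).mp (hr.dvd_of_dvd_pow h2)
            rw [this]
            exact hpid
        have hcomm := aux_commute_of_nilpotent hWnil hp hq hqp hXq hAp le_sup_right le_sup_left
        exact hxa (hcomm x hx a ha)
  · have hExc : Exc Ms p A A₀ := exc_mk hG hMs hp hpσ hAMs hAe hAc hA₀ hA₀c hN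
    have hnorm := hNorm Ms p A A₀ hExc
    have hDS : D ≤ sigmaCore M :=
      Cfsg.Agent.Lib.Helper32.BG12.le_sigmaCore_of_sigma hG hM hDM
        (fun r hr hrD => (hDπ r hr hrD).1)
    have key : ∀ x ∈ X, ∀ a ∈ A, x * a * x⁻¹ * a⁻¹ = 1 := by
      intro x hx a ha
      by_contra hc3
      have hc1 : x * a * x⁻¹ * a⁻¹ ∈ sigmaCore Ms ⊔ A := by
        have h1 : x * a * x⁻¹ ∈ sigmaCore Ms ⊔ A :=
          (Subgroup.mem_normalizer_iff.mp (hnorm (hXMs hx)) a).mp (Subgroup.mem_sup_right ha)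
        exact Subgroup.mul_mem _ h1 (Subgroup.inv_mem _ (Subgroup.mem_sup_right ha))
      have hc2 := hcX x hx a ha
      have hYq : IsPGroup q ↥(Subgroup.zpowers (x * a * x⁻¹ * a⁻¹)) :=
        hXq.to_le (Subgroup.zpowers_le.mpr hc2)
      have hYS : Subgroup.zpowers (x * a * x⁻¹ * a⁻¹) ≤ sigmaCore Ms :=
        aux_le_of_qgroup_sup (hAMs.trans (aux_le_normalizer_sigmaCore Ms)) hp hq hqp hAp hYq
          (Subgroup.zpowers_le.mpr hc1)
      have hcS : x * a * x⁻¹ * a⁻¹ ∈ sigmaCore Ms := hYS (Subgroup.mem_zpowers _)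
      have hcM : x * a * x⁻¹ * a⁻¹ ∈ sigmaCore M := hDS (hX.1 hc2).1
      have hMM := hUniqS Ms p A A₀ hExc M hM hAM (by
        intro hbot
        have h5 : x * a * x⁻¹ * a⁻¹ ∈ sigmaCore M ⊓ sigmaCore Ms := ⟨hcM, hcS⟩
        rw [hbot, Subgroup.mem_bot] at h5
        exact hc3 h5)
      exact hne hMM.symm
    apply hXC
    intro x hx
    exact Subgroup.mem_centralizer_iff.mpr (fun a ha => hcomm_of x a (key x hx a ha))

end Cfsg.Agent.Lib.Helper15.BG11
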