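import Cfsg.Agent.Lib.Helper3.BG12Pieces
import Cfsg.Agent.Lib.Helper32.BG10Main

/-!
# B&G Section 12, rows S1418 - S1420: interface (helper15)

`H19 G` (= S1419 as a `Prop`), the standing data `Ctx7` of B&G 12.7 and the subgroup
`omegaZ p S = Ω₁(Z(S))`.
-/

set_option autoImplicit false

open Cfsg Cfsg.Agent.Lib.Helper32 Cfsg.Agent.Lib.Helper32.BG10 Cfsg.Agent.Lib.Helper3.BG12

namespace Cfsg.Agent.Lib.Helper15.BG12

universe u

/-- S1419 -/
def H19 (G : Type u) [Group G] : Prop :=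
  ∀ (M : Subgroup G), IsCoatom M → ∀ (E : Subgroup G), Cfsg.IsComplIn E (Cfsg.sigmaCore M) M →
    ∀ (p : ℕ) [Fact p.Prime], p ∈ Cfsg.tau2 M →
    (∀ S : Sylow p G, ¬ IsMulCommutative (S : Subgroup G)) →
    ∀ (A : Subgroup G), (A ≤ E ∧ Cfsg.IsElementaryAbelian p A ∧ Nat.card A = p ^ 2) →
    Cfsg.tau2 M = {p} ∧
      (Nat.card ↥(A ⊓ Subgroup.centralizer (Cfsg.sigmaCore M : Set G)) = p ∧
        Cfsg.fittingOf M = Cfsg.sigmaCore M ⊔ (A ⊓ Subgroup.centralizer (Cfsg.sigmaCore M : Set G))) ∧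
      ∀ X : Subgroup G, X ≤ E → Nat.card X = p →
        X ≠ A ⊓ Subgroup.centralizer (Cfsg.sigmaCore M : Set G) →
        Cfsg.sigmaCore M ⊓ Subgroup.centralizer (X : Set G) = ⊥ ∧
          ¬ Subgroup.centralizer (X : Set G) ≤ M

variable {G : Type u} [Group G]

/-- the standing data of B&G 12.6 / 12.7 -/
structure Ctx7 (M E : Subgroup G) (p : ℕ) (A : Subgroup G) : Prop where
  hM : IsCoatom M
  hE : IsComplIn E (sigmaCore M) M
  hp : p ∈ tau2 M
  hAE : A ≤ E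
  hA : IsElementaryAbelian p A
  hA2 : Nat.card A = p ^ 2

/-- `Ω₁(Z(S))`: the elements of `S` that are central in `S` and of order dividing `p` -/
def omegaZ (p : ℕ) (S : Subgroup G) : Subgroup G where
  carrier := {z | z ∈ S ∧ (∀ s ∈ S, s * z = z * s) ∧ z ^ p = 1}
  mul_mem' := by
    rintro a b ⟨ha, hac, hap⟩ ⟨hb, hbc, hbp⟩
    refine ⟨S.mul_mem ha hb, fun s hs => ?_, ?_⟩
    · rw [← mul_assoc, hac s hs, mul_assoc, hbc s hs, ← mul_assoc]
    · have hc : Commute a b := (hac b hb).symm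
      rw [hc.mul_pow, hap, hbp, one_mul]
  one_mem' := ⟨S.one_mem, fun s _ => by simp, one_pow p⟩
  inv_mem' := by
    rintro a ⟨ha, hac, hap⟩
    refine ⟨S.inv_mem ha, fun s hs => ?_, by rw [inv_pow, hap, inv_one]⟩
    have h := hac s hs
    calc s * a⁻¹ = a⁻¹ * (a * s) * a⁻¹ := by group
      _ = a⁻¹ * (s * a) * a⁻¹ := by rw [h]
      _ = a⁻¹ * s := by group

theorem mem_omegaZ {p : ℕ} {S : Subgroup G} {z : G} :
    z ∈ omegaZ p S ↔ z ∈ S ∧ (∀ s ∈ S, s * z = z * s) ∧ z ^ p = 1 := Iff.rfl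

theorem omegaZ_le (p : ℕ) (S : Subgroup G) : omegaZ p S ≤ S := fun _ hz => hz.1

theorem le_centralizer_omegaZ (p : ℕ) (S : Subgroup G) :
    S ≤ Subgroup.centralizer (omegaZ p S : Set G) := by
  intro s hs
  rw [Subgroup.mem_centralizer_iff]
  intro z hz
  exact ((mem_omegaZ.mp hz).2.1 s hs).symm

theorem normalizer_le_normalizer_omegaZ (p : ℕ) (S : Subgroup G) :
    Subgroup.normalizer (S : Set G) ≤ Subgroup.normalizer (omegaZ p S : Set G) := by
  intro g hg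
  have key : ∀ (g : G), g ∈ Subgroup.normalizer (S : Set G) → ∀ z ∈ omegaZ p S,
      g * z * g⁻¹ ∈ omegaZ p S := by
    intro g hg z hz
    obtain ⟨hzS, hzc, hzp⟩ := mem_omegaZ.mp hz
    have hgS : ∀ s, s ∈ S ↔ g * s * g⁻¹ ∈ S := fun s => by
      simpa using (Subgroup.mem_normalizer_iff.mp hg) s
    refine mem_omegaZ.mpr ⟨(hgS z).mp hzS, fun s hs => ?_, ?_⟩
    · have hs' : g⁻¹ * s * g ∈ S := by
        rw [hgS]; simpa [mul_assoc] using hs
      have h := hzc _ hs'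
      calc s * (g * z * g⁻¹) = g * ((g⁻¹ * s * g) * z) * g⁻¹ := by group
        _ = g * (z * (g⁻¹ * s * g)) * g⁻¹ := by rw [h]
        _ = g * z * g⁻¹ * s := by group
    · rw [conj_pow, hzp]; simp
  rw [Subgroup.mem_normalizer_iff]
  intro z
  constructor
  · exact key g hg z
  · intro h
    have hg' : g⁻¹ ∈ Subgroup.normalizer (S : Set G) := Subgroup.inv_mem _ hg
    have := key g⁻¹ hg' _ h
    simpa [mul_assoc] using this

end Cfsg.Agent.Lib.Helper15.BG12
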