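import Cfsg.Agent.Lib.Helper41.BG11Kit
import Cfsg.Agent.Lib.Helper3.BG11Om
import Cfsg.Agent.Lib.Helper3.BG11T6
import Cfsg.Agent.Lib.Helper54.BG11P4C
import Cfsg.Agent.S0126

/-!
# B&G Section 11, piece CYC: `PSyl G → PBSA G → PCyc G` (helper15, for helper41)

A normal `q`-subgroup `Y` of a maximal subgroup `M` is cyclic when `q ∉ σ(M)`.  If not, `Y`
contains an elementary abelian subgroup `B` of order `q ^ 2` (S0126), which is maximal
elementary abelian in `G` (B&G 10.5).  By helper54's `p4c_core` some subgroup `A₀` of order `q`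
of `B` has its normalizer in `M`, so `(M, q, B, A₀)` is an exceptional quadruple; by `PSyl`
`B = Ω₁(Q)` for a Sylow `q`-subgroup `Q ≥ Y` of `M` and `N(Q) ≰ M`.  But then
`B = Ω₁(Y)` is normal in `M`, `N(B) = M` and `N(Q) ≤ N(B) = M`.
-/

set_option autoImplicit false

open Cfsg Cfsg.Agent.Lib.Helper32 Cfsg.Agent.Lib.Helper32.BG10 Cfsg.Agent.Lib.Helper3.BG12
open Cfsg.Agent.Lib.Helper41.BG11

namespace Cfsg.Agent.Lib.Helper15.BG11

universe u

variable {G : Type u} [Group G] [Finite G]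

/-- `B = Ω₁(Q)`, `B ≤ Y ≤ Q`, `Y` normal in the maximal subgroup `M`: then `N(Q) ≤ M` -/
theorem cyc_final (hG : IsMinSimpleOddOrder G) {M : Subgroup G} (hM : IsCoatom M) {q : ℕ}
    {B Y Q : Subgroup G} (hBY : B ≤ Y) (hYQ : Y ≤ Q) (hYM : Y ≤ M)
    (hYn : M ≤ Subgroup.normalizer (Y : Set G)) (hB1 : B ≠ ⊥)
    (hΩ : ∀ x ∈ Q, x ^ q = 1 ↔ x ∈ B) : Subgroup.normalizer (Q : Set G) ≤ M := by
  have hMB : M ≤ Subgroup.normalizer (B : Set G) := by
    intro m hm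
    apply mem_normalizer_of_conj_mem
    intro b hb
    have h1 : m * b * m⁻¹ ∈ Y := conj_mem_of_mem_normalizer (hYn hm) (hBY hb)
    refine (hΩ _ (hYQ h1)).mp ?_
    rw [conj_pow, (hΩ b (hYQ (hBY hb))).mpr hb, mul_one, mul_inv_cancel]
  have hNB := Cfsg.Agent.Lib.Helper3.BG11.normalizer_eq_of_coatom hG hM hB1 (hBY.trans hYM) hMB
  rw [← hNB]
  exact Cfsg.Agent.Lib.Helper3.BG11.normalizer_le_of_omega hΩ (hBY.trans hYQ)

theorem cyc (hG : IsMinSimpleOddOrder G) (hSyl : PSyl G) (hBSA : PBSA G) : PCyc G := by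
  intro M q hM hq hσ Y hYM hYn hYq
  haveI : Fact q.Prime := ⟨hq⟩
  by_contra hnc
  have hY1 : Y ≠ ⊥ := by
    rintro rfl
    exact hnc inferInstance
  have hq2 : q ≠ 2 := by
    rintro rfl
    have hodd := minSimple_odd_sub hG Y
    obtain ⟨k, hk⟩ := IsPGroup.iff_card.mp hYq
    have hk0 : k ≠ 0 := by
      rintro rfl
      rw [pow_zero] at hk
      exact hY1 (Subgroup.card_eq_one.mp hk)
    rw [hk] at hodd
    exact (Nat.not_even_iff_odd.mpr hodd) ((Nat.even_pow' hk0).mpr even_two)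
  obtain ⟨A', -, hA'e, hA'c⟩ := Cfsg.Agent.S0126.result hq2 hYq hnc
  obtain ⟨B, hBdef⟩ : ∃ B : Subgroup G, B = A'.map Y.subtype := ⟨_, rfl⟩
  have hBY : B ≤ Y := by
    rw [hBdef]
    rintro x ⟨y, -, rfl⟩
    exact y.2
  have hBe : IsElementaryAbelian q B := by
    rw [hBdef]
    refine ⟨⟨⟨?_⟩⟩, ?_⟩
    · rintro ⟨x, y, hy, rfl⟩ ⟨x', y', hy', rfl⟩
      apply Subtype.ext
      have h1 := hA'e.1.is_comm.comm ⟨y, hy⟩ ⟨y', hy'⟩
      have h2 := congrArg (fun t : ↥A' => ((t : ↥Y) : G)) h1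
      simpa using h2
    · rintro x ⟨y, hy, rfl⟩
      have h1 := hA'e.2 y hy
      have h2 := congrArg (fun t : ↥Y => (t : G)) h1
      simpa using h2
  have hBc : Nat.card B = q ^ 2 := by
    rw [hBdef, ← Nat.card_congr (A'.equivMapOfInjective Y.subtype Y.subtype_injective).toEquiv]
    exact hA'c
  have hBM : B ≤ M := hBY.trans hYM
  have hB1 : B ≠ ⊥ := by
    intro h
    rw [h, Subgroup.card_bot] at hBc
    have := hq.one_lt
    nlinarith
  obtain ⟨hr2, hr1⟩ := rank_two_of hG hM hq hσ hBM hBe hBc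
  obtain ⟨-, hmax0⟩ := h5_of hG M hM q hσ hr2 hr1
  have hmax : MaxEA q B := ⟨hBe, fun C hC hBC => hmax0 B hBM hBe hBc C hC hBC⟩
  have hnb : ¬ Bad M q B := fun hbad =>
    Cfsg.Agent.Lib.Helper54.BG11.p4c_core hG hM hq hBM hmax hBc hbad hσ hYM hYn hYq hBY
  unfold Bad at hnb
  push Not at hnb
  obtain ⟨A₀, hA₀B, hA₀c, hN, -⟩ := hnb
  have hE := exc_mk hG hM hq hσ hBM hBe hBc hA₀B hA₀c hN
  obtain ⟨Q, hQ, hYQ⟩ := exists_sylSet_ge hYq hYM
  obtain ⟨-, h2⟩ := hSyl M q B A₀ hE Q hQ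
  obtain ⟨hΩ, hNQ⟩ := h2 (hBY.trans hYQ)
  exact hNQ (cyc_final hG hM hBY hYQ hYM hYn hB1 hΩ)

end Cfsg.Agent.Lib.Helper15.BG11
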