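import Cfsg.Agent.Lib.Helper15.BG11Aux

/-!
# B&G Section 11, piece UNIQS (B&G 11.4) (helper15, for helper41)
-/

set_option autoImplicit false

open Cfsg Cfsg.Agent.Lib.Helper32 Cfsg.Agent.Lib.Helper32.BG10 Cfsg.Agent.Lib.Helper3.BG12
open Cfsg.Agent.Lib.Helper41.BG11

namespace Cfsg.Agent.Lib.Helper15.BG11

universe u

variable {G : Type u} [Group G] [Finite G]

theorem uniqs (hG : IsMinSimpleOddOrder G) (hTr : PTr G) (hNil : PNil G) (hFpf : PFpf G)
    (hBeta : PBeta G) (hBU : PBU G) : PUniqS G := by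
  intro M p A A₀ hE H hH hAH hD
  obtain ⟨hM, hp, hσ, hAM, hmax, hAc, hpid, hA₀, hA₀c, hN⟩ := id hE
  have : Fact p.Prime := ⟨hp⟩
  have hDS : sigmaCore H ⊓ sigmaCore M ≤ sigmaCore M := inf_le_right
  have hDH : sigmaCore H ⊓ sigmaCore M ≤ sigmaCore H := inf_le_left
  have hSM := aux_sigmaCore_le M
  have hSH := aux_sigmaCore_le H
  have hAD : A ≤ Subgroup.normalizer ((sigmaCore H ⊓ sigmaCore M : Subgroup G) : Set G) :=
    aux_normalizer_inf (hAH.trans (aux_le_normalizer_sigmaCore H))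
      (hAM.trans (aux_le_normalizer_sigmaCore M))
  have hcopD : (Nat.card ↥(sigmaCore H ⊓ sigmaCore M)).Coprime p := aux_coprime hp hσ hDS
  have hAsol : Group.IsSolvable ↥A :=
    minSimple_solvable hG (fun h => hM.1 (top_le_iff.mp (h ▸ hAM)))
  have hAp : IsPGroup p A := IsPGroup.of_card hAc
  have hcopAD : (Nat.card A).Coprime (Nat.card ↥(sigmaCore H ⊓ sigmaCore M)) := by
    rw [hAc]
    exact Nat.Coprime.pow_left 2 hcopD.symm
  have hD1 : Nat.card ↥(sigmaCore H ⊓ sigmaCore M) ≠ 1 :=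
    fun h => hD (Subgroup.card_eq_one.mp h)
  obtain ⟨q, hq, hqD⟩ := Nat.exists_prime_and_dvd hD1
  have : Fact q.Prime := ⟨hq⟩
  have hqM : q ∈ sigma M :=
    Cfsg.Agent.Lib.Helper32.BG12.mem_sigma_of_dvd_sigmaCore hq
      (hqD.trans (Subgroup.card_dvd_of_le hDS))
  have hqH : q ∈ sigma H :=
    Cfsg.Agent.Lib.Helper32.BG12.mem_sigma_of_dvd_sigmaCore hq
      (hqD.trans (Subgroup.card_dvd_of_le hDH))
  have hqp : q ≠ p := fun h => hσ (h ▸ hqM)
  obtain ⟨X, hX, hAX⟩ := exists_invariant_sylow (q := q) A (sigmaCore H ⊓ sigmaCore M) hAD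
    hcopAD hAsol
  have hXq : IsPGroup q X := isPGroup_of_mem_sylSet hX
  have hX1 : X ≠ ⊥ := aux_sylSet_ne_bot hq hX hqD
  have hXS : X ≤ sigmaCore M := hX.1.trans hDS
  have hXH : X ≤ sigmaCore H := hX.1.trans hDH
  by_cases hpH : p ∈ sigma H
  · by_cases hqid : IsIdealPrime q G
    · exact hBU M H X q hM hH hq hqid hqM hqH hXq hX1 (hXS.trans hSM) (hXH.trans hSH)
    · exfalso
      have hASH : A ≤ sigmaCore H :=
        Cfsg.Agent.Lib.Helper32.BG12.pgroup_le_sigmaCore hG hH hpH hAp hAH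
      have hW : A ⊔ X ≤ sigmaCore H := sup_le hASH hXH
      have hWnil : Group.IsNilpotent ↥(A ⊔ X) := by
        apply hBeta H (A ⊔ X) hH hW
        intro r hr hrW
        have h1 : r ∣ Nat.card X * Nat.card A :=
          hrW.trans (Cfsg.Agent.Lib.Helper76.CS.card_sup_dvd hAX)
        obtain ⟨k, hk⟩ := IsPGroup.iff_card.mp hXq
        rw [hk, hAc] at h1
        rcases (Nat.Prime.dvd_mul hr).mp h1 with h2 | h2
        · have : r = q := (Nat.prime_dvd_prime_iff_eq hr hq).mp (hr.dvd_of_dvd_pow h2)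
          rw [this]
          exact hqid
        · have : r = p := (Nat.prime_dvd_prime_iff_eq hr hp).mp (hr.dvd_of_dvd_pow h2)
          rw [this]
          exact hpid
      have hcomm := aux_commute_of_nilpotent hWnil hp hq hqp hXq hAp le_sup_right le_sup_left
      have hXC : X ≤ sigmaCore M ⊓ Subgroup.centralizer (A : Set G) := by
        intro x hx
        refine ⟨hXS hx, ?_⟩
        exact Subgroup.mem_centralizer_iff.mpr (fun a ha => hcomm x hx a ha)
      rw [(hFpf M p A A₀ hE).1] at hXC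
      exact hX1 (le_bot_iff.mp hXC)
  · have hcopH : (Nat.card ↥(sigmaCore H)).Coprime p := aux_coprime hp hpH le_rfl
    have hASH : A ≤ Subgroup.normalizer (sigmaCore H : Set G) :=
      hAH.trans (aux_le_normalizer_sigmaCore H)
    obtain ⟨Q₂, hQ₂, hAQ₂, hXQ₂⟩ := exists_invariant_sylow_ge (q := q) A (sigmaCore H) hASH
      (by rw [hAc]; exact Nat.Coprime.pow_left 2 hcopH.symm) hAsol hXq hXH hAX
    obtain ⟨-, hQ₂top, hNQ₂⟩ := aux_f3 hG hH hqH hQ₂
    have hnil : Group.IsNilpotent ↥(sigmaCore M) := hNil M p A A₀ hE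
    obtain ⟨Q₁, hQ₁, hXQ₁, hMQ₁⟩ :=
      aux_exists_normal_sylow hnil (aux_le_normalizer_sigmaCore M) hXq hXS
    obtain ⟨hQ₁M, hQ₁top, hNQ₁⟩ := aux_f3 hG hM hqM hQ₁
    have hXne : ∀ {K : Subgroup G}, X ≤ K → M ⊓ K ≠ ⊥ := by
      intro K hXK h
      apply hX1
      rw [eq_bot_iff, ← h]
      exact le_inf (hXS.trans hSM) hXK
    obtain ⟨k, hk, hkQ⟩ := hTr p A hp hmax hAc q hq hqp Q₁ Q₂ hQ₁top hQ₂top (hAM.trans hMQ₁)
      hAQ₂ M hM.1 hAM (hXne hXQ₁) (hXne hXQ₂)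
    have hkM : k ∈ M := hE.cent_le hk
    have hQeq : Q₂ = Q₁ := by
      rw [hkQ]
      exact cj_eq_self_iff.mpr (hMQ₁ hkM)
    have hMH : M ≤ H := by
      calc M ≤ Subgroup.normalizer (Q₁ : Set G) := hMQ₁
        _ = Subgroup.normalizer (Q₂ : Set G) := by rw [hQeq]
        _ ≤ H := hNQ₂
    exact (coatom_eq_of_le hM hH hMH).symm

end Cfsg.Agent.Lib.Helper15.BG11
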