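import Cfsg.Agent.Lib.Helper3.BG12Pieces
import Cfsg.Agent.Lib.Helper32.BG10Main
import Cfsg.Agent.Lib.Helper26.FpfConj

/-!
# B&G, the row S1429 (helper15)

`H29 G` (= S1429 as a `Prop`, without its unused hypothesis) from `H17 G` (= S1417).
-/

set_option autoImplicit false

open Cfsg Cfsg.Agent.Lib.Helper32 Cfsg.Agent.Lib.Helper32.BG10 Cfsg.Agent.Lib.Helper3.BG12

namespace Cfsg.Agent.Lib.Helper15.BG13

universe u

/-- S1429 (the hypothesis "not of type P₁" is not needed) -/
def H29 (G : Type u) [Group G] : Prop :=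
  ∀ (M : Subgroup G), IsCoatom M → ∀ (p : ℕ) [Fact p.Prime], p ∣ Nat.card M →
    p ∉ Cfsg.sigma M ∪ Cfsg.kappa M → ∀ S : Sylow p M,
    Nat.card ↥(Subgroup.closure {x : G | x ∈ (S : Subgroup M).map M.subtype ∧ x ^ p = 1}) ≤ p ^ 2 ∧
      Cfsg.sigmaCore M ⊓ Subgroup.centralizer ((Subgroup.closure {x : G | x ∈ (S : Subgroup M).map M.subtype ∧ x ^ p = 1} : Subgroup G) : Set G) = ⊥ ∧
      Group.IsNilpotent (Cfsg.sigmaCore M)

variable {G : Type u} [Group G] [Finite G]

/-- Sylow `p`-subgroups of `M` are cyclic when `M` has `p`-rank at most one (`p` odd) -/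
theorem cyclic_of_prankLE_one {M : Subgroup G} {p : ℕ} [Fact p.Prime] (hp2 : p ≠ 2)
    (h1 : PRankLE p 1 ↥M) {P : Subgroup G} (hPp : IsPGroup p P) (hPM : P ≤ M) : IsCyclic ↥P := by
  have hpp : p.Prime := Fact.out
  by_contra hnc
  have h2' := not_rankLE_one_of_not_cyclic hp2 hPp hnc
  obtain ⟨r, E, hr, hES, hEc, hEp, hEcard⟩ := exists_elemAb_of_not_rankLE P 1 h2'
  have hEq : IsPGroup p E := hPp.to_le hES
  obtain ⟨k, hk⟩ := IsPGroup.iff_card.mp hEq
  have hrq : r = p := by
    have h3 : r ∣ p ^ k := by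
      rw [← hk, hEcard]
      exact dvd_pow_self r (by norm_num)
    exact (Nat.prime_dvd_prime_iff_eq hr hpp).mp (hr.dvd_of_dvd_pow h3)
  subst hrq
  refine not_prankLE_of_le (hES.trans hPM) hEc hEp ?_ h1
  rw [hEcard]
  exact Nat.pow_lt_pow_right hr.one_lt (by norm_num)

omit [Finite G] in
/-- in a cyclic group, the subgroup generated by the elements of order dividing `p` has order
dividing `p` -/
theorem card_closure_pow_dvd {P : Subgroup G} (hc : IsCyclic ↥P) (p : ℕ) :
    Nat.card ↥(Subgroup.closure {x : G | x ∈ P ∧ x ^ p = 1}) ∣ p := by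
  set Ω : Subgroup G := Subgroup.closure {x : G | x ∈ P ∧ x ^ p = 1} with hΩ
  have hΩP : Ω ≤ P := by
    rw [hΩ, Subgroup.closure_le]
    exact fun x hx => hx.1
  have hcomm : ∀ a ∈ P, ∀ b ∈ P, a * b = b * a := by
    intro a ha b hb
    have : IsMulCommutative ↥P := IsCyclic.isMulCommutative
    have h := mul_comm' (⟨a, ha⟩ : ↥P) ⟨b, hb⟩
    exact congrArg Subtype.val h
  have hpow : ∀ x ∈ Ω, x ^ p = 1 := by
    intro x hx
    have key : ∀ y ∈ Ω, y ∈ P ∧ y ^ p = 1 := by
      intro y hy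
      rw [hΩ] at hy
      induction hy using Subgroup.closure_induction with
      | mem z hz => exact hz
      | one => exact ⟨P.one_mem, one_pow p⟩
      | mul a b _ _ iha ihb =>
        refine ⟨P.mul_mem iha.1 ihb.1, ?_⟩
        have hc' : Commute a b := hcomm a iha.1 b ihb.1
        rw [hc'.mul_pow, iha.2, ihb.2, one_mul]
      | inv a _ iha => exact ⟨P.inv_mem iha.1, by rw [inv_pow, iha.2, inv_one]⟩
    exact (key x hx).2
  have hcΩ : IsCyclic ↥Ω := by
    have h1 : IsCyclic ↥(Ω.subgroupOf P) := inferInstance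
    exact isCyclic_of_surjective (Subgroup.subgroupOfEquivOfLe hΩP).toMonoidHom
      (Subgroup.subgroupOfEquivOfLe hΩP).surjective
  obtain ⟨g, hg⟩ := hcΩ.exists_generator
  have h1 : Nat.card ↥Ω = orderOf g := (orderOf_eq_card_of_forall_mem_zpowers hg).symm
  rw [h1]
  apply orderOf_dvd_of_pow_eq_one
  apply Subtype.ext
  simpa using hpow g.1 g.2

theorem h29_of (hG : IsMinSimpleOddOrder G) (h17 : H17 G) : H29 G := by
  intro M hM p _ hpM hp S
  have hpp : p.Prime := Fact.out
  have hps : p ∉ sigma M := fun h => hp (Or.inl h)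
  have hpk : p ∉ kappa M := fun h => hp (Or.inr h)
  have hPs : (S : Subgroup M).map M.subtype ∈ sylSet p M := mem_sylSet_of_sylow S
  have hPp : IsPGroup p ((S : Subgroup M).map M.subtype) := isPGroup_of_mem_sylSet hPs
  have hPM : (S : Subgroup M).map M.subtype ≤ M := hPs.1
  have h2 : PRankLE p 2 ↥M := by
    by_contra h
    exact hps (alpha_sub_sigma hG (ut_of hG) hM ⟨hpp, h⟩)
  by_cases h1 : PRankLE p 1 ↥M
  · -- the cyclic case
    have hp2 : p ≠ 2 := by
      rintro rfl
      have hodd : Odd (Nat.card M) := minSimple_odd_sub hG M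
      exact (Nat.not_even_iff_odd.mpr hodd) (even_iff_two_dvd.mpr hpM)
    have hcyc : IsCyclic ↥((S : Subgroup M).map M.subtype) := cyclic_of_prankLE_one hp2 h1 hPp hPM
    -- no nonidentity element of `P` centralizes a nonidentity element of `M_σ`
    have hfpf : ∀ x ∈ (S : Subgroup M).map M.subtype, x ≠ 1 → ∀ y ∈ sigmaCore M,
        x * y = y * x → y = 1 := by
      have hk : ∃ P' : Sylow p M, ¬ (IsCyclic (P' : Subgroup M) ∧
          ∃ x : M, x ∈ (P' : Subgroup M) ∧ x ≠ 1 ∧ ∃ y ∈ sigmaCore M, y ≠ 1 ∧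
            (x : G) * y = y * x) := by
        by_contra hcon
        push Not at hcon
        exact hpk ⟨hpp, hpM, hps, fun P' => hcon P'⟩
      obtain ⟨P', hP'⟩ := hk
      have hQs : (P' : Subgroup M).map M.subtype ∈ sylSet p M := mem_sylSet_of_sylow P'
      have hQc : IsCyclic ↥((P' : Subgroup M).map M.subtype) :=
        cyclic_of_prankLE_one hp2 h1 (isPGroup_of_mem_sylSet hQs) hQs.1
      have hP'c : IsCyclic ↥(P' : Subgroup M) :=
        isCyclic_of_surjective
          ((P' : Subgroup M).equivMapOfInjective M.subtype M.subtype_injective).symm.toMonoidHom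
          ((P' : Subgroup M).equivMapOfInjective M.subtype M.subtype_injective).symm.surjective
      have hQ : ∀ x ∈ (P' : Subgroup M).map M.subtype, x ≠ 1 → ∀ y ∈ sigmaCore M,
          x * y = y * x → y = 1 := by
        rintro x ⟨x', hx', rfl⟩ hx1 y hy hxy
        by_contra hy1
        exact hP' ⟨hP'c, x', hx', fun h => hx1 (by rw [h]; rfl), y, hy, hy1, hxy⟩
      obtain ⟨n, hnM, hn⟩ := sylSet_conj hQs hPs
      intro x hx hx1 y hy hxy
      rw [← hn, mem_cj] at hx
      have hnn : n⁻¹ ∈ Subgroup.normalizer ((sigmaCore M : Subgroup G) : Set G) :=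
        le_normalizer_map_subtype M _ (M.inv_mem hnM)
      have hy' : n⁻¹ * y * n ∈ sigmaCore M := by
        have := (Subgroup.mem_normalizer_iff.mp hnn y).mp hy
        simpa using this
      have h3 := hQ (n⁻¹ * x * n) hx (fun h => hx1 (by
        have : x = n * (n⁻¹ * x * n) * n⁻¹ := by group
        rw [this, h]; group)) (n⁻¹ * y * n) hy' (by
        have e1 : n⁻¹ * x * n * (n⁻¹ * y * n) = n⁻¹ * (x * y) * n := by group
        have e2 : n⁻¹ * y * n * (n⁻¹ * x * n) = n⁻¹ * (y * x) * n := by group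
        rw [e1, e2, hxy])
      have : y = n * (n⁻¹ * y * n) * n⁻¹ := by group
      rw [this, h3]; group
    -- an element of order `p` in `P`
    have hpP : p ∣ Nat.card ↥((S : Subgroup M).map M.subtype) := by
      rw [hPs.2]
      have hpos : 0 < (Nat.card M).factorization p :=
        hpp.factorization_pos_of_dvd Nat.card_pos.ne' hpM
      exact dvd_pow_self p hpos.ne'
    obtain ⟨x₀, hx₀⟩ := exists_prime_orderOf_dvd_card' (G := ↥((S : Subgroup M).map M.subtype)) p hpP
    have hx₀1 : (x₀ : G) ≠ 1 := by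
      intro h
      have : x₀ = 1 := Subtype.ext h
      rw [this, orderOf_one] at hx₀
      exact hpp.one_lt.ne hx₀
    have hx₀p : (x₀ : G) ^ p = 1 := by
      have := pow_orderOf_eq_one x₀
      rw [hx₀] at this
      simpa using congrArg Subtype.val this
    have hx₀M : (x₀ : G) ∈ M := hPM x₀.2
    refine ⟨?_, ?_, ?_⟩
    · have hd := card_closure_pow_dvd hcyc p
      have h3 : Nat.card ↥(Subgroup.closure {x : G | x ∈ (S : Subgroup M).map M.subtype ∧ x ^ p = 1}) ≤ p :=
        Nat.le_of_dvd hpp.pos hd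
      calc _ ≤ p := h3
        _ ≤ p ^ 2 := Nat.le_self_pow (by norm_num) p
    · rw [eq_bot_iff]
      rintro y ⟨hy, hyc⟩
      have hmem : (x₀ : G) ∈ Subgroup.closure {x : G | x ∈ (S : Subgroup M).map M.subtype ∧ x ^ p = 1} :=
        Subgroup.subset_closure ⟨x₀.2, hx₀p⟩
      have hxy : (x₀ : G) * y = y * x₀ := (Subgroup.mem_centralizer_iff.mp hyc) _ hmem
      exact Subgroup.mem_bot.mpr (hfpf _ x₀.2 hx₀1 y hy hxy)
    · have hn : (x₀ : G) ∈ Subgroup.normalizer ((sigmaCore M : Subgroup G) : Set G) :=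
        le_normalizer_map_subtype M _ hx₀M
      have hn' : (x₀ : G)⁻¹ ∈ Subgroup.normalizer ((sigmaCore M : Subgroup G) : Set G) :=
        Subgroup.inv_mem _ hn
      refine Cfsg.Agent.Lib.Helper26.nilpotent_of_conj_fpf (sigmaCore M) (x₀ : G) p hpp hx₀p ?_ ?_ ?_
      · intro y hy
        exact (Subgroup.mem_normalizer_iff.mp hn y).mp hy
      · intro y hy
        have := (Subgroup.mem_normalizer_iff.mp hn' y).mp hy
        simpa using this
      · intro y hy hxy
        exact hfpf _ x₀.2 hx₀1 y hy hxy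
  · -- the case `p ∈ τ₂(M)`
    have hτ : p ∈ tau2 M := ⟨hpp, hps, h2, h1⟩
    obtain ⟨A, hAP, hAe, hAc⟩ := Cfsg.Agent.Lib.Helper3.BG12S.exists_elemAb2_le_sylSet h1 hPs
    obtain ⟨hnil, hSyl, -, hcent, -, -⟩ := h17 M hM p hτ A ⟨hAP.trans hPM, hAe, hAc⟩
    obtain ⟨-, hom⟩ := hSyl S
    obtain ⟨hom1, -⟩ := hom hAP
    have hset : {x : G | x ∈ (S : Subgroup M).map M.subtype ∧ x ^ p = 1} = (A : Set G) := by
      ext x
      constructor
      · rintro ⟨hx, hxp⟩
        exact (hom1 x hx).mp hxp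
      · intro hx
        exact ⟨hAP hx, (hom1 x (hAP hx)).mpr hx⟩
    rw [hset, Subgroup.closure_eq]
    exact ⟨hAc.le, hcent, hnil⟩

end Cfsg.Agent.Lib.Helper15.BG13
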