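import Cfsg.Agent.Lib.Helper3.BG12Pieces
import Cfsg.Agent.Lib.Helper32.BG10Main
import Cfsg.Agent.Lib.Helper32.FitSub
import Cfsg.Agent.Lib.Helper32.Trans
import Cfsg.Agent.Lib.Helper72.HHFit
import Cfsg.Agent.Lib.Helper30.FStar

/-!
# B&G, the row S1439 (helper15)

`H39 G` (= S1439 as a `Prop`) from `H17 G` (= S1417).
-/

set_option autoImplicit false

open Cfsg Cfsg.Agent.Lib.Helper32 Cfsg.Agent.Lib.Helper32.BG10 Cfsg.Agent.Lib.Helper3.BG12

namespace Cfsg.Agent.Lib.Helper15.BG13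

universe u

/-- S1439 -/
def H39 (G : Type u) [Group G] : Prop :=
  ∀ (M : Subgroup G), IsCoatom M →
    IsCyclic ↥(Cfsg.piCoreOf {q | q.Prime ∧ q ∉ Cfsg.sigma M} (Cfsg.fittingOf M)) ∧
      (∀ p : ℕ, p.Prime → p ∣ Nat.card ↥(Cfsg.piCoreOf {q | q.Prime ∧ q ∉ Cfsg.sigma M} (Cfsg.fittingOf M)) → p ∈ Cfsg.tau2 M) ∧
      Cfsg.fittingOf M = Cfsg.fittingOf (Cfsg.sigmaCore M) ⊔ Cfsg.piCoreOf {q | q.Prime ∧ q ∉ Cfsg.sigma M} (Cfsg.fittingOf M)

variable {G : Type u} [Group G] [Finite G]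

/-- `O_q(M) ≠ 1`, `q ∉ σ(M)`: then `q ∈ τ₂(M)` -/
theorem mem_tau2_of_pCoreOf_ne_bot (hG : IsMinSimpleOddOrder G) {M : Subgroup G} (hM : IsCoatom M)
    {q : ℕ} [Fact q.Prime] (hq : q ∉ sigma M) (h1 : pCoreOf q M ≠ ⊥) : q ∈ tau2 M := by
  have hN : Subgroup.normalizer ((pCoreOf q M : Subgroup G) : Set G) = M :=
    normalizer_eq_of_coatom hG hM h1 (pCoreOf_le q M) (le_normalizer_pCoreOf q M)
  exact Cfsg.Agent.Lib.Helper3.BG12S.mem_tau2_of_normalizer_le hG hM hq (isPGroup_pCoreOf q M) h1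
    hN.le

/-- `O_q(M)` is cyclic for `q ∉ σ(M)` -/
theorem cyclic_pCoreOf (hG : IsMinSimpleOddOrder G) (h17 : H17 G) {M : Subgroup G}
    (hM : IsCoatom M) {q : ℕ} [Fact q.Prime] (hq : q ∉ sigma M) : IsCyclic ↥(pCoreOf q M) := by
  have hqp : q.Prime := Fact.out
  by_contra hnc
  have hQq : IsPGroup q (pCoreOf q M) := isPGroup_pCoreOf q M
  have hQM : pCoreOf q M ≤ M := pCoreOf_le q M
  have hQ1 : pCoreOf q M ≠ ⊥ := by
    intro h
    apply hnc
    rw [h]
    infer_instance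
  have hτ : q ∈ tau2 M := mem_tau2_of_pCoreOf_ne_bot hG hM hq hQ1
  have hq2 : q ≠ 2 := by
    rintro rfl
    have hodd : Odd (Nat.card ↥(pCoreOf 2 M)) := minSimple_odd_sub hG _
    obtain ⟨k, hk⟩ := IsPGroup.iff_card.mp hQq
    have hk0 : k ≠ 0 := by
      rintro rfl
      rw [pow_zero] at hk
      exact hQ1 (Subgroup.card_eq_one.mp hk)
    rw [hk] at hodd
    exact (Nat.not_even_iff_odd.mpr hodd) (Nat.even_pow.mpr ⟨even_two, hk0⟩)
  have h2 := not_rankLE_one_of_not_cyclic hq2 hQq hnc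
  obtain ⟨r, A, hr, hAQ, hAc, hAp, hAcard⟩ := exists_elemAb_of_not_rankLE (pCoreOf q M) 1 h2
  have hAq : IsPGroup q A := hQq.to_le hAQ
  obtain ⟨k, hk⟩ := IsPGroup.iff_card.mp hAq
  have hrq : r = q := by
    have h3 : r ∣ q ^ k := by
      rw [← hk, hAcard]
      exact dvd_pow_self r (by norm_num)
    exact (Nat.prime_dvd_prime_iff_eq hr hqp).mp (hr.dvd_of_dvd_pow h3)
  subst hrq
  have hAe : IsElementaryAbelian r A := by
    refine ⟨⟨⟨fun a b => ?_⟩⟩, hAp⟩
    exact Subtype.ext (hAc a.1 a.2 b.1 b.2)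
  have hAcard' : Nat.card A = r ^ 2 := by simpa using hAcard
  obtain ⟨-, hSyl, -, -, -, -⟩ := h17 M hM r hτ A ⟨hAQ.trans hQM, hAe, hAcard'⟩
  obtain ⟨R, hR, hQR⟩ := exists_sylSet_ge hQq hQM
  obtain ⟨P, hP⟩ := exists_sylow_of_mem_sylSet hR
  obtain ⟨-, hom⟩ := hSyl P
  rw [hP] at hom
  obtain ⟨hom1, hN⟩ := hom (hAQ.trans hQR)
  have hA1 : A ≠ ⊥ := by
    intro h
    rw [h, Subgroup.card_bot] at hAcard'
    have := hr.one_lt
    nlinarith
  -- `M` normalizes `A`
  have hMA : M ≤ Subgroup.normalizer (A : Set G) := by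
    have key : ∀ m ∈ M, ∀ a ∈ A, m * a * m⁻¹ ∈ A := by
      intro m hm a ha
      have h3 : m * a * m⁻¹ ∈ pCoreOf r M :=
        (Subgroup.mem_normalizer_iff.mp (le_normalizer_pCoreOf r M hm) a).mp (hAQ ha)
      refine (hom1 _ (hQR h3)).mp ?_
      rw [conj_pow, hAp a ha]
      simp
    intro m hm
    rw [Subgroup.mem_normalizer_iff]
    intro a
    constructor
    · exact key m hm a
    · intro h
      have := key m⁻¹ (M.inv_mem hm) _ h
      simpa [mul_assoc] using this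
  have hNA : Subgroup.normalizer (A : Set G) = M :=
    normalizer_eq_of_coatom hG hM hA1 (hAQ.trans hQM) hMA
  -- `N_G(R) ≤ N_G(A)`
  apply hN
  rw [← hNA]
  have key : ∀ g ∈ Subgroup.normalizer (R : Set G), ∀ a ∈ A, g * a * g⁻¹ ∈ A := by
    intro g hg a ha
    have h3 : g * a * g⁻¹ ∈ R :=
      (Subgroup.mem_normalizer_iff.mp hg a).mp (hQR (hAQ ha))
    refine (hom1 _ h3).mp ?_
    rw [conj_pow, hAp a ha]
    simp
  intro g hg
  rw [Subgroup.mem_normalizer_iff]
  intro a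
  constructor
  · exact key g hg a
  · intro h
    have := key g⁻¹ (Subgroup.inv_mem _ hg) _ h
    simpa [mul_assoc] using this

theorem h39_of (hG : IsMinSimpleOddOrder G) (h17 : H17 G) : H39 G := by
  intro M hM
  have hπ := piCoreOf_primes {q | q.Prime ∧ q ∉ Cfsg.sigma M} (fittingOf M)
  have hYF := piCoreOf_le {q | q.Prime ∧ q ∉ Cfsg.sigma M} (fittingOf M)
  have hFnil : Group.IsNilpotent ↥(fittingOf M) := isNilpotent_fittingOf M
  -- a prime dividing the order of `F(M)` has `O_p(M) ≠ 1`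
  have hne : ∀ p : ℕ, p.Prime → p ∣ Nat.card ↥(fittingOf M) → pCoreOf p M ≠ ⊥ := by
    intro p hp hdvd
    have : Fact p.Prime := ⟨hp⟩
    obtain ⟨x, hx⟩ := exists_prime_orderOf_dvd_card' (G := ↥(fittingOf M)) p hdvd
    have hx' : orderOf (x : G) = p ^ 1 := by
      rw [pow_one, Subgroup.orderOf_coe, hx]
    have hmem := mem_pCoreOf_of_mem_fittingOf p x.2 hx'
    intro hbot
    rw [hbot, Subgroup.mem_bot] at hmem
    rw [hmem, orderOf_one, pow_one] at hx'
    have := hp.one_lt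
    omega
  have hτ : ∀ p : ℕ, p.Prime →
      p ∣ Nat.card ↥(Cfsg.piCoreOf {q | q.Prime ∧ q ∉ Cfsg.sigma M} (Cfsg.fittingOf M)) →
      p ∈ Cfsg.tau2 M := by
    intro p hp hdvd
    have : Fact p.Prime := ⟨hp⟩
    have hpσ : p ∉ sigma M := (hπ p hp hdvd).2
    have hdF : p ∣ Nat.card ↥(fittingOf M) := hdvd.trans (Subgroup.card_dvd_of_le hYF)
    exact mem_tau2_of_pCoreOf_ne_bot hG hM hpσ (hne p hp hdF)
  refine ⟨?_, hτ, ?_⟩
  · -- cyclic
    have hYnil : Group.IsNilpotent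
        ↥(Cfsg.piCoreOf {q | q.Prime ∧ q ∉ Cfsg.sigma M} (Cfsg.fittingOf M)) :=
      Cfsg.Agent.Lib.Helper30.isNilpotent_of_le hYF hFnil
    have hZ : IsZGroup ↥(Cfsg.piCoreOf {q | q.Prime ∧ q ∉ Cfsg.sigma M} (Cfsg.fittingOf M)) := by
      refine ⟨fun p hp P => ?_⟩
      have : Fact p.Prime := ⟨hp⟩
      by_cases hP1 : (P : Subgroup ↥(Cfsg.piCoreOf {q | q.Prime ∧ q ∉ Cfsg.sigma M}
          (Cfsg.fittingOf M))) = ⊥
      · rw [hP1]
        infer_instance
      · have hdvd : p ∣ Nat.card ↥(Cfsg.piCoreOf {q | q.Prime ∧ q ∉ Cfsg.sigma M}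
            (Cfsg.fittingOf M)) := by
          by_contra hnd
          apply hP1
          have hc := P.card_eq_multiplicity
          rw [Nat.factorization_eq_zero_of_not_dvd hnd, pow_zero] at hc
          exact Subgroup.card_eq_one.mp hc
        have hpσ : p ∉ sigma M := (hπ p hp hdvd).2
        have hcyc : IsCyclic ↥(pCoreOf p M) := cyclic_pCoreOf hG h17 hM hpσ
        -- `P` embeds into `O_p(M)`
        have hmem : ∀ y : ↥(Cfsg.piCoreOf {q | q.Prime ∧ q ∉ Cfsg.sigma M} (Cfsg.fittingOf M)),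
            y ∈ (P : Subgroup _) → (y : G) ∈ pCoreOf p M := by
          intro y hy
          obtain ⟨k, hk⟩ := (IsPGroup.iff_orderOf.mp P.2) ⟨y, hy⟩
          have hk' : orderOf (y : G) = p ^ k := by
            rw [Subgroup.orderOf_coe, ← hk]
            exact Subgroup.orderOf_coe (⟨y, hy⟩ : ↥(P : Subgroup _))
          exact mem_pCoreOf_of_mem_fittingOf p (hYF y.2) hk'
        let f : ↥(P : Subgroup ↥(Cfsg.piCoreOf {q | q.Prime ∧ q ∉ Cfsg.sigma M}
            (Cfsg.fittingOf M))) →* ↥(pCoreOf p M) :=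
          { toFun := fun y => ⟨(y.1 : G), hmem y.1 y.2⟩
            map_one' := rfl
            map_mul' := fun _ _ => rfl }
        have hf : Function.Injective f := by
          intro a b hab
          have h0 := congrArg Subtype.val hab
          have h1 : ((a.1 : ↥(Cfsg.piCoreOf {q | q.Prime ∧ q ∉ Cfsg.sigma M}
              (Cfsg.fittingOf M))) : G) = (b.1 : G) := h0
          exact Subtype.ext (Subtype.ext h1)
        exact isCyclic_of_injective f hf
    infer_instance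
  · -- the Fitting subgroup
    apply le_antisymm
    · apply fittingOf_le_of_pCoreOf_le
      intro r hr
      have : Fact r.Prime := ⟨hr⟩
      by_cases hrσ : r ∈ sigma M
      · refine le_trans ?_ le_sup_left
        have h1 : pCoreOf r M ≤ sigmaCore M :=
          Cfsg.Agent.Lib.Helper3.BG12S.pgroup_le_sigmaCore hG hM hrσ (isPGroup_pCoreOf r M)
            (pCoreOf_le r M)
        have hsM : sigmaCore M ≤ M := by
          rintro x ⟨y, -, rfl⟩
          exact y.2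
        exact Cfsg.Agent.Lib.Helper72.HH.le_fittingOf_of_nilpotent h1
          (hsM.trans (le_normalizer_pCoreOf r M)) (isPGroup_pCoreOf r M).isNilpotent
      · refine le_trans ?_ le_sup_right
        apply le_piCoreOf _ (pCoreOf_le_fittingOf r M)
          ((fittingOf_le M).trans (le_normalizer_pCoreOf r M))
        intro p hp hdvd
        obtain ⟨k, hk⟩ := IsPGroup.iff_card.mp (isPGroup_pCoreOf r M)
        rw [hk] at hdvd
        have : p = r := (Nat.prime_dvd_prime_iff_eq hp hr).mp (hp.dvd_of_dvd_pow hdvd)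
        rw [this]
        exact ⟨hr, hrσ⟩
    · apply sup_le _ hYF
      have hsM : sigmaCore M ≤ M := by
        rintro x ⟨y, -, rfl⟩
        exact y.2
      exact Cfsg.Agent.Lib.Helper72.HH.fittingOf_le_fittingOf hsM (le_normalizer_map_subtype M _)

end Cfsg.Agent.Lib.Helper15.BG13
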