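import Mathlib

set_option autoImplicit false
open scoped commutatorElement

/-!
# Exponent of a nilpotent group from the exponent of its centre

`ec_exp_aux`: if `upperCentralSeries G c = ⊤` and every central element has `z ^ m = 1`,
then `x ^ (m ^ c) = 1` for all `x`.  `ec_exp_sub` is the subgroup form with
`Subgroup.lowerCentralSeries S c = ⊥`.
-/

namespace Cfsg.Agent.Lib.Helper15

universe u

/-- If `⁅x, g⁆` is central then `⁅x ^ k, g⁆ = ⁅x, g⁆ ^ k`. -/
theorem ec_comm_pow {G : Type*} [Group G] (x g : G) (h : ∀ y : G, ⁅x, g⁆ * y = y * ⁅x, g⁆)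
    (k : ℕ) : ⁅x ^ k, g⁆ = ⁅x, g⁆ ^ k := by
  induction k with
  | zero => simp
  | succ k ih =>
    have hc : x ^ k * ⁅x, g⁆ = ⁅x, g⁆ * x ^ k := (h (x ^ k)).symm
    calc ⁅x ^ (k + 1), g⁆ = (x ^ k * ⁅x, g⁆) * g * (x ^ k)⁻¹ * g⁻¹ := by
          rw [commutatorElement_def, commutatorElement_def, pow_succ]; group
      _ = (⁅x, g⁆ * x ^ k) * g * (x ^ k)⁻¹ * g⁻¹ := by rw [hc]
      _ = ⁅x, g⁆ * ⁅x ^ k, g⁆ := by rw [commutatorElement_def (x ^ k) g]; group
      _ = ⁅x, g⁆ * ⁅x, g⁆ ^ k := by rw [ih]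
      _ = ⁅x, g⁆ ^ (k + 1) := by rw [pow_succ']

theorem ec_exp_aux (c : ℕ) : ∀ (G : Type u) [Group G] (m : ℕ), Subgroup.upperCentralSeries G c = ⊤ →
    (∀ z ∈ Subgroup.center G, z ^ m = 1) → ∀ x : G, x ^ (m ^ c) = 1 := by
  induction c with
  | zero =>
    intro G _ m h _ x
    rw [Subgroup.upperCentralSeries_zero] at h
    have hx : x ∈ (⊥ : Subgroup G) := h ▸ Subgroup.mem_top x
    rw [Subgroup.mem_bot.mp hx, one_pow]
  | succ c ih =>
    intro G _ m h hZ x
    have hq : Subgroup.upperCentralSeries (G ⧸ Subgroup.center G) c = ⊤ := by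
      have h0 := Subgroup.comap_upperCentralSeries_quotient_center (G := G) c
      rw [h] at h0
      rw [eq_top_iff]
      intro y _
      obtain ⟨g, rfl⟩ := QuotientGroup.mk'_surjective (Subgroup.center G) y
      have hg : g ∈ Subgroup.comap (QuotientGroup.mk' (Subgroup.center G))
          (Subgroup.upperCentralSeries (G ⧸ Subgroup.center G) c) := by rw [h0]; trivial
      exact hg
    have hZq : ∀ z ∈ Subgroup.center (G ⧸ Subgroup.center G), z ^ m = 1 := by
      intro z hz
      obtain ⟨g, rfl⟩ := QuotientGroup.mk'_surjective (Subgroup.center G) z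
      have hcomm : ∀ y : G, ⁅g, y⁆ ∈ Subgroup.center G := by
        intro y
        rw [← QuotientGroup.eq_one_iff]
        have h1 := (Subgroup.mem_center_iff.mp hz) (QuotientGroup.mk' (Subgroup.center G) y)
        have h2 : ((⁅g, y⁆ : G) : G ⧸ Subgroup.center G) =
            ⁅QuotientGroup.mk' (Subgroup.center G) g, QuotientGroup.mk' (Subgroup.center G) y⁆ := by
          rw [commutatorElement_def, commutatorElement_def]; rfl
        rw [h2, commutatorElement_eq_one_iff_mul_comm]
        exact h1.symm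
      have hgm : g ^ m ∈ Subgroup.center G := by
        rw [Subgroup.mem_center_iff]
        intro y
        have h1 := ec_comm_pow g y
          (fun w => ((Subgroup.mem_center_iff.mp (hcomm y)) w).symm) m
        have h2 : ⁅g, y⁆ ^ m = 1 := hZ _ (hcomm y)
        rw [h2, commutatorElement_eq_one_iff_mul_comm] at h1
        exact h1.symm
      rw [← map_pow]
      exact (QuotientGroup.eq_one_iff _).mpr hgm
    have h1 := ih (G ⧸ Subgroup.center G) m hq hZq (QuotientGroup.mk' (Subgroup.center G) x)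
    have h2 : x ^ (m ^ c) ∈ Subgroup.center G := by
      rw [← QuotientGroup.eq_one_iff]
      rw [← map_pow] at h1
      exact h1
    rw [pow_succ, pow_mul]
    exact hZ _ h2

/-- Subgroup form: class at most `c` and `Z(S)` of exponent dividing `m` give exponent dividing
`m ^ c`. -/
theorem ec_exp_sub {Ω : Type u} [Group Ω] (S : Subgroup Ω) (m c : ℕ)
    (hc : Subgroup.lowerCentralSeries S c = ⊥)
    (hZ : ∀ z ∈ S ⊓ Subgroup.centralizer (S : Set Ω), z ^ m = 1) :
    ∀ x ∈ S, x ^ (m ^ c) = 1 := by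
  have h1 : Subgroup.lowerCentralSeries (⊤ : Subgroup S) c = ⊥ := by
    have h0 := Subgroup.top_subtype_lowerCentralSeries S c
    rw [hc] at h0
    exact (Subgroup.map_eq_bot_iff_of_injective _ S.subtype_injective).mp h0
  have h2 : Subgroup.upperCentralSeries S c = ⊤ :=
    Subgroup.lowerCentralSeries_eq_bot_iff_upperCentralSeries_eq_top.mp h1
  have h3 : ∀ z ∈ Subgroup.center S, z ^ m = 1 := by
    intro z hz
    apply Subtype.ext
    rw [Subgroup.coe_pow, Subgroup.coe_one]
    apply hZ
    refine Subgroup.mem_inf.mpr ⟨z.2, ?_⟩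
    rw [Subgroup.mem_centralizer_iff]
    intro s hs
    have h4 := (Subgroup.mem_center_iff.mp hz) ⟨s, hs⟩
    exact congrArg Subtype.val h4
  intro x hx
  have h5 := ec_exp_aux c S m h2 h3 ⟨x, hx⟩
  have h6 := congrArg Subtype.val h5
  rwa [Subgroup.coe_pow, Subgroup.coe_one] at h6

end Cfsg.Agent.Lib.Helper15
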