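import Mathlib
import Cfsg.Agent.Lib.Helper4.FCDefs

/-!
# Project FC (S4146), piece Z2E (helper15)
-/

namespace Cfsg.Agent.Lib.Helper4.FC

universe u

theorem fc_z2e : Z2AStmt.{u} → Z2DStmt.{u} → Z2EStmt.{u} := by
  intro hA hD K _ _ φ u hctx hu huZ hu2
  have hcop : (orderOf φ).Coprime (Nat.card K) := hctx.1
  obtain ⟨a, b, hab⟩ := hctx.2.1
  have hfixcomm : ∀ u v : K, φ u = u → φ v = v → u * v = v * u := hctx.2.2.1
  -- central elements are fixed
  have hcen : ∀ z : K, z ∈ Subgroup.center K → φ z = z := by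
    intro z hz
    exact hA K φ u z hctx hu huZ (Subgroup.mem_center_iff.mp hz u).symm
  have hall : ∀ x : K, φ x = x := by
    intro x
    have hc : u * x * u⁻¹ * x⁻¹ ∈ Subgroup.center K := by
      have h0 : u * x * u⁻¹ * x⁻¹ ∈ Subgroup.upperCentralSeries K 1 :=
        Subgroup.mem_upperCentralSeries_succ_iff.mp hu2 x
      rw [Subgroup.upperCentralSeries_one] at h0
      exact h0
    have h1 := hcen _ hc
    simp only [map_mul, map_inv, hu] at h1
    -- h1 : u * φ x * u⁻¹ * (φ x)⁻¹ = u * x * u⁻¹ * x⁻¹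
    have h2 : φ x * u⁻¹ * (φ x)⁻¹ = x * u⁻¹ * x⁻¹ := by
      have := congrArg (fun g => u⁻¹ * g) h1
      simpa [mul_assoc] using this
    have h3 : x⁻¹ * φ x * u⁻¹ = u⁻¹ * (x⁻¹ * φ x) := by
      have := congrArg (fun g => x⁻¹ * g * φ x) h2
      simp only [mul_assoc, inv_mul_cancel, mul_one, inv_mul_cancel_left] at this
      rw [mul_assoc, this]
    have h4 : x⁻¹ * φ x * u = u * (x⁻¹ * φ x) := by
      have := congrArg (fun g => u * g * u) h3
      simp only [mul_assoc, inv_mul_cancel, mul_one, mul_inv_cancel_left] at this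
      simpa [mul_assoc] using this.symm
    have hdfix : φ (x⁻¹ * φ x) = x⁻¹ * φ x :=
      hA K φ u (x⁻¹ * φ x) hctx hu huZ h4
    have hd1 : x⁻¹ * φ x = 1 := by
      apply hD K φ x (x⁻¹ * φ x) hcop _ hdfix
      group
    have := congrArg (fun g => x * g) hd1
    simpa using this
  exact hab (hfixcomm a b (hall a) (hall b))

end Cfsg.Agent.Lib.Helper4.FC
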