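import Mathlib
import Cfsg.Agent.Lib.Helper4.FCDefs

/-!
# Project FC (S4146), piece Z2F (helper15)
-/

namespace Cfsg.Agent.Lib.Helper4.FC

universe u

theorem z2f_helper15_ucs_stab {K : Type u} [Group K]
    (h : Subgroup.upperCentralSeries K 2 = Subgroup.upperCentralSeries K 1) (n : ℕ) :
    Subgroup.upperCentralSeries K (n + 1) = Subgroup.upperCentralSeries K 1 := by
  induction n with
  | zero => rfl
  | succ n ih =>
    ext x
    constructor
    · intro hx
      rw [Subgroup.mem_upperCentralSeries_succ_iff] at hx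
      rw [← h, Subgroup.mem_upperCentralSeries_succ_iff]
      intro y
      have := hx y
      rw [ih] at this
      exact this
    · intro hx
      rw [Subgroup.mem_upperCentralSeries_succ_iff]
      intro y
      rw [ih]
      rw [← h, Subgroup.mem_upperCentralSeries_succ_iff] at hx
      exact hx y

theorem z2f_helper15_exists {K : Type u} [Group K] (hnil : Group.IsNilpotent K)
    (hna : ∃ a b : K, a * b ≠ b * a) :
    ∃ x : K, x ∈ Subgroup.upperCentralSeries K 2 ∧ x ∉ Subgroup.center K := by
  by_contra hcon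
  have hcon : ∀ x : K, x ∈ Subgroup.upperCentralSeries K 2 → x ∈ Subgroup.center K := by
    intro x hx
    by_contra hxc
    exact hcon ⟨x, hx, hxc⟩
  have h21 : Subgroup.upperCentralSeries K 2 = Subgroup.upperCentralSeries K 1 := by
    apply le_antisymm
    · intro x hx
      rw [Subgroup.upperCentralSeries_one]
      exact hcon x hx
    · intro x hx
      rw [Subgroup.mem_upperCentralSeries_succ_iff]
      intro y
      rw [Subgroup.upperCentralSeries_one] at hx
      have hxy : x * y * x⁻¹ * y⁻¹ = 1 := by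
        have := Subgroup.mem_center_iff.mp hx y
        rw [← this]
        group
      have hgoal : x * y * x⁻¹ * y⁻¹ ∈ Subgroup.upperCentralSeries K 1 := by
        rw [hxy]
        exact Subgroup.one_mem _
      exact hgoal
  obtain ⟨n, hn⟩ := hnil.nilpotent'
  have htop : Subgroup.center K = ⊤ := by
    rcases n with _ | n
    · rw [Subgroup.upperCentralSeries_zero] at hn
      rw [eq_top_iff, ← hn]
      exact bot_le
    · rw [z2f_helper15_ucs_stab h21 n, Subgroup.upperCentralSeries_one] at hn
      exact hn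
  obtain ⟨a, b, hab⟩ := hna
  have ha : a ∈ Subgroup.center K := by rw [htop]; exact Subgroup.mem_top a
  exact hab ((Subgroup.mem_center_iff.mp ha b).symm)

theorem z2f_helper15_char {K : Type u} [Group K] (φ : MulAut K) (n : ℕ) (x : K)
    (hx : x ∈ Subgroup.upperCentralSeries K n) : φ x ∈ Subgroup.upperCentralSeries K n := by
  have hc : (Subgroup.upperCentralSeries K n).comap φ.toMonoidHom
      = Subgroup.upperCentralSeries K n :=
    (inferInstance : (Subgroup.upperCentralSeries K n).Characteristic).fixed φ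
  have : x ∈ (Subgroup.upperCentralSeries K n).comap φ.toMonoidHom := by rw [hc]; exact hx
  exact this

theorem fc_z2f : Z2AStmt.{u} → Z2BStmt.{u} → Z2DStmt.{u} → Z2FStmt.{u} := by
  intro hA hB hD K _ _ φ hctx hnil hyp
  have hcop : (orderOf φ).Coprime (Nat.card K) := hctx.1
  have hna : ∃ a b : K, a * b ≠ b * a := hctx.2.1
  obtain ⟨x, hx2, hxZ⟩ := z2f_helper15_exists hnil hna
  obtain ⟨u₀, hu₀, hu₀Z⟩ := hB K φ hctx
  -- central elements are fixed
  have hcen : ∀ z : K, z ∈ Subgroup.center K → φ z = z := by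
    intro z hz
    exact hA K φ u₀ z hctx hu₀ hu₀Z (Subgroup.mem_center_iff.mp hz u₀).symm
  -- d commutes with every fixed point
  have hd : ∀ y : K, φ y = y → (x⁻¹ * φ x) * y = y * (x⁻¹ * φ x) := by
    intro y hy
    have hc : x * y * x⁻¹ * y⁻¹ ∈ Subgroup.center K := by
      have h0 : x * y * x⁻¹ * y⁻¹ ∈ Subgroup.upperCentralSeries K 1 :=
        Subgroup.mem_upperCentralSeries_succ_iff.mp hx2 y
      rw [Subgroup.upperCentralSeries_one] at h0
      exact h0
    have h1 := hcen _ hc
    simp only [map_mul, map_inv, hy] at h1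
    -- h1 : φ x * y * (φ x)⁻¹ * y⁻¹ = x * y * x⁻¹ * y⁻¹
    have h2 : φ x * y * (φ x)⁻¹ = x * y * x⁻¹ := by
      have := congrArg (fun g => g * y) h1
      simpa using this
    have h3 : x⁻¹ * φ x * y = y * (x⁻¹ * φ x) := by
      have := congrArg (fun g => x⁻¹ * g * φ x) h2
      simp only [mul_assoc, inv_mul_cancel, mul_one, inv_mul_cancel_left] at this
      rw [mul_assoc, this]
    exact h3
  have hdfix : φ (x⁻¹ * φ x) = x⁻¹ * φ x :=
    hA K φ u₀ (x⁻¹ * φ x) hctx hu₀ hu₀Z (hd u₀ hu₀)
  have hd1 : x⁻¹ * φ x = 1 := by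
    apply hD K φ x (x⁻¹ * φ x) hcop _ hdfix
    group
  have hxfix : φ x = x := by
    have := congrArg (fun g => x * g) hd1
    simpa using this
  exact hxZ (hyp x hxfix hx2)

end Cfsg.Agent.Lib.Helper4.FC
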