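import Cfsg.Agent.Lib.Helper42.Sec20
import Cfsg.Agent.Lib.Helper2.JZ

set_option autoImplicit false
open scoped commutatorElement

/-!
# Glauberman's factorization `H = C_H(℧¹(Z(T))) N_H(J(T))` when `C_H(O_p(H)) ≤ O_p(H)` (helper15)

Ambient form (`H`, `T` subgroups of a finite group `G`, `T` a Sylow `p`-subgroup of `H`):
every `h ∈ H` is a product `c * m` with `c ∈ H` centralizing all `p`-th powers of elements of
`Z(T)` and `m ∈ H` normalizing `J(T)` (`JJ T`, the abelian-version Thompson subgroup).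
-/

namespace Cfsg.Agent.Lib.Helper15

open Cfsg Cfsg.Agent.Lib.Helper42 Cfsg.Agent.Lib.Helper2 Cfsg.Agent.Lib.Helper59

section gfac

variable {G : Type*} [Group G]

/-- if `J(T) ≤ P ≤ T` then `J(P) = J(T)` -/
theorem gf_JJ_eq_of_le [Finite G] {T P : Subgroup G} (hPT : P ≤ T) (hJ : JJ T ≤ P) :
    JJ P = JJ T := by
  obtain ⟨A₀, hA₀⟩ := exists_maxAb T
  have hA₀P : A₀ ≤ P := (le_JJ hA₀).trans hJ
  have key : ∀ A : Subgroup G, MaxAb P A ↔ MaxAb T A := by
    intro A
    constructor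
    · intro hA
      refine ⟨hA.1.trans hPT, hA.2.1, fun B hB hBc => ?_⟩
      exact (hA₀.2.2 B hB hBc).trans (hA.2.2 A₀ hA₀P hA₀.2.1)
    · intro hA
      exact ⟨(le_JJ hA).trans hJ, hA.2.1, fun B hB hBc => hA.2.2 B (hB.trans hPT) hBc⟩
  unfold JJ
  congr 1
  ext A
  exact key A

/-- a quadratic element of `T` outside `O_p(H)` whose `p`-th power lies in `O_p(H)`, when
`J(T) ≰ O_p(H)` -/
theorem gf_quad_elt [Finite G] {p : ℕ} [Fact p.Prime] {H T : Subgroup G} (hT : IsSylIn p T H)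
    (hJ : ¬ JJ T ≤ pCoreOf p H) :
    ∃ g ∈ T, g ∉ pCoreOf p H ∧ g ^ p ∈ pCoreOf p H ∧
      ⁅⁅pCoreOf p H ⊓ Subgroup.centralizer ((pCoreOf p H : Subgroup G) : Set G),
        Subgroup.zpowers g⁆, Subgroup.zpowers g⁆ = ⊥ := by
  classical
  set P := pCoreOf p H with hP
  set V := P ⊓ Subgroup.centralizer (P : Set G) with hV
  have hPH : P ≤ H := pCoreOf_le p H
  have hPp : IsPGroup p P := isPGroup_pCoreOf p H
  have hPn : H ≤ Subgroup.normalizer (P : Set G) := le_normalizer_pCoreOf p H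
  have hPT : P ≤ T := hT.normal_le hPH hPp hPn
  have h1 : ∃ g₀ ∈ T, g₀ ∉ P ∧ ⁅⁅V, Subgroup.zpowers g₀⁆, Subgroup.zpowers g₀⁆ = ⊥ := by
    have h2 : ∃ A₀, MaxAb T A₀ ∧ ¬ A₀ ≤ P := by
      by_contra hcon
      push Not at hcon
      exact hJ (sSup_le fun A hA => hcon A hA)
    obtain ⟨A₀, hA₀, hA₀P⟩ := h2
    by_cases hc : A₀ ≤ Subgroup.centralizer (V : Set G)
    · obtain ⟨g₀, hg₀A, hg₀P⟩ := SetLike.not_le_iff_exists.mp hA₀P
      refine ⟨g₀, hA₀.1 hg₀A, hg₀P, ?_⟩
      have h3 : ⁅V, Subgroup.zpowers g₀⁆ = ⊥ := by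
        rw [Subgroup.commutator_eq_bot_iff_le_centralizer]
        intro v hv
        rw [Subgroup.mem_centralizer_iff]
        intro y hy
        have hy' : y ∈ A₀ := (Subgroup.zpowers_le.mpr hg₀A) hy
        exact ((Subgroup.mem_centralizer_iff.mp (hc hy')) v hv).symm
      rw [h3]
      exact Subgroup.commutator_bot_left _
    · have hVT : V ≤ T := inf_le_left.trans hPT
      have hVc : IsMulCommutative V := isMulCommutative_of_mul_comm (fun u hu v hv =>
        (Subgroup.mem_centralizer_iff.mp hv.2) u hu.1)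
      have hVn : T ≤ Subgroup.normalizer (V : Set G) := by
        intro x hx
        rw [← cj_eq_self_iff, hV, cj_inf, ← centralizer_cj,
          cj_eq_of_mem_normalizer (hPn (hT.1 hx))]
      obtain ⟨A, hA, hAc, hAn⟩ := exists_maxAb_normalized T V hT.2.1 hVT hVc hVn A₀ hA₀ hc
      obtain ⟨g₀, hg₀A, hg₀c⟩ := SetLike.not_le_iff_exists.mp hAc
      refine ⟨g₀, hA.1 hg₀A, ?_, ?_⟩
      · intro hg₀P
        apply hg₀c
        rw [Subgroup.mem_centralizer_iff]
        intro v hv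
        exact ((Subgroup.mem_centralizer_iff.mp hv.2) g₀ hg₀P).symm
      · have hz : Subgroup.zpowers g₀ ≤ A := Subgroup.zpowers_le.mpr hg₀A
        have h4 : ⁅V, Subgroup.zpowers g₀⁆ ≤ A := by
          rw [Subgroup.commutator_le]
          intro v hv y hy
          have hy' := hz hy
          have h5 : v * y * v⁻¹ ∈ A := (Subgroup.mem_normalizer_iff.mp (hAn hv) y).mp hy'
          rw [commutatorElement_def]
          exact A.mul_mem h5 (A.inv_mem hy')
        rw [← le_bot_iff]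
        have h6 : ⁅A, A⁆ = ⊥ := by
          rw [Subgroup.commutator_eq_bot_iff_le_centralizer]
          intro a ha
          rw [Subgroup.mem_centralizer_iff]
          intro b hb
          exact mul_comm_of_isMulCommutative hA.2.1 b hb a ha
        rw [← h6]
        exact Subgroup.commutator_mono h4 hz
  obtain ⟨g₀, hg₀T, hg₀P, hquad⟩ := h1
  have hex : ∃ j : ℕ, g₀ ^ p ^ j ∈ P := by
    obtain ⟨k, hk⟩ := hT.2.1 ⟨g₀, hg₀T⟩
    refine ⟨k, ?_⟩
    have : g₀ ^ p ^ k = 1 := by simpa using congrArg Subtype.val hk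
    rw [this]; exact P.one_mem
  have hj0 : Nat.find hex ≠ 0 := by
    intro h0
    have := Nat.find_spec hex
    rw [h0] at this
    simp at this
    exact hg₀P this
  obtain ⟨j, hj⟩ := Nat.exists_eq_succ_of_ne_zero hj0
  have hg'P : g₀ ^ p ^ j ∉ P := Nat.find_min hex (by omega)
  have hg'p : (g₀ ^ p ^ j) ^ p ∈ P := by
    have := Nat.find_spec hex
    rw [hj, Nat.succ_eq_add_one, pow_succ, pow_mul] at this
    exact this
  refine ⟨g₀ ^ p ^ j, T.pow_mem hg₀T _, hg'P, hg'p, ?_⟩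
  rw [← le_bot_iff, ← hquad]
  have hle : Subgroup.zpowers (g₀ ^ p ^ j) ≤ Subgroup.zpowers g₀ :=
    Subgroup.zpowers_le.mpr (Subgroup.pow_mem _ (Subgroup.mem_zpowers g₀) _)
  exact Subgroup.commutator_mono (Subgroup.commutator_mono le_rfl hle) hle

/-- **Glauberman's factorization**, ambient form: if `T` is a Sylow `p`-subgroup of `H` and
`C_H(O_p(H)) ≤ O_p(H)`, then `H = C_H(℧¹(Z(T))) N_H(J(T))`. -/
theorem gfac_aux [Finite G] {p : ℕ} [Fact p.Prime] :
    ∀ (n : ℕ) (H T : Subgroup G), Nat.card H = n → IsSylIn p T H →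
      H ⊓ Subgroup.centralizer ((pCoreOf p H : Subgroup G) : Set G) ≤ pCoreOf p H →
      ∀ h ∈ H, ∃ c ∈ H, ∃ m ∈ H,
        (∀ z ∈ T ⊓ Subgroup.centralizer (T : Set G), c * z ^ p * c⁻¹ = z ^ p) ∧
        m ∈ Subgroup.normalizer ((JJ T : Subgroup G) : Set G) ∧ h = c * m := by
  intro n
  induction n using Nat.strong_induction_on with
  | _ n ih =>
  intro H T hn hT hcon h hh
  classical
  set P := pCoreOf p H with hP
  have hPH : P ≤ H := pCoreOf_le p H
  have hPp : IsPGroup p P := isPGroup_pCoreOf p H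
  have hPn : H ≤ Subgroup.normalizer (P : Set G) := le_normalizer_pCoreOf p H
  have hPT : P ≤ T := hT.normal_le hPH hPp hPn
  by_cases hJ : JJ T ≤ P
  · refine ⟨1, H.one_mem, h, hh, by simp, ?_, by simp⟩
    rw [← gf_JJ_eq_of_le hPT hJ]
    exact mem_normalizer_JJ (hPn hh)
  · obtain ⟨g, hgT, hgP, hgp, hquad⟩ := gf_quad_elt hT hJ
    set V := P ⊓ Subgroup.centralizer (P : Set G) with hV
    have hVab : ∀ u ∈ V, ∀ v ∈ V, u * v = v * u := by
      intro u hu v hv
      exact (Subgroup.mem_centralizer_iff.mp hv.2) u hu.1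
    have hVn : ∀ x ∈ H, cj x V = V := by
      intro x hx
      rw [hV, cj_inf, ← centralizer_cj, cj_eq_of_mem_normalizer (hPn hx)]
    have hgV : g ∈ Subgroup.normalizer (V : Set G) :=
      cj_eq_self_iff.mp (hVn _ (hT.1 hgT))
    have hgn : g ^ p ∈ Subgroup.centralizer (V : Set G) := by
      rw [Subgroup.mem_centralizer_iff]
      intro v hv
      exact ((Subgroup.mem_centralizer_iff.mp hv.2) _ hgp).symm
    have hcent := quad_pow_central hVab hgV hquad hgn
    set D := H ⊓ Subgroup.centralizer ((fun v => v ^ p) '' (V : Set G)) with hD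
    have hDH : D ≤ H := inf_le_left
    have hHD : H ≤ Subgroup.normalizer (D : Set G) := by
      apply le_normalizer_of_conj_mem
      rintro x hx n ⟨hnH, hnC⟩
      have hnH' : n ∈ H := hnH
      have hnC' : n ∈ Subgroup.centralizer ((fun v => v ^ p) '' (V : Set G)) := hnC
      refine ⟨H.mul_mem (H.mul_mem hx hnH') (H.inv_mem hx), ?_⟩
      show x * n * x⁻¹ ∈ Subgroup.centralizer ((fun v => v ^ p) '' (V : Set G))
      rw [Subgroup.mem_centralizer_iff]
      rintro _ ⟨v, hv, rfl⟩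
      have hv' : x⁻¹ * v * x ∈ V := by
        have := conj_mem_cj (g := x⁻¹) hv
        rw [hVn _ (H.inv_mem hx)] at this
        simpa using this
      have h1 := (Subgroup.mem_centralizer_iff.mp hnC') ((x⁻¹ * v * x) ^ p) ⟨_, hv', rfl⟩
      have e1 : (x⁻¹ * v * x) ^ p = x⁻¹ * v ^ p * x := by
        have := conj_pow (a := x⁻¹) (b := v) (i := p)
        simpa using this
      rw [e1] at h1
      show v ^ p * (x * n * x⁻¹) = x * n * x⁻¹ * v ^ p
      calc v ^ p * (x * n * x⁻¹) = x * ((x⁻¹ * v ^ p * x) * n) * x⁻¹ := by group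
        _ = x * (n * (x⁻¹ * v ^ p * x)) * x⁻¹ := by rw [h1]
        _ = x * n * x⁻¹ * v ^ p := by group
    have hgD : g ∈ D := by
      refine ⟨hT.1 hgT, ?_⟩
      show g ∈ Subgroup.centralizer ((fun v => v ^ p) '' (V : Set G))
      rw [Subgroup.mem_centralizer_iff]
      rintro _ ⟨v, hv, rfl⟩
      have := hcent v hv
      show v ^ p * g = g * v ^ p
      calc v ^ p * g = (g * v ^ p * g⁻¹) * g := by rw [this]
        _ = g * v ^ p := by group
    -- the centre of `T` lies in `V`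
    have hZV : ∀ z ∈ T ⊓ Subgroup.centralizer (T : Set G), z ∈ V := by
      intro z hz
      have hzc : z ∈ Subgroup.centralizer (P : Set G) :=
        Subgroup.centralizer_le hPT hz.2
      exact ⟨hcon ⟨hT.1 hz.1, hzc⟩, hzc⟩
    have hDz : ∀ d ∈ D, ∀ z ∈ T ⊓ Subgroup.centralizer (T : Set G),
        d * z ^ p * d⁻¹ = z ^ p := by
      rintro d ⟨_, hdC⟩ z hz
      have hdC' : d ∈ Subgroup.centralizer ((fun v => v ^ p) '' (V : Set G)) := hdC
      have := (Subgroup.mem_centralizer_iff.mp hdC') (z ^ p) ⟨z, hZV z hz, rfl⟩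
      rw [← this]; group
    have hSylD : IsSylIn p (T ⊓ D) D := hT.inf_normal hDH hHD
    set K := H ⊓ Subgroup.normalizer ((T ⊓ D : Subgroup G) : Set G) with hK
    have hKH : K ≤ H := inf_le_left
    obtain ⟨d, hd, hdk⟩ := frattini_isSylIn hSylD (hHD hh)
    have hkK : d * h ∈ K := ⟨H.mul_mem (hDH hd) hh, hdk⟩
    have hKne : K ≠ H := by
      intro hKeq
      have h1 : T ⊓ D ≤ P := le_pCoreOf (inf_le_right.trans hDH) (hT.2.1.to_inf_left)
        (by rw [← hKeq]; exact inf_le_right)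
      exact hgP (h1 ⟨hgT, hgD⟩)
    have hTK : T ≤ K := by
      refine le_inf hT.1 ?_
      intro x hx
      rw [← cj_eq_self_iff, cj_inf, cj_eq_of_mem_normalizer (hHD (hT.1 hx)),
        cj_eq_of_mem_normalizer (Subgroup.le_normalizer hx)]
    have hTK' : IsSylIn p T K := hT.of_le hTK hKH
    have hPK : P ≤ pCoreOf p K := le_pCoreOf (hPT.trans hTK) hPp (hKH.trans hPn)
    have hconK : K ⊓ Subgroup.centralizer ((pCoreOf p K : Subgroup G) : Set G) ≤ pCoreOf p K := by
      intro x hx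
      exact hPK (hcon ⟨hKH hx.1, Subgroup.centralizer_le hPK hx.2⟩)
    obtain ⟨c, hc, m, hm, hcz, hmn, hkeq⟩ :=
      ih (Nat.card K) (hn ▸ card_lt_of_lt (lt_of_le_of_ne hKH hKne)) K T rfl hTK' hconK
        (d * h) hkK
    refine ⟨d⁻¹ * c, H.mul_mem (H.inv_mem (hDH hd)) (hKH hc), m, hKH hm, ?_, hmn, ?_⟩
    · intro z hz
      have h1 := hcz z hz
      have h2 := hDz d⁻¹ (D.inv_mem hd) z hz
      calc d⁻¹ * c * z ^ p * (d⁻¹ * c)⁻¹ = d⁻¹ * (c * z ^ p * c⁻¹) * d⁻¹⁻¹ := by group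
        _ = z ^ p := by rw [h1, h2]
    · rw [mul_assoc, ← hkeq]; group

/-- two abelian subgroups centralizing each other generate an abelian subgroup -/
theorem gf_comm_sup {A D : Subgroup G} (hA : ∀ a ∈ A, ∀ b ∈ A, a * b = b * a)
    (hD : ∀ a ∈ D, ∀ b ∈ D, a * b = b * a) (hAD : ∀ a ∈ A, ∀ d ∈ D, a * d = d * a) :
    ∀ x ∈ A ⊔ D, ∀ y ∈ A ⊔ D, x * y = y * x := by
  have h1 : A ⊔ D ≤ Subgroup.centralizer (A : Set G) := by
    apply sup_le
    · intro a ha
      rw [Subgroup.mem_centralizer_iff]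
      intro b hb
      exact hA b hb a ha
    · intro d hd
      rw [Subgroup.mem_centralizer_iff]
      intro b hb
      exact hAD b hb d hd
  have h2 : A ⊔ D ≤ Subgroup.centralizer (D : Set G) := by
    apply sup_le
    · intro a ha
      rw [Subgroup.mem_centralizer_iff]
      intro b hb
      exact (hAD a ha b hb).symm
    · intro d hd
      rw [Subgroup.mem_centralizer_iff]
      intro b hb
      exact hD b hb d hd
  have h3 : A ⊔ D ≤ Subgroup.centralizer ((A ⊔ D : Subgroup G) : Set G) := by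
    apply sup_le
    · exact Subgroup.le_centralizer_iff.mp h1
    · exact Subgroup.le_centralizer_iff.mp h2
  intro x hx y hy
  exact ((Subgroup.mem_centralizer_iff.mp (h3 hy)) x hx)

/-- an element of `T` centralizing an abelian subgroup `A` of `T` of largest order lies in `A` -/
theorem gf_mem_maxAb_of_comm [Finite G] {T A : Subgroup G} (hA : MaxAb T A) {z : G}
    (hzT : z ∈ T) (hz : ∀ a ∈ A, a * z = z * a) : z ∈ A := by
  have hAc := mul_comm_of_isMulCommutative hA.2.1
  have hD : ∀ a ∈ Subgroup.zpowers z, ∀ b ∈ Subgroup.zpowers z, a * b = b * a := by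
    intro a ha b hb
    obtain ⟨i, rfl⟩ := Subgroup.mem_zpowers_iff.mp ha
    obtain ⟨j, rfl⟩ := Subgroup.mem_zpowers_iff.mp hb
    exact (Commute.zpow_zpow_self z i j).eq
  have hAD : ∀ a ∈ A, ∀ d ∈ Subgroup.zpowers z, a * d = d * a := by
    intro a ha d hd
    obtain ⟨i, rfl⟩ := Subgroup.mem_zpowers_iff.mp hd
    have : Commute a z := hz a ha
    exact (this.zpow_right i).eq
  have hc : IsMulCommutative (A ⊔ Subgroup.zpowers z : Subgroup G) :=
    isMulCommutative_of_mul_comm (gf_comm_sup hAc hD hAD)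
  have hle : A ⊔ Subgroup.zpowers z ≤ T := sup_le hA.1 (Subgroup.zpowers_le.mpr hzT)
  have hcard := hA.2.2 _ hle hc
  have heq : A = A ⊔ Subgroup.zpowers z := Subgroup.eq_of_le_of_card_ge le_sup_left hcard
  rw [heq]
  exact le_sup_right (a := A) (Subgroup.mem_zpowers z)

/-- `Z(T) ≤ Z(J(T))` -/
theorem gf_center_le_ZJ [Finite G] (T : Subgroup G) :
    T ⊓ Subgroup.centralizer (T : Set G) ≤ JJ T ⊓ Subgroup.centralizer ((JJ T : Subgroup G) : Set G) := by
  intro z hz
  obtain ⟨A, hA⟩ := exists_maxAb T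
  refine ⟨le_JJ hA (gf_mem_maxAb_of_comm hA hz.1 ?_), Subgroup.centralizer_le (JJ_le T) hz.2⟩
  intro a ha
  exact (Subgroup.mem_centralizer_iff.mp hz.2) a (hA.1 ha)

theorem gf_pCoreOf_top (p : ℕ) [Fact p.Prime] (G : Type*) [Group G] :
    pCoreOf p (⊤ : Subgroup G) = pCore p G := by
  have hn := pCore_normal p G
  apply le_antisymm
  · have h1 : (pCoreOf p (⊤ : Subgroup G)).Normal := by
      rw [← Subgroup.normalizer_eq_top_iff, eq_top_iff]
      exact le_normalizer_pCoreOf p ⊤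
    exact le_pCore h1 (isPGroup_pCoreOf p ⊤)
  · exact le_pCoreOf le_top (isPGroup_pCore p G) Subgroup.le_normalizer_of_normal

/-- **Glauberman's factorization** `G = C_G(℧¹(Z(S))) N_G(J(S))` for a finite group `G` with
`C_G(O_p(G)) ≤ O_p(G)` and a Sylow `p`-subgroup `S` (any prime `p`). -/
theorem gfac [Finite G] {p : ℕ} [Fact p.Prime] (S : Sylow p G)
    (hcon : Subgroup.centralizer (pCore p G : Set G) ≤ pCore p G) (h : G) :
    ∃ c m : G,
      c ∈ Subgroup.centralizer ((powerClosure p 1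
        ((S : Subgroup G) ⊓ Subgroup.centralizer ((S : Subgroup G) : Set G)) : Subgroup G) : Set G) ∧
      m ∈ Subgroup.normalizer ((thompsonSubgroupAOf (S : Subgroup G) : Subgroup G) : Set G) ∧
      h = c * m := by
  have hcon' : (⊤ : Subgroup G) ⊓ Subgroup.centralizer ((pCoreOf p (⊤ : Subgroup G) : Subgroup G) : Set G)
      ≤ pCoreOf p (⊤ : Subgroup G) := by
    rw [gf_pCoreOf_top, top_inf_eq]; exact hcon
  obtain ⟨c, -, m, -, hc, hm, rfl⟩ := gfac_aux (Nat.card (⊤ : Subgroup G)) ⊤ (S : Subgroup G) rfl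
    (sylow_isSylIn S) hcon' h (Subgroup.mem_top h)
  refine ⟨c, m, ?_, ?_, rfl⟩
  · rw [Subgroup.mem_centralizer_iff]
    intro u hu
    have hle : powerClosure p 1 ((S : Subgroup G) ⊓ Subgroup.centralizer ((S : Subgroup G) : Set G))
        ≤ Subgroup.centralizer ({c} : Set G) := by
      unfold powerClosure
      rw [Subgroup.closure_le]
      rintro y ⟨z, hz, rfl⟩
      show z ^ p ^ 1 ∈ Subgroup.centralizer ({c} : Set G)
      rw [Subgroup.mem_centralizer_iff]
      intro y hy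
      rw [Set.mem_singleton_iff.mp hy]
      have h1 := hc z hz
      rw [pow_one]
      calc c * z ^ p = (c * z ^ p * c⁻¹) * c := by group
        _ = z ^ p * c := by rw [h1]
    exact ((Subgroup.mem_centralizer_iff.mp (hle hu)) c rfl).symm
  · rw [thompsonSubgroupAOf_eq_JJ]; exact hm

end gfac

end Cfsg.Agent.Lib.Helper15
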