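import Mathlib

set_option autoImplicit false
open scoped commutatorElement

/-!
# Elements of order `p` acting with bounded nilpotency on an abelian `p`-group (helper15)

If `σ^p = 1` and `(σ - 1)^(n(p-1)+1) = 0` on an abelian group `V`, then `p^n (σ - 1) = 0`:
`σ` fixes every `p^n`-th power.  Ring version, then group version.
-/

namespace Cfsg.Agent.Lib.Helper15

open Polynomial in
/-- `(X+1)^p = 1 + X^p + p X (1 + X U)` in `ℤ[X]`, for a prime `p` -/
theorem gn_poly {p : ℕ} (hp : p.Prime) :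
    ∃ U : Polynomial ℤ, (X + 1 : Polynomial ℤ) ^ p = 1 + X ^ p + C (p : ℤ) * X * (1 + X * U) := by
  have hp2 := hp.two_le
  set P : Polynomial ℤ := (X + 1) ^ p - X ^ p - 1 with hP
  have hcoeff : ∀ i, P.coeff i = (p.choose i : ℤ) - (if i = p then 1 else 0) - (if i = 0 then 1 else 0) := by
    intro i
    rw [hP, coeff_sub, coeff_sub, coeff_X_add_one_pow, coeff_X_pow, coeff_one]
  have hdvd : C (p : ℤ) ∣ P := by
    rw [C_dvd_iff_dvd_coeff]
    intro i
    rw [hcoeff]
    by_cases h0 : i = 0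
    · subst h0
      have : (0 : ℕ) ≠ p := by omega
      simp [this]
    · by_cases hip : i = p
      · subst hip
        simp [h0]
      · rw [if_neg hip, if_neg h0, sub_zero, sub_zero]
        rcases lt_or_gt_of_ne hip with hlt | hgt
        · exact Int.natCast_dvd_natCast.mpr (hp.dvd_choose_self h0 hlt)
        · rw [Nat.choose_eq_zero_of_lt hgt]; simp
  obtain ⟨P₁, hP₁⟩ := hdvd
  have hpz : (p : ℤ) ≠ 0 := by exact_mod_cast hp.ne_zero
  have h10 : P₁.coeff 0 = 0 := by
    have h := hcoeff 0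
    rw [hP₁, coeff_C_mul] at h
    have : (0 : ℕ) ≠ p := by omega
    simp [this] at h
    rcases h with h | h
    · exact absurd h hp.ne_zero
    · exact h
  have h11 : P₁.coeff 1 = 1 := by
    have h := hcoeff 1
    rw [hP₁, coeff_C_mul] at h
    have h1p : (1 : ℕ) ≠ p := by omega
    simp [h1p] at h
    have : (p : ℤ) * P₁.coeff 1 = (p : ℤ) * 1 := by rw [h, mul_one]
    exact mul_left_cancel₀ hpz this
  obtain ⟨P₂, hP₂⟩ := X_dvd_iff.mpr h10
  have h20 : P₂.coeff 0 = 1 := by
    rw [hP₂] at h11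
    rwa [coeff_X_mul] at h11
  have h3 : (P₂ - 1).coeff 0 = 0 := by
    rw [coeff_sub, h20, coeff_one_zero, sub_self]
  obtain ⟨U, hU⟩ := X_dvd_iff.mpr h3
  refine ⟨U, ?_⟩
  have e1 : (X + 1 : Polynomial ℤ) ^ p = P + X ^ p + 1 := by rw [hP]; ring
  have e2 : P₂ = 1 + X * U := by rw [← hU]; ring
  rw [e1, hP₁, hP₂, e2]; ring

/-- commutative ring version -/
theorem gn_ring {R : Type*} [CommRing R] {p : ℕ} (hp : p.Prime) (n : ℕ) (x : R)
    (h1 : (x + 1) ^ p = 1) (h2 : x ^ (n * (p - 1) + 1) = 0) : (p : R) ^ n * x = 0 := by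
  obtain ⟨U, hU⟩ := gn_poly hp
  have h3 := congrArg (Polynomial.aeval x) hU
  simp only [map_pow, map_add, Polynomial.aeval_X, map_one, map_mul, map_natCast] at h3
  set u := Polynomial.aeval x U with hu
  rw [h1] at h3
  have hnil : IsNilpotent x := ⟨_, h2⟩
  have hw : IsUnit (1 + x * u) := IsNilpotent.isUnit_one_add ((Commute.all x u).isNilpotent_mul_right hnil)
  set w := 1 + x * u with hw'
  have h4 : x ^ p = -((p : R) * x * w) := by linear_combination -h3
  have hp1 : p = (p - 1) + 1 := by have := hp.two_le; omega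
  have h5 : ∀ k : ℕ, x ^ (k * (p - 1) + 1) = (-((p : R) * w)) ^ k * x := by
    intro k
    induction k with
    | zero => simp
    | succ k ih =>
      have e : (k + 1) * (p - 1) + 1 = (p - 1) + (k * (p - 1) + 1) := by
        rw [add_mul, one_mul]; ac_rfl
      rw [e, pow_add, ih]
      have e3 : x ^ p = x ^ (p - 1) * x := (pow_sub_one_mul hp.ne_zero x).symm
      have e2 : x ^ (p - 1) * ((-((p : R) * w)) ^ k * x) = (-((p : R) * w)) ^ k * x ^ p := by
        rw [e3]; ring
      rw [e2, h4]; ring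
  have h6 := h5 n
  rw [h2] at h6
  have h7 : (-((p : R) * w)) ^ n * x = ((-1) ^ n * w ^ n) * ((p : R) ^ n * x) := by
    rw [neg_pow, mul_pow]; ring
  rw [h7] at h6
  have hunit : IsUnit ((-1 : R) ^ n * w ^ n) :=
    ((isUnit_one.neg).pow n).mul (hw.pow n)
  exact (hunit.mul_right_eq_zero).mp h6.symm

/-- arbitrary ring version -/
theorem gn_ring' {E : Type*} [Ring E] {p : ℕ} (hp : p.Prime) (n : ℕ) (d : E)
    (h1 : (d + 1) ^ p = 1) (h2 : d ^ (n * (p - 1) + 1) = 0) : (p : E) ^ n * d = 0 := by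
  set φ : Polynomial ℤ →+* E := (Polynomial.aeval d : Polynomial ℤ →ₐ[ℤ] E).toRingHom with hφ
  have hφX : φ Polynomial.X = d := by simp [hφ]
  set I := RingHom.ker φ with hI
  set x : Polynomial ℤ ⧸ I := Ideal.Quotient.mk I Polynomial.X with hx
  have hx1 : (x + 1) ^ p = 1 := by
    have : (x + 1) ^ p - 1 = Ideal.Quotient.mk I ((Polynomial.X + 1) ^ p - 1) := by
      simp [hx]
    rw [← sub_eq_zero, this, Ideal.Quotient.eq_zero_iff_mem, hI, RingHom.mem_ker]
    simp [hφX, h1]
  have hx2 : x ^ (n * (p - 1) + 1) = 0 := by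
    have : x ^ (n * (p - 1) + 1) = Ideal.Quotient.mk I (Polynomial.X ^ (n * (p - 1) + 1)) := by
      simp [hx]
    rw [this, Ideal.Quotient.eq_zero_iff_mem, hI, RingHom.mem_ker]
    simp [hφX, h2]
  have h3 := gn_ring hp n x hx1 hx2
  have h4 : ((p : Polynomial ℤ ⧸ I)) ^ n * x = Ideal.Quotient.mk I ((p : Polynomial ℤ) ^ n * Polynomial.X) := by
    simp [hx]
  rw [h4, Ideal.Quotient.eq_zero_iff_mem, hI, RingHom.mem_ker] at h3
  simpa [hφX] using h3

section grp

variable {G : Type*} [Group G]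

/-- if `g` normalizes the abelian subgroup `V`, `g^p` centralizes `V` and the
`(n(p-1)+1)`-fold commutators `[g, [g, … [g, v]]]` vanish on `V`, then `g` centralizes the
`p^n`-th powers of the elements of `V` -/
theorem gn_conj_pow {p : ℕ} (hp : p.Prime) (n : ℕ) {V : Subgroup G}
    (hVab : ∀ u ∈ V, ∀ v ∈ V, u * v = v * u) {g : G}
    (hgV : g ∈ Subgroup.normalizer (V : Set G))
    (hgp : g ^ p ∈ Subgroup.centralizer (V : Set G))
    (hnil : ∀ v ∈ V, (fun y => ⁅g, y⁆)^[n * (p - 1) + 1] v = 1) :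
    ∀ v ∈ V, g * v ^ p ^ n * g⁻¹ = v ^ p ^ n := by
  let _ : CommGroup V := { (inferInstance : Group V) with
    mul_comm := fun a b => Subtype.ext (hVab a a.2 b b.2) }
  let σ : V →* V :=
    { toFun := fun v => ⟨g * v * g⁻¹, (Subgroup.mem_normalizer_iff.mp hgV v).mp v.2⟩
      map_one' := by ext; simp
      map_mul' := by intro a b; ext; simp [mul_assoc] }
  have hσ : ∀ v : V, ((σ v : V) : G) = g * v * g⁻¹ := fun v => rfl
  let s : AddMonoid.End (Additive V) := MonoidHom.toAdditive σ
  have hs : ∀ a : Additive V, s a = Additive.ofMul (σ (Additive.toMul a)) := fun a => rfl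
  set d : AddMonoid.End (Additive V) := s - 1 with hd
  have hda : ∀ a : Additive V, d a = s a - a := fun a => rfl
  have hdk : ∀ (k : ℕ) (v : V),
      ((Additive.toMul ((d ^ k) (Additive.ofMul v)) : V) : G) = (fun y => ⁅g, y⁆)^[k] (v : G) := by
    intro k
    induction k with
    | zero => intro v; simp
    | succ k ih =>
      intro v
      rw [pow_succ', Function.iterate_succ_apply', ← ih v]
      show ((Additive.toMul (d ((d ^ k) (Additive.ofMul v))) : V) : G) = _
      rw [hda, hs]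
      simp only [toMul_sub, toMul_ofMul, hσ, commutatorElement_def,
        div_eq_mul_inv, Subgroup.coe_mul, Subgroup.coe_inv]
  have hsk : ∀ (k : ℕ) (v : V),
      ((Additive.toMul ((s ^ k) (Additive.ofMul v)) : V) : G) = g ^ k * v * (g ^ k)⁻¹ := by
    intro k
    induction k with
    | zero => intro v; simp
    | succ k ih =>
      intro v
      rw [pow_succ']
      show ((Additive.toMul (s ((s ^ k) (Additive.ofMul v))) : V) : G) = _
      rw [hs]
      simp only [toMul_ofMul, hσ, ih v]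
      rw [pow_succ']; group
  have h1 : (d + 1) ^ p = 1 := by
    have e : d + 1 = s := by rw [hd]; abel
    rw [e]
    refine DFunLike.ext _ _ fun a => ?_
    apply Additive.toMul.injective
    apply Subtype.ext
    refine (hsk p (Additive.toMul a)).trans ?_
    have := (Subgroup.mem_centralizer_iff.mp hgp) ((Additive.toMul a : V) : G) (Additive.toMul a).2
    show g ^ p * ((Additive.toMul a : V) : G) * (g ^ p)⁻¹ = ((Additive.toMul a : V) : G)
    rw [← this]; group
  have h2 : d ^ (n * (p - 1) + 1) = 0 := by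
    refine DFunLike.ext _ _ fun a => ?_
    apply Additive.toMul.injective
    apply Subtype.ext
    refine (hdk _ (Additive.toMul a)).trans ?_
    rw [hnil ((Additive.toMul a : V) : G) (Additive.toMul a).2]
    rfl
  have h3 := gn_ring' hp n d h1 h2
  intro v hv
  have h4 : ((p : AddMonoid.End (Additive V)) ^ n * d) (Additive.ofMul (⟨v, hv⟩ : V)) = 0 := by
    rw [h3]; rfl
  have h5 : ((p : AddMonoid.End (Additive V)) ^ n * d) (Additive.ofMul (⟨v, hv⟩ : V))
      = (p ^ n) • d (Additive.ofMul (⟨v, hv⟩ : V)) := by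
    rw [← Nat.cast_pow]
    rfl
  rw [h5, hda, hs] at h4
  have h6 := congrArg (fun a => ((Additive.toMul a : V) : G)) h4
  simp only [toMul_nsmul, toMul_sub, toMul_ofMul, Subgroup.coe_pow, Subgroup.coe_div, hσ,
    toMul_zero, Subgroup.coe_one] at h6
  -- h6 : (g * v * g⁻¹ / v) ^ p ^ n = 1
  have hc : Commute (g * v * g⁻¹) v⁻¹ := by
    have hmem : g * v * g⁻¹ ∈ V := (Subgroup.mem_normalizer_iff.mp hgV v).mp hv
    exact hVab _ hmem _ (V.inv_mem hv)
  rw [div_eq_mul_inv, hc.mul_pow, inv_pow, mul_inv_eq_one] at h6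
  rw [← conj_pow]; exact h6

end grp

end Cfsg.Agent.Lib.Helper15
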