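import Cfsg.Agent.Lib.Helper15.GPow1
import Cfsg.Agent.Lib.Helper42.Sec19

set_option autoImplicit false
open scoped commutatorElement

/-!
# Glauberman: `H = C_H(℧ⁿ(Z(T))) N_H(T)` when `C_H(O_p(H)) ≤ O_p(H)` and `cl(T) ≤ n(p-1)+1` (helper15)

Ambient form: `T` a Sylow `p`-subgroup of `H ≤ G`; the class condition is stated elementwise:
all `(n(p-1)+1)`-fold commutators `[g, [g, … [g, v]]]` (`g, v ∈ T`) are trivial.
-/

namespace Cfsg.Agent.Lib.Helper15

open Cfsg Cfsg.Agent.Lib.Helper42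

section gpow

variable {G : Type*} [Group G]

theorem gpow_aux [Finite G] {p : ℕ} [Fact p.Prime] (e : ℕ) :
    ∀ (k : ℕ) (H T : Subgroup G), Nat.card H = k → IsSylIn p T H →
      H ⊓ Subgroup.centralizer ((pCoreOf p H : Subgroup G) : Set G) ≤ pCoreOf p H →
      (∀ g ∈ T, ∀ v ∈ T, (fun y => ⁅g, y⁆)^[e * (p - 1) + 1] v = 1) →
      ∀ h ∈ H, ∃ c ∈ H, ∃ m ∈ H,
        (∀ z ∈ T ⊓ Subgroup.centralizer (T : Set G), c * z ^ p ^ e * c⁻¹ = z ^ p ^ e) ∧
        m ∈ Subgroup.normalizer (T : Set G) ∧ h = c * m := by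
  intro k
  induction k using Nat.strong_induction_on with
  | _ k ih =>
  intro H T hk hT hcon hcl h hh
  classical
  set P := pCoreOf p H with hP
  have hPH : P ≤ H := pCoreOf_le p H
  have hPp : IsPGroup p P := isPGroup_pCoreOf p H
  have hPn : H ≤ Subgroup.normalizer (P : Set G) := le_normalizer_pCoreOf p H
  have hPT : P ≤ T := hT.normal_le hPH hPp hPn
  by_cases hTP : T ≤ P
  · refine ⟨1, H.one_mem, h, hh, by simp, ?_, by simp⟩
    have : T = P := le_antisymm hTP hPT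
    rw [this]
    exact hPn hh
  · obtain ⟨g₀, hg₀T, hg₀P⟩ := SetLike.not_le_iff_exists.mp hTP
    have hex : ∃ j : ℕ, g₀ ^ p ^ j ∈ P := by
      obtain ⟨j, hj⟩ := hT.2.1 ⟨g₀, hg₀T⟩
      refine ⟨j, ?_⟩
      have : g₀ ^ p ^ j = 1 := by simpa using congrArg Subtype.val hj
      rw [this]; exact P.one_mem
    have hj0 : Nat.find hex ≠ 0 := by
      intro h0
      have := Nat.find_spec hex
      rw [h0] at this
      simp at this
      exact hg₀P this
    obtain ⟨j, hj⟩ := Nat.exists_eq_succ_of_ne_zero hj0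
    have hgP : g₀ ^ p ^ j ∉ P := Nat.find_min hex (by omega)
    have hgp : (g₀ ^ p ^ j) ^ p ∈ P := by
      have := Nat.find_spec hex
      rw [hj, Nat.succ_eq_add_one, pow_succ, pow_mul] at this
      exact this
    have hgT : g₀ ^ p ^ j ∈ T := T.pow_mem hg₀T _
    set g := g₀ ^ p ^ j with hg
    set V := P ⊓ Subgroup.centralizer (P : Set G) with hV
    have hVab : ∀ u ∈ V, ∀ v ∈ V, u * v = v * u := by
      intro u hu v hv
      exact (Subgroup.mem_centralizer_iff.mp hv.2) u hu.1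
    have hVn : ∀ x ∈ H, cj x V = V := by
      intro x hx
      rw [hV, cj_inf, ← centralizer_cj, cj_eq_of_mem_normalizer (hPn hx)]
    have hgV : g ∈ Subgroup.normalizer (V : Set G) :=
      cj_eq_self_iff.mp (hVn _ (hT.1 hgT))
    have hgn : g ^ p ∈ Subgroup.centralizer (V : Set G) := by
      rw [Subgroup.mem_centralizer_iff]
      intro v hv
      exact ((Subgroup.mem_centralizer_iff.mp hv.2) _ hgp).symm
    have hcent := gn_conj_pow (Fact.out : p.Prime) e hVab hgV hgn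
      (fun v hv => hcl g hgT v (hPT hv.1))
    set D := H ⊓ Subgroup.centralizer ((fun v => v ^ p ^ e) '' (V : Set G)) with hD
    have hDH : D ≤ H := inf_le_left
    have hHD : H ≤ Subgroup.normalizer (D : Set G) := by
      apply le_normalizer_of_conj_mem
      rintro x hx n ⟨hnH, hnC⟩
      have hnH' : n ∈ H := hnH
      have hnC' : n ∈ Subgroup.centralizer ((fun v => v ^ p ^ e) '' (V : Set G)) := hnC
      refine ⟨H.mul_mem (H.mul_mem hx hnH') (H.inv_mem hx), ?_⟩
      show x * n * x⁻¹ ∈ Subgroup.centralizer ((fun v => v ^ p ^ e) '' (V : Set G))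
      rw [Subgroup.mem_centralizer_iff]
      rintro _ ⟨v, hv, rfl⟩
      have hv' : x⁻¹ * v * x ∈ V := by
        have := conj_mem_cj (g := x⁻¹) hv
        rw [hVn _ (H.inv_mem hx)] at this
        simpa using this
      have h1 := (Subgroup.mem_centralizer_iff.mp hnC') ((x⁻¹ * v * x) ^ p ^ e) ⟨_, hv', rfl⟩
      have e1 : (x⁻¹ * v * x) ^ p ^ e = x⁻¹ * v ^ p ^ e * x := by
        have := conj_pow (a := x⁻¹) (b := v) (i := p ^ e)
        simpa using this
      rw [e1] at h1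
      show v ^ p ^ e * (x * n * x⁻¹) = x * n * x⁻¹ * v ^ p ^ e
      calc v ^ p ^ e * (x * n * x⁻¹) = x * ((x⁻¹ * v ^ p ^ e * x) * n) * x⁻¹ := by group
        _ = x * (n * (x⁻¹ * v ^ p ^ e * x)) * x⁻¹ := by rw [h1]
        _ = x * n * x⁻¹ * v ^ p ^ e := by group
    have hgD : g ∈ D := by
      refine ⟨hT.1 hgT, ?_⟩
      show g ∈ Subgroup.centralizer ((fun v => v ^ p ^ e) '' (V : Set G))
      rw [Subgroup.mem_centralizer_iff]
      rintro _ ⟨v, hv, rfl⟩
      have := hcent v hv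
      show v ^ p ^ e * g = g * v ^ p ^ e
      calc v ^ p ^ e * g = (g * v ^ p ^ e * g⁻¹) * g := by rw [this]
        _ = g * v ^ p ^ e := by group
    have hZV : ∀ z ∈ T ⊓ Subgroup.centralizer (T : Set G), z ∈ V := by
      intro z hz
      have hzc : z ∈ Subgroup.centralizer (P : Set G) :=
        Subgroup.centralizer_le hPT hz.2
      exact ⟨hcon ⟨hT.1 hz.1, hzc⟩, hzc⟩
    have hDz : ∀ d ∈ D, ∀ z ∈ T ⊓ Subgroup.centralizer (T : Set G),
        d * z ^ p ^ e * d⁻¹ = z ^ p ^ e := by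
      rintro d ⟨_, hdC⟩ z hz
      have hdC' : d ∈ Subgroup.centralizer ((fun v => v ^ p ^ e) '' (V : Set G)) := hdC
      have := (Subgroup.mem_centralizer_iff.mp hdC') (z ^ p ^ e) ⟨z, hZV z hz, rfl⟩
      rw [← this]; group
    have hSylD : IsSylIn p (T ⊓ D) D := hT.inf_normal hDH hHD
    set K := H ⊓ Subgroup.normalizer ((T ⊓ D : Subgroup G) : Set G) with hK
    have hKH : K ≤ H := inf_le_left
    obtain ⟨d, hd, hdk⟩ := frattini_isSylIn hSylD (hHD hh)
    have hkK : d * h ∈ K := ⟨H.mul_mem (hDH hd) hh, hdk⟩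
    have hKne : K ≠ H := by
      intro hKeq
      have h1 : T ⊓ D ≤ P := le_pCoreOf (inf_le_right.trans hDH) (hT.2.1.to_inf_left)
        (by rw [← hKeq]; exact inf_le_right)
      exact hgP (h1 ⟨hgT, hgD⟩)
    have hTK : T ≤ K := by
      refine le_inf hT.1 ?_
      intro x hx
      rw [← cj_eq_self_iff, cj_inf, cj_eq_of_mem_normalizer (hHD (hT.1 hx)),
        cj_eq_of_mem_normalizer (Subgroup.le_normalizer hx)]
    have hTK' : IsSylIn p T K := hT.of_le hTK hKH
    have hPK : P ≤ pCoreOf p K := le_pCoreOf (hPT.trans hTK) hPp (hKH.trans hPn)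
    have hconK : K ⊓ Subgroup.centralizer ((pCoreOf p K : Subgroup G) : Set G) ≤ pCoreOf p K := by
      intro x hx
      exact hPK (hcon ⟨hKH hx.1, Subgroup.centralizer_le hPK hx.2⟩)
    obtain ⟨c, hc, m, hm, hcz, hmn, hkeq⟩ :=
      ih (Nat.card K) (hk ▸ card_lt_of_lt (lt_of_le_of_ne hKH hKne)) K T rfl hTK' hconK hcl
        (d * h) hkK
    refine ⟨d⁻¹ * c, H.mul_mem (H.inv_mem (hDH hd)) (hKH hc), m, hKH hm, ?_, hmn, ?_⟩
    · intro z hz
      have h1 := hcz z hz
      have h2 := hDz d⁻¹ (D.inv_mem hd) z hz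
      calc d⁻¹ * c * z ^ p ^ e * (d⁻¹ * c)⁻¹ = d⁻¹ * (c * z ^ p ^ e * c⁻¹) * d⁻¹⁻¹ := by group
        _ = z ^ p ^ e := by rw [h1, h2]
    · rw [mul_assoc, ← hkeq]; group

end gpow

end Cfsg.Agent.Lib.Helper15
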