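import Mathlib
import Cfsg.Prelude.Def_PLocal
import Cfsg.Prelude.Def_Local
import Cfsg.Agent.Lib.Helper15.QuadSL2b
import Cfsg.Agent.Lib.Helper15.QdSec2
import Cfsg.Agent.Lib.Helper15.Dickson0

set_option autoImplicit false
set_option linter.unusedSectionVars false
set_option linter.unusedVariables false
set_option linter.unusedSimpArgs false

/-! Reduction of "`Qd(p)` is involved" for a quadratic element on a normal `p`-subgroup to a
module-level statement about quadratic pairs (`NDataStmt`). -/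

namespace Cfsg.Agent.Lib.Helper15

open Cfsg
open scoped commutatorElement

universe u

/-- The module-level statement: a faithful group `Γ = ⟨a, b⟩` on an elementary abelian
`p`-group `A`, generated by two quadratic elements and not a `p`-group, contains `x, y` and
`A` has a subgroup `A₂` and elements `w₁, w₂` such that modulo `A₂` the elements `x`, `y`
act on `w₁, w₂` as the standard unipotent generators of `SL₂(p)`. -/
def NDataStmt (p : ℕ) : Prop :=
  ∀ (Γ : Type u) [Group Γ] [Finite Γ] (A : Type u) [Group A] [Finite A],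
    (∀ x y : A, x * y = y * x) → (∀ x : A, x ^ p = 1) → ∀ (θ : Γ →* MulAut A),
    (∀ g : Γ, θ g = 1 → g = 1) → ∀ (a b : Γ), Subgroup.closure {a, b} = ⊤ →
    (∀ v : A, θ a (θ a v / v) = θ a v / v) → (∀ v : A, θ b (θ b v / v) = θ b v / v) →
    ¬ IsPGroup p Γ →
    ∃ (x y : Γ) (A₂ : Subgroup A) (w₁ w₂ : A), (∀ v ∈ A₂, θ x v ∈ A₂) ∧ (∀ v ∈ A₂, θ y v ∈ A₂) ∧
      w₁ ∉ A₂ ∧ θ x w₁ / w₁ ∈ A₂ ∧ θ x w₂ / (w₁ * w₂) ∈ A₂ ∧ θ y w₁ / (w₁ * w₂) ∈ A₂ ∧
      θ y w₂ / w₂ ∈ A₂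

section core

variable {X : Type u} [Group X] [Finite X] {p : ℕ} [Fact p.Prime]

theorem frattAct_quadratic (P : Subgroup X) [P.Normal] (a : X)
    (hq : ⁅⁅P, Subgroup.zpowers a⁆, Subgroup.zpowers a⁆ = ⊥) (v : ↥P ⧸ frattini ↥P) :
    frattAct P a (frattAct P a v / v) = frattAct P a v / v := by
  induction v using QuotientGroup.induction_on with
  | H u =>
    rw [frattAct_mk, ← QuotientGroup.mk_div, frattAct_mk]
    congr 1
    apply Subtype.ext
    rw [MulAut.conjNormal_apply, Subgroup.coe_div, MulAut.conjNormal_apply]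
    obtain ⟨c, hc⟩ : ∃ c : X, c = a * u * a⁻¹ / u := ⟨_, rfl⟩
    rw [← hc]
    have hc1 : c = ⁅(u : X), a⁆⁻¹ := by
      rw [hc, commutatorElement_def, div_eq_mul_inv]; group
    have hc2 : c ∈ ⁅P, Subgroup.zpowers a⁆ := by
      rw [hc1]
      exact Subgroup.inv_mem _
        (Subgroup.commutator_mem_commutator u.2 (Subgroup.mem_zpowers _))
    have hc3 : ⁅c, a⁆ ∈ ⁅⁅P, Subgroup.zpowers a⁆, Subgroup.zpowers a⁆ :=
      Subgroup.commutator_mem_commutator hc2 (Subgroup.mem_zpowers _)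
    rw [hq, Subgroup.mem_bot] at hc3
    have hc4 : c * a = a * c := commutatorElement_eq_one_iff_mul_comm.mp hc3
    calc a * c * a⁻¹ = c * a * a⁻¹ := by rw [hc4]
      _ = c := by group

/-- The faithful quotient of `X` acting on the Frattini quotient of a normal `p`-subgroup. -/
theorem exists_faithful_frattAct (P : Subgroup X) [P.Normal] (hP : IsPGroup p P)
    (C : Subgroup X) [C.Normal] (hC : C = Subgroup.centralizer (P : Set X)) :
    ∃ (Γ : Type u) (_ : Group Γ) (_ : Finite Γ) (π : X →* Γ)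
      (θ : Γ →* MulAut (↥P ⧸ frattini ↥P)),
      Function.Surjective π ∧ (∀ g, θ g = 1 → g = 1) ∧ (∀ x, θ (π x) = frattAct P x) ∧
      (∀ a : X, π a ∈ pCore p Γ → QuotientGroup.mk' C a ∈ pCore p (X ⧸ C)) := by
  classical
  obtain ⟨θ₀, hθ₀⟩ : ∃ θ₀ : X →* MulAut (↥P ⧸ frattini ↥P), θ₀ = frattAct P := ⟨_, rfl⟩
  have hCker : C ≤ θ₀.ker := by
    intro c hc
    rw [MonoidHom.mem_ker]
    ext v
    induction v using QuotientGroup.induction_on with
    | H u =>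
      rw [hθ₀, frattAct_mk, MulAut.one_apply]
      congr 1
      apply Subtype.ext
      rw [MulAut.conjNormal_apply]
      rw [hC, Subgroup.mem_centralizer_iff] at hc
      have := hc u u.2
      rw [← this]; group
  let θ₁ : X ⧸ C →* MulAut (↥P ⧸ frattini ↥P) := QuotientGroup.lift C θ₀ hCker
  have hθ₁ : ∀ x : X, θ₁ (QuotientGroup.mk' C x) = θ₀ x := fun x => rfl
  have hker : IsPGroup p ↥θ₁.ker := by
    apply Cfsg.Agent.Lib.Helper14.isPGroup_of_no_prime_order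
    intro r hr hrp g hg
    obtain ⟨g₀, hg₀⟩ := QuotientGroup.mk'_surjective C (g : X ⧸ C)
    have hg' : orderOf (QuotientGroup.mk' C g₀) = r := by
      rw [hg₀, Subgroup.orderOf_coe]; exact hg
    obtain ⟨c, k, hck, hc1, hcz⟩ := exists_rpow_lift (QuotientGroup.mk' C) hr g₀ hg'
    apply hc1
    rw [QuotientGroup.mk'_apply, QuotientGroup.eq_one_iff, hC]
    have : Fact r.Prime := ⟨hr⟩
    apply Cfsg.Agent.Lib.Helper75.Fratt.mem_centralizer_of_frattini (p := p) (q := r)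
      (Ne.symm hrp) P hP c k hck
    intro x hx
    have hθc : θ₀ c = 1 := by
      obtain ⟨j, rfl⟩ := Subgroup.mem_zpowers_iff.mp hcz
      rw [map_zpow, ← hθ₁, hg₀]
      have : θ₁ (g : X ⧸ C) = 1 := MonoidHom.mem_ker.mp g.2
      rw [this, one_zpow]
    have h1 : θ₀ c ((⟨x, hx⟩ : ↥P) : ↥P ⧸ frattini ↥P) =
        ((⟨x, hx⟩ : ↥P) : ↥P ⧸ frattini ↥P) := by
      rw [hθc]; rfl
    rw [hθ₀, frattAct_mk, QuotientGroup.eq_iff_div_mem] at h1
    refine ⟨_, h1, ?_⟩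
    simp [div_eq_mul_inv, MulAut.conjNormal_apply]
  let θ : (X ⧸ C) ⧸ θ₁.ker →* MulAut (↥P ⧸ frattini ↥P) := QuotientGroup.kerLift θ₁
  have hθinj : ∀ g, θ g = 1 → g = 1 := fun g hg =>
    QuotientGroup.kerLift_injective θ₁ (hg.trans (map_one _).symm)
  let π : X →* (X ⧸ C) ⧸ θ₁.ker := (QuotientGroup.mk' θ₁.ker).comp (QuotientGroup.mk' C)
  have hπ : Function.Surjective π :=
    (QuotientGroup.mk'_surjective _).comp (QuotientGroup.mk'_surjective _)
  have hθπ : ∀ x, θ (π x) = frattAct P x := fun x => by rw [← hθ₀]; rfl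
  refine ⟨(X ⧸ C) ⧸ θ₁.ker, inferInstance, inferInstance, π, θ, hπ, hθinj, hθπ, ?_⟩
  intro a hmem
  have hMp : IsPGroup p
      ((pCore p ((X ⧸ C) ⧸ θ₁.ker)).comap (QuotientGroup.mk' θ₁.ker)) := by
    apply IsPGroup.comap_of_ker_isPGroup Cfsg.Agent.Lib.Helper14.pCore_isPGroup
    rw [QuotientGroup.ker_mk']; exact hker
  have hMn : ((pCore p ((X ⧸ C) ⧸ θ₁.ker)).comap (QuotientGroup.mk' θ₁.ker)).Normal :=
    Subgroup.Normal.comap inferInstance _
  exact Cfsg.Agent.Lib.Helper14.le_pCore hMn hMp hmem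

/-- **`Qd(p)` from a quadratic element on a normal `p`-subgroup**, modulo the module-level
statement `NDataStmt`. -/
theorem qd_section_of_normal_of (hN : NDataStmt.{u} p) (hp2 : p ≠ 2) (P : Subgroup X)
    [P.Normal] (hP : IsPGroup p P) (C : Subgroup X) [C.Normal]
    (hC : C = Subgroup.centralizer (P : Set X)) (a : X)
    (hq : ⁅⁅P, Subgroup.zpowers a⁆, Subgroup.zpowers a⁆ = ⊥)
    (ha : QuotientGroup.mk' C a ∉ pCore p (X ⧸ C)) :
    ∃ (K R : Subgroup X) (hR : (R.subgroupOf K).Normal),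
      Nonempty ((K ⧸ R.subgroupOf K) ≃* ↥(Cfsg.qd p)) := by
  classical
  obtain ⟨Γ, iG, iF, π, θ, hπ, hθinj, hθπ, hcore⟩ := exists_faithful_frattAct P hP C hC
  have hcommV : ∀ v v' : ↥P ⧸ frattini ↥P, v * v' = v' * v :=
    fun v v' => (frattCommGroup hP).mul_comm v v'
  have hA : ∀ v : ↥P ⧸ frattini ↥P, v ^ p = 1 := by
    intro v
    induction v using QuotientGroup.induction_on with
    | H u =>
      rw [← QuotientGroup.mk_pow, QuotientGroup.eq_one_iff]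
      exact Cfsg.Agent.Lib.Helper72.pow_mem_frattini hP u
  have hquadV : ∀ v : ↥P ⧸ frattini ↥P, θ (π a) (θ (π a) v / v) = θ (π a) v / v := by
    intro v; rw [hθπ]; exact frattAct_quadratic P a hq v
  have hna : π a ∉ pCore p Γ := fun h => ha (hcore a h)
  -- Baer–Suzuki
  have hex : ∃ g : Γ, ¬ IsPGroup p ↥(Subgroup.closure ({π a, g * π a * g⁻¹} : Set Γ)) := by
    by_contra hcon
    push Not at hcon
    exact hna (@Cfsg.Agent.Lib.Helper14.quad_mem_pCore_of_pair Γ _ _ (↥P ⧸ frattini ↥P)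
      (frattCommGroup hP) _ p _ hA θ hθinj (π a) hquadV hcon)
  obtain ⟨g, hnp⟩ := hex
  obtain ⟨Γ₁, hΓ₁def⟩ : ∃ Γ₁ : Subgroup Γ,
      Γ₁ = Subgroup.closure ({π a, g * π a * g⁻¹} : Set Γ) := ⟨_, rfl⟩
  rw [← hΓ₁def] at hnp
  have haΓ : π a ∈ Γ₁ := by rw [hΓ₁def]; exact Subgroup.subset_closure (Set.mem_insert _ _)
  have hbΓ : g * π a * g⁻¹ ∈ Γ₁ := by
    rw [hΓ₁def]; exact Subgroup.subset_closure (Set.mem_insert_of_mem _ (Set.mem_singleton _))
  have hgen : Subgroup.closure ({⟨π a, haΓ⟩, ⟨g * π a * g⁻¹, hbΓ⟩} : Set ↥Γ₁) = ⊤ := by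
    apply Subgroup.map_injective Γ₁.subtype_injective
    rw [MonoidHom.map_closure, ← MonoidHom.range_eq_map, Subgroup.range_subtype, Set.image_pair]
    exact hΓ₁def.symm
  have hquadb : ∀ v : ↥P ⧸ frattini ↥P,
      θ (g * π a * g⁻¹) (θ (g * π a * g⁻¹) v / v) = θ (g * π a * g⁻¹) v / v :=
    @Cfsg.Agent.Lib.Helper14.quad_conj Γ _ (↥P ⧸ frattini ↥P) (frattCommGroup hP) θ (π a) g
      hquadV
  obtain ⟨x, y, A₂, w₁, w₂, hxA, hyA, hw, r1, r2, r3, r4⟩ :=
    hN ↥Γ₁ (↥P ⧸ frattini ↥P) hcommV hA (θ.comp Γ₁.subtype)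
      (fun g hg => Subtype.ext (hθinj _ hg)) ⟨π a, haΓ⟩ ⟨g * π a * g⁻¹, hbΓ⟩ hgen hquadV hquadb
      hnp
  -- lifts to `X`
  obtain ⟨xt, hxt⟩ := hπ (x : Γ)
  obtain ⟨yt, hyt⟩ := hπ (y : Γ)
  obtain ⟨u₁, hu₁⟩ := QuotientGroup.mk_surjective w₁
  obtain ⟨u₂, hu₂⟩ := QuotientGroup.mk_surjective w₂
  obtain ⟨cls, hclsdef⟩ : ∃ cls : ↥P →* ↥P ⧸ frattini ↥P,
      cls = QuotientGroup.mk' (frattini ↥P) := ⟨_, rfl⟩
  have hcls : ∀ u : ↥P, cls u = (u : ↥P ⧸ frattini ↥P) := fun u => by rw [hclsdef]; rfl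
  have hc1 : cls u₁ = w₁ := by rw [hcls, hu₁]
  have hc2 : cls u₂ = w₂ := by rw [hcls, hu₂]
  have hactx : ∀ u : ↥P, cls (MulAut.conjNormal xt u) = θ (x : Γ) (cls u) := by
    intro u
    rw [hcls, hcls, ← hxt, hθπ, frattAct_mk]
  have hacty : ∀ u : ↥P, cls (MulAut.conjNormal yt u) = θ (y : Γ) (cls u) := by
    intro u
    rw [hcls, hcls, ← hyt, hθπ, frattAct_mk]
  obtain ⟨P₂, hP₂def⟩ : ∃ P₂ : Subgroup X, P₂ = (A₂.comap cls).map P.subtype := ⟨_, rfl⟩
  have hmemP₂ : ∀ u : ↥P, (u : X) ∈ P₂ ↔ cls u ∈ A₂ := by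
    intro u
    rw [hP₂def]
    constructor
    · rintro ⟨u', hu', h⟩
      have : u' = u := Subtype.ext h
      rw [← this]; exact hu'
    · intro h
      exact ⟨u, h, rfl⟩
  have hP₂P : P₂ ≤ P := by rw [hP₂def]; exact Subgroup.map_subtype_le _
  have hxN : xt ∈ Subgroup.normalizer (P₂ : Set X) := by
    apply dmem_normalizer
    intro u hu
    have h1 := (hmemP₂ ⟨u, hP₂P hu⟩).mp hu
    have h2 : xt * u * xt⁻¹ = ((MulAut.conjNormal xt (⟨u, hP₂P hu⟩ : ↥P) : ↥P) : X) := by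
      rw [MulAut.conjNormal_apply]
    rw [h2, hmemP₂, hactx]
    exact hxA _ h1
  have hyN : yt ∈ Subgroup.normalizer (P₂ : Set X) := by
    apply dmem_normalizer
    intro u hu
    have h1 := (hmemP₂ ⟨u, hP₂P hu⟩).mp hu
    have h2 : yt * u * yt⁻¹ = ((MulAut.conjNormal yt (⟨u, hP₂P hu⟩ : ↥P) : ↥P) : X) := by
      rw [MulAut.conjNormal_apply]
    rw [h2, hmemP₂, hacty]
    exact hyA _ h1
  have hPN : ∀ v : ↥P, (v : X) ∈ Subgroup.normalizer (P₂ : Set X) := by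
    intro v
    apply dmem_normalizer
    intro u hu
    have h1 := (hmemP₂ ⟨u, hP₂P hu⟩).mp hu
    have h2 : (v : X) * u * (v : X)⁻¹ = ((v * ⟨u, hP₂P hu⟩ * v⁻¹ : ↥P) : X) := rfl
    rw [h2, hmemP₂, map_mul, map_mul, map_inv, hcommV (cls v), mul_inv_cancel_right]
    exact h1
  obtain ⟨N, hNdef⟩ : ∃ N : Subgroup X, N = Subgroup.normalizer (P₂ : Set X) := ⟨_, rfl⟩
  have hPnN : (P₂.subgroupOf N).Normal := by
    rw [hNdef]; exact Subgroup.normal_in_normalizer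
  obtain ⟨q, hqdef⟩ : ∃ q : ↥N →* ↥N ⧸ P₂.subgroupOf N,
      q = QuotientGroup.mk' (P₂.subgroupOf N) := ⟨_, rfl⟩
  have hq1 : ∀ (z : ↥N) (u : ↥P), (z : X) = (u : X) → cls u ∈ A₂ → q z = 1 := by
    intro z u hzu hu
    rw [hqdef, QuotientGroup.mk'_apply, QuotientGroup.eq_one_iff, Subgroup.mem_subgroupOf, hzu]
    exact (hmemP₂ u).mpr hu
  have hxN' : xt ∈ N := by rw [hNdef]; exact hxN
  have hyN' : yt ∈ N := by rw [hNdef]; exact hyN
  have hPN' : ∀ v : ↥P, (v : X) ∈ N := fun v => by rw [hNdef]; exact hPN v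
  obtain ⟨X1, hX1⟩ : ∃ X1 : ↥N, (X1 : X) = xt := ⟨⟨xt, hxN'⟩, rfl⟩
  obtain ⟨Y1, hY1⟩ : ∃ Y1 : ↥N, (Y1 : X) = yt := ⟨⟨yt, hyN'⟩, rfl⟩
  obtain ⟨W1, hW1⟩ : ∃ W1 : ↥N, (W1 : X) = u₁ := ⟨⟨u₁, hPN' u₁⟩, rfl⟩
  obtain ⟨W2, hW2⟩ : ∃ W2 : ↥N, (W2 : X) = u₂ := ⟨⟨u₂, hPN' u₂⟩, rfl⟩
  have one_mem : (1 : ↥P ⧸ frattini ↥P) ∈ A₂ := A₂.one_mem
  -- the relations in the quotient
  have e1 : q W1 * q W2 = q W2 * q W1 := by
    apply mul_inv_eq_one.mp
    rw [← map_mul, ← map_mul, ← map_inv, ← map_mul]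
    apply hq1 _ (u₁ * u₂ * (u₂ * u₁)⁻¹)
    · simp [hW1, hW2]
    · rw [map_mul, map_inv, map_mul, map_mul, hcommV (cls u₂), mul_inv_cancel]
      exact one_mem
  have e2 : q W1 ^ p = 1 := by
    rw [← map_pow]
    apply hq1 _ (u₁ ^ p)
    · simp [hW1]
    · rw [map_pow, hA]; exact one_mem
  have e3 : q W2 ^ p = 1 := by
    rw [← map_pow]
    apply hq1 _ (u₂ ^ p)
    · simp [hW2]
    · rw [map_pow, hA]; exact one_mem
  have e4 : q W1 ≠ 1 := by
    intro h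
    rw [hqdef, QuotientGroup.mk'_apply, QuotientGroup.eq_one_iff, Subgroup.mem_subgroupOf, hW1,
      hmemP₂, hc1] at h
    exact hw h
  have e5 : q X1 * q W1 * (q X1)⁻¹ = q W1 := by
    apply mul_inv_eq_one.mp
    rw [← map_inv, ← map_mul, ← map_mul, ← map_inv, ← map_mul]
    apply hq1 _ (MulAut.conjNormal xt u₁ * u₁⁻¹)
    · simp [hX1, hW1, MulAut.conjNormal_apply]
    · rw [map_mul, map_inv, hactx, hc1, ← div_eq_mul_inv]
      exact r1
  have e6 : q X1 * q W2 * (q X1)⁻¹ = q W1 * q W2 := by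
    apply mul_inv_eq_one.mp
    rw [← map_inv, ← map_mul, ← map_mul, ← map_mul, ← map_inv, ← map_mul]
    apply hq1 _ (MulAut.conjNormal xt u₂ * (u₁ * u₂)⁻¹)
    · simp [hX1, hW1, hW2, MulAut.conjNormal_apply]
    · rw [map_mul, map_inv, map_mul, hactx, hc1, hc2, ← div_eq_mul_inv]
      exact r2
  have e7 : q Y1 * q W1 * (q Y1)⁻¹ = q W1 * q W2 := by
    apply mul_inv_eq_one.mp
    rw [← map_inv, ← map_mul, ← map_mul, ← map_mul, ← map_inv, ← map_mul]
    apply hq1 _ (MulAut.conjNormal yt u₁ * (u₁ * u₂)⁻¹)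
    · simp [hY1, hW1, hW2, MulAut.conjNormal_apply]
    · rw [map_mul, map_inv, map_mul, hacty, hc1, hc2, ← div_eq_mul_inv]
      exact r3
  have e8 : q Y1 * q W2 * (q Y1)⁻¹ = q W2 := by
    apply mul_inv_eq_one.mp
    rw [← map_inv, ← map_mul, ← map_mul, ← map_inv, ← map_mul]
    apply hq1 _ (MulAut.conjNormal yt u₂ * u₂⁻¹)
    · simp [hY1, hW2, MulAut.conjNormal_apply]
    · rw [map_mul, map_inv, hacty, hc2, ← div_eq_mul_inv]
      exact r4
  obtain ⟨K, R, hR, ⟨e⟩⟩ := qd_section_of_rel hp2 (q W1) (q W2) (q X1) (q Y1) e1 e2 e3 e4 e5 e6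
    e7 e8
  have hqs : Function.Surjective q := by rw [hqdef]; exact QuotientGroup.mk'_surjective _
  obtain ⟨K', R', hR', ⟨e'⟩⟩ := section_comap q K R hR (by
    rw [MonoidHom.range_eq_top.mpr hqs]; exact le_top)
  obtain ⟨K'', R'', hR'', -, ⟨e''⟩⟩ := section_lift N K' R' hR'
  exact ⟨K'', R'', hR'', ⟨(e''.trans e').trans e⟩⟩

/-- `Qd(p)`-free groups act `p`-stably on their normal `p`-subgroups (modulo `NDataStmt`). -/
theorem isPStableOn_of_qd_free_of (hN : NDataStmt.{u} p) (hp2 : p ≠ 2)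
    (hfree : ¬ ∃ (K R : Subgroup X) (hR : (R.subgroupOf K).Normal),
      Nonempty ((K ⧸ R.subgroupOf K) ≃* ↥(Cfsg.qd p)))
    (P : Subgroup X) [P.Normal] (hP : IsPGroup p P) : IsPStableOn p P := by
  intro a hq
  by_contra hna
  exact hfree (qd_section_of_normal_of hN hp2 P hP (Subgroup.centralizer (P : Set X)) rfl a hq
    hna)

/-- Failure of the inner clause of `IsPStable` gives a section `Qd(p)` (modulo
`NDataStmt`). -/
theorem qd_section_of_quad_normalizer_of (hN : NDataStmt.{u} p) (hp : p ≠ 2)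
    (A P : Subgroup X) (hP : IsPGroup p P) (hquad : ⁅⁅P, A⁆, A⁆ = ⊥)
    (hnot : ¬ (A.subgroupOf (Subgroup.normalizer (P : Set X))).map
          (QuotientGroup.mk' ((Subgroup.centralizer (P : Set X)).subgroupOf
            (Subgroup.normalizer (P : Set X)))) ≤ pCore p _) :
    ∃ (K R : Subgroup X) (hR : (R.subgroupOf K).Normal),
      Nonempty ((K ⧸ R.subgroupOf K) ≃* ↥(Cfsg.qd p)) := by
  classical
  obtain ⟨ā, hā, hā'⟩ := SetLike.not_le_iff_exists.mp hnot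
  obtain ⟨a₀, ha₀, rfl⟩ := hā
  have ha₀A : (a₀ : X) ∈ A := ha₀
  have hPN : P ≤ Subgroup.normalizer (P : Set X) := Subgroup.le_normalizer
  have hnorm : (P.subgroupOf (Subgroup.normalizer (P : Set X))).Normal :=
    Subgroup.normal_in_normalizer
  have hP' : IsPGroup p ↥(P.subgroupOf (Subgroup.normalizer (P : Set X))) :=
    hP.comap_of_injective _ (Subgroup.subtype_injective _)
  have hC : (Subgroup.centralizer (P : Set X)).subgroupOf (Subgroup.normalizer (P : Set X)) =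
      Subgroup.centralizer ((P.subgroupOf (Subgroup.normalizer (P : Set X)) :
        Subgroup ↥(Subgroup.normalizer (P : Set X))) : Set ↥(Subgroup.normalizer (P : Set X))) := by
    ext c
    rw [Subgroup.mem_subgroupOf, Subgroup.mem_centralizer_iff, Subgroup.mem_centralizer_iff]
    constructor
    · intro h y hy
      apply Subtype.ext
      exact h y hy
    · intro h x hx
      have := h ⟨x, hPN hx⟩ (Subgroup.mem_subgroupOf.mpr hx)
      exact congrArg Subtype.val this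
  have hzA : (Subgroup.zpowers a₀).map (Subgroup.normalizer (P : Set X)).subtype ≤ A := by
    rw [MonoidHom.map_zpowers]
    exact (Subgroup.zpowers_le).mpr ha₀A
  have hq' : ⁅⁅P.subgroupOf (Subgroup.normalizer (P : Set X)), Subgroup.zpowers a₀⁆,
      Subgroup.zpowers a₀⁆ = ⊥ := by
    apply (Subgroup.map_eq_bot_iff_of_injective _ (Subgroup.subtype_injective _)).mp
    rw [Subgroup.map_commutator, Subgroup.map_commutator, eq_bot_iff, ← hquad]
    apply Subgroup.commutator_mono (Subgroup.commutator_mono ?_ hzA) hzA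
    rw [Subgroup.subgroupOf_map_subtype]; exact inf_le_left
  obtain ⟨K, L, hL, ⟨e⟩⟩ := qd_section_of_normal_of hN hp
    (P.subgroupOf (Subgroup.normalizer (P : Set X))) hP' _ hC a₀ hq' hā'
  obtain ⟨K', L', hL', -, ⟨e'⟩⟩ := section_lift (Subgroup.normalizer (P : Set X)) K L hL
  exact ⟨K', L', hL', ⟨e'.trans e⟩⟩

end core

end Cfsg.Agent.Lib.Helper15
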