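import Mathlib

set_option autoImplicit false
set_option linter.unusedSectionVars false
set_option linter.unusedVariables false

/-! Natural-module data for a pair of endomorphisms, and its descent along a jointly
injective family of intertwining maps. -/

namespace Cfsg.Agent.Lib.Helper15

section descent

variable {F : Type*} [Field F]

/-- "Natural module data" for a pair of endomorphisms `Tx`, `Ty` of a module: an invariant
submodule `X₂` and vectors `w₁ ∉ X₂`, `w₂` with `Tx w₁ ≡ w₁`, `Tx w₂ ≡ w₁ + w₂`,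
`Ty w₁ ≡ w₁ + w₂`, `Ty w₂ ≡ w₂` modulo `X₂`. -/
def HasNData {V : Type*} [AddCommGroup V] [Module F V] (Tx Ty : V →ₗ[F] V) : Prop :=
  ∃ (X₂ : Submodule F V) (w₁ w₂ : V), (∀ v ∈ X₂, Tx v ∈ X₂) ∧ (∀ v ∈ X₂, Ty v ∈ X₂) ∧ w₁ ∉ X₂ ∧
    Tx w₁ - w₁ ∈ X₂ ∧ Tx w₂ - (w₁ + w₂) ∈ X₂ ∧ Ty w₁ - (w₁ + w₂) ∈ X₂ ∧ Ty w₂ - w₂ ∈ X₂

variable {W M : Type*} [AddCommGroup W] [Module F W] [FiniteDimensional F W]
  [AddCommGroup M] [Module F M]

theorem ndata_descent {ι : Type*} (Tx Ty : W →ₗ[F] W) (Sx Sy : M →ₗ[F] M) (π : ι → W →ₗ[F] M)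
    (hx : ∀ i v, π i (Tx v) = Sx (π i v)) (hy : ∀ i v, π i (Ty v) = Sy (π i v))
    (hinj : ∀ v, (∀ i, π i v = 0) → v = 0) (h : HasNData Tx Ty) : HasNData Sx Sy := by
  have key : ∀ (d : ℕ) (Y : Submodule F W), Module.finrank F Y = d →
      (∀ v ∈ Y, Tx v ∈ Y) → (∀ v ∈ Y, Ty v ∈ Y) →
      ∀ (X₂ : Submodule F W) (w₁ w₂ : W), X₂ ≤ Y → w₁ ∈ Y → w₂ ∈ Y →
      (∀ v ∈ X₂, Tx v ∈ X₂) → (∀ v ∈ X₂, Ty v ∈ X₂) → w₁ ∉ X₂ →
      Tx w₁ - w₁ ∈ X₂ → Tx w₂ - (w₁ + w₂) ∈ X₂ → Ty w₁ - (w₁ + w₂) ∈ X₂ → Ty w₂ - w₂ ∈ X₂ →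
      HasNData Sx Sy := by
    intro d
    induction d using Nat.strong_induction_on with
    | _ d ih =>
    intro Y hd hYx hYy X₂ w₁ w₂ hXY hw₁ hw₂ hXx hXy hw r1 r2 r3 r4
    have hw0 : w₁ ≠ 0 := fun h0 => hw (h0 ▸ X₂.zero_mem)
    obtain ⟨i, hi⟩ : ∃ i, π i w₁ ≠ 0 := by
      by_contra hcon
      push Not at hcon
      exact hw0 (hinj w₁ hcon)
    obtain ⟨Y', hY'⟩ : ∃ Y' : Submodule F W, Y' = Y ⊓ LinearMap.ker (π i) := ⟨_, rfl⟩
    have hmemY' : ∀ v, v ∈ Y' ↔ v ∈ Y ∧ π i v = 0 := by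
      intro v; rw [hY', Submodule.mem_inf, LinearMap.mem_ker]
    by_cases hA : ∃ y₁ ∈ Y', w₁ - y₁ ∈ X₂
    · obtain ⟨y₁, hy₁, hδ⟩ := hA
      have hY'x : ∀ v ∈ Y', Tx v ∈ Y' := by
        intro v hv
        rw [hmemY'] at hv ⊢
        exact ⟨hYx v hv.1, by rw [hx, hv.2, map_zero]⟩
      have hY'y : ∀ v ∈ Y', Ty v ∈ Y' := by
        intro v hv
        rw [hmemY'] at hv ⊢
        exact ⟨hYy v hv.1, by rw [hy, hv.2, map_zero]⟩
      have hlt : Module.finrank F Y' < d := by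
        rw [← hd]
        apply Submodule.finrank_lt_finrank_of_lt
        refine lt_of_le_of_ne (by rw [hY']; exact inf_le_left) ?_
        intro heq
        have : w₁ ∈ Y' := by rw [heq]; exact hw₁
        exact hi ((hmemY' w₁).mp this).2
      have hw₂' : Ty y₁ - y₁ ∈ Y' := Y'.sub_mem (hY'y _ hy₁) hy₁
      have hε : Ty y₁ - y₁ - w₂ ∈ X₂ := by
        have : Ty y₁ - y₁ - w₂ = (Ty w₁ - (w₁ + w₂)) - (Ty (w₁ - y₁) - (w₁ - y₁)) := by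
          rw [map_sub]; abel
        rw [this]; exact X₂.sub_mem r3 (X₂.sub_mem (hXy _ hδ) hδ)
      refine ih _ hlt Y' rfl hY'x hY'y (X₂ ⊓ Y') y₁ (Ty y₁ - y₁) inf_le_right hy₁ hw₂'
        ?_ ?_ ?_ ?_ ?_ ?_ ?_
      · intro v hv
        exact ⟨hXx v hv.1, hY'x v hv.2⟩
      · intro v hv
        exact ⟨hXy v hv.1, hY'y v hv.2⟩
      · intro h
        apply hw
        have := X₂.add_mem hδ h.1
        simpa using this
      · refine ⟨?_, Y'.sub_mem (hY'x _ hy₁) hy₁⟩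
        have : Tx y₁ - y₁ = (Tx w₁ - w₁) - (Tx (w₁ - y₁) - (w₁ - y₁)) := by rw [map_sub]; abel
        rw [this]; exact X₂.sub_mem r1 (X₂.sub_mem (hXx _ hδ) hδ)
      · refine ⟨?_, Y'.sub_mem (hY'x _ hw₂') (Y'.add_mem hy₁ hw₂')⟩
        have : Tx (Ty y₁ - y₁) - (y₁ + (Ty y₁ - y₁)) =
            (Tx w₂ - (w₁ + w₂)) + Tx (Ty y₁ - y₁ - w₂) + (w₁ - y₁) - (Ty y₁ - y₁ - w₂) := by
          rw [map_sub Tx (Ty y₁ - y₁) w₂]; abel
        rw [this]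
        exact X₂.sub_mem (X₂.add_mem (X₂.add_mem r2 (hXx _ hε)) hδ) hε
      · have : Ty y₁ - (y₁ + (Ty y₁ - y₁)) = 0 := by abel
        rw [this]; exact Submodule.zero_mem _
      · refine ⟨?_, Y'.sub_mem (hY'y _ hw₂') hw₂'⟩
        have : Ty (Ty y₁ - y₁) - (Ty y₁ - y₁) =
            (Ty w₂ - w₂) + (Ty (Ty y₁ - y₁ - w₂) - (Ty y₁ - y₁ - w₂)) := by
          rw [map_sub Ty (Ty y₁ - y₁) w₂]; abel
        rw [this]; exact X₂.add_mem r4 (X₂.sub_mem (hXy _ hε) hε)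
    · refine ⟨X₂.map (π i), π i w₁, π i w₂, ?_, ?_, ?_, ?_, ?_, ?_, ?_⟩
      · rintro _ ⟨u, hu, rfl⟩
        rw [← hx]; exact Submodule.mem_map_of_mem (hXx u hu)
      · rintro _ ⟨u, hu, rfl⟩
        rw [← hy]; exact Submodule.mem_map_of_mem (hXy u hu)
      · rintro ⟨u, hu, hπ⟩
        apply hA
        refine ⟨w₁ - u, (hmemY' _).mpr ⟨Y.sub_mem hw₁ (hXY hu), by rw [map_sub, hπ, sub_self]⟩, ?_⟩
        have : w₁ - (w₁ - u) = u := by abel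
        rw [this]; exact hu
      · rw [← hx, ← map_sub]; exact Submodule.mem_map_of_mem r1
      · rw [← hx, ← map_add, ← map_sub]; exact Submodule.mem_map_of_mem r2
      · rw [← hy, ← map_add, ← map_sub]; exact Submodule.mem_map_of_mem r3
      · rw [← hy, ← map_sub]; exact Submodule.mem_map_of_mem r4
  obtain ⟨X₂, w₁, w₂, hXx, hXy, hw, r1, r2, r3, r4⟩ := h
  exact key _ ⊤ rfl (fun _ _ => trivial) (fun _ _ => trivial) X₂ w₁ w₂ le_top trivial trivial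
    hXx hXy hw r1 r2 r3 r4

end descent

end Cfsg.Agent.Lib.Helper15
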