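import Mathlib
import Cfsg.Agent.Lib.Helper14.QuadPair

set_option autoImplicit false
set_option linter.unusedSectionVars false
set_option linter.unusedVariables false
set_option linter.unusedSimpArgs false

/-! A quadratic pair which is not a `p`-group on a module over a finite field: a
two-dimensional section on which the pair acts through `SL₂` (helper14's induction
`quad_pair_SL2`, with the section recorded). -/

namespace Cfsg.Agent.Lib.Helper15

open Cfsg.Agent.Lib.Helper14 (IsPRep subRep quotRep subRep_apply quotRep_mk isPRep_pow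
  isPRep_of_sub_quot exists_eigenvector_of_pow_eq_one subRep_quadratic quotRep_quadratic
  subRep_eq_one quotRep_eq_one pow_char_eq_one_of_quadratic)

section main

universe u

variable {K : Type*} [Field K] [Fintype K] {p : ℕ} [Fact p.Prime] [CharP K p]
variable {Γ : Type*} [Group Γ]

/-- `ρ` has a two-dimensional section (modulo the invariant subspace `U₂`, with basis the
images of `e₁, e₂`) on which it acts through a homomorphism `φ` to `SL₂(K)` whose image is not
a `p`-group. -/
def HasSL2Sec (p : ℕ) {W : Type*} [AddCommGroup W] [Module K W] (ρ : Γ →* Module.End K W) :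
    Prop :=
  ∃ (U₂ : Submodule K W) (e₁ e₂ : W) (φ : Γ →* Matrix.SpecialLinearGroup (Fin 2) K),
    (∀ g, ∀ u ∈ U₂, ρ g u ∈ U₂) ∧
    (∀ g, ρ g e₁ - (φ g 0 0 • e₁ + φ g 1 0 • e₂) ∈ U₂) ∧
    (∀ g, ρ g e₂ - (φ g 0 1 • e₁ + φ g 1 1 • e₂) ∈ U₂) ∧
    (∀ c d : K, c • e₁ + d • e₂ ∈ U₂ → c = 0 ∧ d = 0) ∧ ¬ IsPRep p φ

theorem quad_pair_sec (a b : Γ) (hgen : Subgroup.closure {a, b} = ⊤) (e : ℕ) :
    ∀ (n : ℕ) (W : Type u) [AddCommGroup W] [Module K W] [FiniteDimensional K W]
      (ρ : Γ →* Module.End K W), Module.finrank K W = n →
      (ρ a - 1) * (ρ a - 1) = 0 → (ρ b - 1) * (ρ b - 1) = 0 →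
      ρ (a * b) ^ (p ^ e * (Fintype.card K - 1)) = 1 → ¬ IsPRep p ρ →
      HasSL2Sec p ρ := by
  intro n
  induction n using Nat.strong_induction_on with
  | _ n ih =>
  intro W _ _ _ ρ hn ha hb hab hnp
  have hWnt : Nontrivial W := by
    by_contra hW
    rw [not_nontrivial_iff_subsingleton] at hW
    apply hnp
    intro g
    refine ⟨0, ?_⟩
    ext v
    exact Subsingleton.elim _ _
  set A := ρ a with hA
  set B := ρ b with hB
  obtain ⟨w, hw0, μ, hμ⟩ := exists_eigenvector_of_pow_eq_one (ρ (a * b)) e hab
  have hABw : A (B w) = μ • w := by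
    rw [← hμ, map_mul]
    rfl
  have quad : ∀ T : Module.End K W, (T - 1) * (T - 1) = 0 → ∀ v, T (T v) = T v + T v - v := by
    intro T hT v
    have := congrArg (fun S : Module.End K W => S v) hT
    simp only [Module.End.mul_apply, LinearMap.sub_apply, Module.End.one_apply,
      LinearMap.zero_apply, map_sub] at this
    have h2 := sub_eq_zero.mp this
    rw [sub_eq_iff_eq_add] at h2
    rw [h2]
    abel
  have hA2 := quad A ha
  have hB2 := quad B hb
  have hinv : ∀ g : Γ, ∀ v, ρ g⁻¹ (ρ g v) = v := by
    intro g v
    have : ρ g⁻¹ * ρ g = 1 := by rw [← map_mul, inv_mul_cancel, map_one]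
    exact congrArg (fun S : Module.End K W => S v) this
  have hμ0 : μ ≠ 0 := by
    intro h0
    rw [h0, zero_smul] at hμ
    have := hinv (a * b) w
    rw [hμ, map_zero] at this
    exact hw0 this.symm
  have hAw : A w = w + w - μ⁻¹ • B w := by
    have h1 := hA2 (B w)
    rw [hABw, map_smul] at h1
    have h2 : μ⁻¹ • (μ • A w) = μ⁻¹ • (μ • w + μ • w - B w) := by rw [h1]
    rw [smul_smul, inv_mul_cancel₀ hμ0, one_smul, smul_sub, smul_add, smul_smul,
      inv_mul_cancel₀ hμ0, one_smul] at h2
    exact h2
  have hinvq : ∀ g : Γ, (∀ v, ρ g (ρ g v) = ρ g v + ρ g v - v) → ∀ v, ρ g⁻¹ v = v + v - ρ g v := by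
    intro g hq v
    have h1 : ρ g (v + v - ρ g v) = v := by
      rw [map_sub, map_add, hq v]
      abel
    have h2 := hinv g (v + v - ρ g v)
    rw [h1] at h2
    exact h2
  set U : Submodule K W := Submodule.span K (Set.range ![w, B w]) with hUdef
  have hwU : w ∈ U := Submodule.subset_span ⟨0, rfl⟩
  have hBwU : B w ∈ U := Submodule.subset_span ⟨1, rfl⟩
  have inv_of : ∀ T : Module.End K W, T w ∈ U → T (B w) ∈ U → ∀ u ∈ U, T u ∈ U := by
    intro T h0 h1
    have : U ≤ U.comap T := by
      rw [hUdef, Submodule.span_le]
      rintro _ ⟨i, rfl⟩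
      fin_cases i
      · exact h0
      · exact h1
    exact fun u hu => this hu
  have hAU : ∀ u ∈ U, A u ∈ U := by
    apply inv_of
    · rw [hAw]
      exact U.sub_mem (U.add_mem hwU hwU) (U.smul_mem _ hBwU)
    · rw [hABw]
      exact U.smul_mem _ hwU
  have hBU : ∀ u ∈ U, B u ∈ U := by
    apply inv_of
    · exact hBwU
    · rw [hB2 w]
      exact U.sub_mem (U.add_mem hBwU hBwU) hwU
  have hAiU : ∀ u ∈ U, ρ a⁻¹ u ∈ U := by
    intro u hu
    rw [hinvq a hA2 u]
    exact U.sub_mem (U.add_mem hu hu) (hAU u hu)
  have hBiU : ∀ u ∈ U, ρ b⁻¹ u ∈ U := by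
    intro u hu
    rw [hinvq b hB2 u]
    exact U.sub_mem (U.add_mem hu hu) (hBU u hu)
  have hU' : ∀ g ∈ Subgroup.closure ({a, b} : Set Γ),
      (∀ u ∈ U, ρ g u ∈ U) ∧ (∀ u ∈ U, ρ g⁻¹ u ∈ U) := by
    intro g hg
    induction hg using Subgroup.closure_induction with
    | mem x hx =>
      rcases hx with rfl | hx
      · exact ⟨hAU, hAiU⟩
      · rw [Set.mem_singleton_iff] at hx
        subst hx
        exact ⟨hBU, hBiU⟩
    | one =>
      refine ⟨fun u hu => ?_, fun u hu => ?_⟩
      · rw [map_one]; exact hu
      · rw [inv_one, map_one]; exact hu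
    | mul x y _ _ hx hy =>
      refine ⟨fun u hu => ?_, fun u hu => ?_⟩
      · rw [map_mul]; exact hx.1 _ (hy.1 u hu)
      · rw [mul_inv_rev, map_mul]; exact hy.2 _ (hx.2 u hu)
    | inv x _ hx =>
      refine ⟨hx.2, ?_⟩
      rw [inv_inv]; exact hx.1
  have hU : ∀ g, ∀ u ∈ U, ρ g u ∈ U := fun g => (hU' g (by rw [hgen]; exact Subgroup.mem_top g)).1
  by_cases hQ : IsPRep p (quotRep ρ U hU)
  · have hUnp : ¬ IsPRep p (subRep ρ U hU) := fun h => hnp (isPRep_of_sub_quot ρ U hU h hQ)
    by_cases hli : LinearIndependent K ![w, B w]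
    · let 𝔟 : Module.Basis (Fin 2) K U := Module.Basis.span hli
      set M : Γ → Matrix (Fin 2) (Fin 2) K := fun g => LinearMap.toMatrix 𝔟 𝔟 (subRep ρ U hU g)
        with hM
      have hMmul : ∀ g h, M (g * h) = M g * M h := by
        intro g h
        simp only [hM, map_mul]
        exact LinearMap.toMatrix_mul 𝔟 _ _
      have hM1 : M 1 = 1 := by
        simp only [hM, map_one]
        exact LinearMap.toMatrix_one 𝔟
      let d : Γ →* K :=
        { toFun := fun g => (M g).det
          map_one' := by rw [hM1, Matrix.det_one]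
          map_mul' := fun g h => by rw [hMmul, Matrix.det_mul] }
      have hdq : ∀ g : Γ, (ρ g - 1) * (ρ g - 1) = 0 → d g = 1 := by
        intro g hg
        have h1 := pow_char_eq_one_of_quadratic (p := p) _ (subRep_quadratic ρ U hU g hg)
        rw [← map_pow] at h1
        have h2 : d (g ^ p) = 1 := by
          show (M (g ^ p)).det = 1
          simp only [hM]
          rw [h1]
          rw [LinearMap.toMatrix_one, Matrix.det_one]
        rw [map_pow] at h2
        apply frobenius_inj K p
        rw [frobenius_def, frobenius_def, h2, one_pow]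
      have hd : d = 1 := by
        apply MonoidHom.eq_of_eqOn_dense hgen
        intro x hx
        rcases hx with rfl | hx
        · exact hdq _ ha
        · rw [Set.mem_singleton_iff] at hx
          subst hx
          exact hdq _ hb
      have hdet : ∀ g, (M g).det = 1 := fun g => by
        have := congrArg (fun f : Γ →* K => f g) hd
        exact this
      let φ : Γ →* Matrix.SpecialLinearGroup (Fin 2) K :=
        { toFun := fun g => ⟨M g, hdet g⟩
          map_one' := Subtype.ext hM1
          map_mul' := fun g h => Subtype.ext (hMmul g h) }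
      have hb0 : ((𝔟 0 : U) : W) = w := congrArg Subtype.val (Module.Basis.span_apply hli 0)
      have hb1 : ((𝔟 1 : U) : W) = B w := congrArg Subtype.val (Module.Basis.span_apply hli 1)
      have hcol : ∀ (g : Γ) (j : Fin 2),
          ρ g ((𝔟 j : U) : W) = M g 0 j • w + M g 1 j • B w := by
        intro g j
        have h0 := 𝔟.sum_repr (subRep ρ U hU g (𝔟 j))
        rw [Fin.sum_univ_two] at h0
        have h1 := congrArg (fun u : U => (u : W)) h0
        simp only [Submodule.coe_add, Submodule.coe_smul, subRep_apply, hb0, hb1] at h1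
        rw [← h1]
        simp only [hM, LinearMap.toMatrix_apply]
      refine ⟨⊥, w, B w, φ, ?_, ?_, ?_, ?_, fun hφ => hUnp ?_⟩
      · intro g u hu
        rw [Submodule.mem_bot] at hu ⊢
        rw [hu, map_zero]
      · intro g
        rw [Submodule.mem_bot, sub_eq_zero]
        have := hcol g 0
        rw [hb0] at this
        exact this
      · intro g
        rw [Submodule.mem_bot, sub_eq_zero]
        have := hcol g 1
        rw [hb1] at this
        exact this
      · intro c d h
        rw [Submodule.mem_bot] at h
        exact LinearIndependent.pair_iff.mp hli c d h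
      intro g
      obtain ⟨j, hj⟩ := hφ g
      refine ⟨j, ?_⟩
      have h1 : M (g ^ p ^ j) = 1 := congrArg Subtype.val hj
      apply (LinearMap.toMatrix 𝔟 𝔟).injective
      rw [LinearMap.toMatrix_one]
      exact h1
    · exfalso
      apply hUnp
      rw [LinearIndependent.pair_iff] at hli
      simp only [not_forall] at hli
      obtain ⟨s, t, hst, hne⟩ := hli
      have ht : t ≠ 0 := by
        intro ht
        rw [ht, zero_smul, add_zero] at hst
        have hs : s = 0 := by
          by_contra hs
          exact hw0 ((smul_eq_zero.mp hst).resolve_left hs)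
        exact hne ⟨hs, ht⟩
      have hBw : B w = (-s / t) • w := by
        have h1 : t • B w = -(s • w) := by
          rw [eq_neg_iff_add_eq_zero, add_comm]; exact hst
        have h2 : t⁻¹ • (t • B w) = t⁻¹ • (-(s • w)) := by rw [h1]
        rw [smul_smul, inv_mul_cancel₀ ht, one_smul, smul_neg, smul_smul] at h2
        rw [h2, neg_div, neg_smul, div_eq_inv_mul]
      have scal : ∀ (T : Module.End K W) (β : K), (∀ v, T (T v) = T v + T v - v) → T w = β • w →
          T w = w := by
        intro T β hT hTw
        have h1 := hT w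
        rw [hTw, map_smul, hTw, smul_smul] at h1
        have h2 : ((β - 1) * (β - 1)) • w = 0 := by
          have : ((β - 1) * (β - 1)) • w = (β * β) • w - (β • w + β • w - w) := by
            module
          rw [this, h1, sub_self]
        have h3 : β - 1 = 0 := by
          rcases smul_eq_zero.mp h2 with h | h
          · exact mul_self_eq_zero.mp h
          · exact absurd h hw0
        rw [hTw, sub_eq_zero.mp h3, one_smul]
      have hBw1 : B w = w := scal B _ hB2 hBw
      have hAw1 : A w = w := by
        apply scal A μ hA2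
        rw [← hABw, hBw1]
      have hfix : ∀ g ∈ Subgroup.closure ({a, b} : Set Γ), ∀ u ∈ U, ρ g u = u := by
        intro g hg
        have fix_of : ∀ T : Module.End K W, T w = w → ∀ u ∈ U, T u = u := by
          intro T hT
          have : U ≤ LinearMap.eqLocus T (1 : Module.End K W) := by
            rw [hUdef, Submodule.span_le]
            rintro _ ⟨i, rfl⟩
            fin_cases i
            · exact hT
            · show T (B w) = B w
              rw [hBw1]; exact hT
          exact fun u hu => this hu
        induction hg using Subgroup.closure_induction with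
        | mem x hx =>
          rcases hx with rfl | hx
          · exact fix_of _ hAw1
          · rw [Set.mem_singleton_iff] at hx
            subst hx
            exact fix_of _ hBw1
        | one => intro u _; rw [map_one]; rfl
        | mul x y _ _ hx hy =>
          intro u hu
          rw [map_mul, Module.End.mul_apply, hy u hu, hx u hu]
        | inv x _ hx =>
          intro u hu
          have := hinv x u
          rw [hx u hu] at this
          exact this
      intro g
      refine ⟨0, ?_⟩
      ext u
      rw [subRep_apply]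
      exact hfix _ (by rw [hgen]; exact Subgroup.mem_top _) u u.2
  · have hUpos : 0 < Module.finrank K U :=
      Module.finrank_pos_iff_exists_ne_zero.mpr
        ⟨⟨w, hwU⟩, fun h => hw0 (congrArg Subtype.val h)⟩
    have hlt : Module.finrank K (W ⧸ U) < n := by
      have := Submodule.finrank_quotient_add_finrank U
      omega
    have habQ : quotRep ρ U hU (a * b) ^ (p ^ e * (Fintype.card K - 1)) = 1 := by
      rw [← map_pow]
      apply quotRep_eq_one
      rw [map_pow]
      exact hab
    obtain ⟨U₂', e₁', e₂', φ, hinv', r1', r2', hind', hnp'⟩ :=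
      ih _ hlt (W ⧸ U) (quotRep ρ U hU) rfl (quotRep_quadratic ρ U hU a ha)
        (quotRep_quadratic ρ U hU b hb) habQ hQ
    obtain ⟨e₁, rfl⟩ := Submodule.Quotient.mk_surjective U e₁'
    obtain ⟨e₂, rfl⟩ := Submodule.Quotient.mk_surjective U e₂'
    refine ⟨U₂'.comap U.mkQ, e₁, e₂, φ, ?_, ?_, ?_, ?_, hnp'⟩
    · intro g u hu
      rw [Submodule.mem_comap] at hu ⊢
      exact hinv' g _ hu
    · intro g
      rw [Submodule.mem_comap]
      have := r1' g
      rw [quotRep_mk] at this
      simpa using this
    · intro g
      rw [Submodule.mem_comap]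
      have := r2' g
      rw [quotRep_mk] at this
      simpa using this
    · intro c d h
      rw [Submodule.mem_comap] at h
      apply hind' c d
      simpa using h

end main

end Cfsg.Agent.Lib.Helper15
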