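import Mathlib
import Cfsg.Agent.Lib.Helper15.QuadSec
import Cfsg.Agent.Lib.Helper15.QuadDescent
import Cfsg.Agent.Lib.Helper15.DicksonMat6
import Cfsg.Agent.Lib.Helper15.QuadSL2
import Cfsg.Agent.Lib.Helper54.DicksonGen

set_option autoImplicit false
set_option linter.unusedSectionVars false
set_option linter.unusedVariables false
set_option linter.unusedSimpArgs false

/-! A faithful quadratic pair on a finite `𝔽_p`-module which is not a `p`-group has
natural-module data for two of its elements (module-level core of the `Qd(p)` theorem). -/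

namespace Cfsg.Agent.Lib.Helper15

open Cfsg.Agent.Lib.Helper14 (IsPRep pow_char_eq_one_of_quadratic)

section lin

variable {Γ : Type*} [Group Γ] [Finite Γ] {p : ℕ} [Fact p.Prime]

theorem quad_pair_ndata_lin {M : Type*} [AddCommGroup M] [Module (ZMod p) M] [Finite M]
    (hp2 : p ≠ 2) (ρ₀ : Γ →* Module.End (ZMod p) M) (hρ₀inj : ∀ g : Γ, ρ₀ g = 1 → g = 1)
    (a b : Γ) (hgen : Subgroup.closure {a, b} = ⊤)
    (ha : (ρ₀ a - 1) * (ρ₀ a - 1) = 0) (hb : (ρ₀ b - 1) * (ρ₀ b - 1) = 0)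
    (hnp : ¬ IsPGroup p Γ) :
    ∃ x y : Γ, HasNData (ρ₀ x) (ρ₀ y) := by
  classical
  have hp : p.Prime := Fact.out
  let bas := Module.finBasis (ZMod p) M
  set n := Module.finrank (ZMod p) M with hn
  -- `a` and `b` have order dividing `p`
  have hpow₀ : ∀ g : Γ, (ρ₀ g - 1) * (ρ₀ g - 1) = 0 → g ^ p = 1 := by
    intro g hg
    apply hρ₀inj
    rw [map_pow]
    exact pow_char_eq_one_of_quadratic (K := ZMod p) (p := p) _ hg
  -- the field
  have ho : orderOf (a * b) ≠ 0 := (orderOf_pos (a * b)).ne'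
  obtain ⟨e, k, hk, hek⟩ := Nat.exists_eq_pow_mul_and_not_dvd ho p hp.ne_one
  have hk0 : k ≠ 0 := by
    rintro rfl
    exact hk (dvd_zero p)
  have hcop : Nat.Coprime p k := (Nat.Prime.coprime_iff_not_dvd hp).mpr hk
  set m := Nat.totient k with hm
  have hm0 : m ≠ 0 := (Nat.totient_pos.mpr (Nat.pos_of_ne_zero hk0)).ne'
  have hkdvd : k ∣ p ^ m - 1 := by
    have h1 : p ^ m ≡ 1 [MOD k] := Nat.ModEq.pow_totient hcop
    exact (Nat.modEq_iff_dvd' (Nat.one_le_pow _ _ hp.pos)).mp h1.symm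
  let K := GaloisField p m
  let _ : Fintype K := Fintype.ofFinite K
  have hKcard : Fintype.card K = p ^ m := by
    rw [← Nat.card_eq_fintype_card]; exact GaloisField.card p m hm0
  let Φ : Module.End (ZMod p) M →+* Module.End K (Fin n → K) :=
    ((Matrix.toLinAlgEquiv' : Matrix (Fin n) (Fin n) K ≃ₐ[K] _) : Matrix (Fin n) (Fin n) K →+* _).comp
      ((algebraMap (ZMod p) K).mapMatrix.comp
        ((LinearMap.toMatrixAlgEquiv bas : _ ≃ₐ[ZMod p] Matrix (Fin n) (Fin n) (ZMod p)) :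
          Module.End (ZMod p) M →+* Matrix (Fin n) (Fin n) (ZMod p)))
  have hΦinj : Function.Injective Φ := by
    intro x y hxy
    have h1 := (Matrix.toLinAlgEquiv' : Matrix (Fin n) (Fin n) K ≃ₐ[K] _).injective hxy
    have h2 : Function.Injective (fun M : Matrix (Fin n) (Fin n) (ZMod p) =>
        M.map (algebraMap (ZMod p) K)) := Matrix.map_injective (algebraMap (ZMod p) K).injective
    have h3 := h2 h1
    exact (LinearMap.toMatrixAlgEquiv bas).injective h3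
  let ρ : Γ →* Module.End K (Fin n → K) := (Φ : _ →* _).comp ρ₀
  have hρ : ∀ g, ρ g = Φ (ρ₀ g) := fun g => rfl
  have hquad : ∀ g : Γ, (ρ₀ g - 1) * (ρ₀ g - 1) = 0 → (ρ g - 1) * (ρ g - 1) = 0 := by
    intro g hg
    rw [hρ, ← map_one Φ, ← map_sub, ← map_mul, hg, map_zero]
  have hab : ρ (a * b) ^ (p ^ e * (Fintype.card K - 1)) = 1 := by
    rw [← map_pow]
    have : (a * b) ^ (p ^ e * (Fintype.card K - 1)) = 1 := by
      rw [← orderOf_dvd_iff_pow_eq_one, hek, hKcard]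
      exact Nat.mul_dvd_mul_left _ hkdvd
    rw [this, map_one]
  have hnp' : ¬ IsPRep p ρ := by
    intro h
    apply hnp
    intro g
    obtain ⟨j, hj⟩ := h g
    refine ⟨j, hρ₀inj _ (hΦinj ?_)⟩
    rw [map_one]; exact hj
  obtain ⟨U₂, e₁, e₂, φ, hinv, r1, r2, hind, hnpφ⟩ := quad_pair_sec (K := K) (p := p) a b hgen e
    (Module.finrank K (Fin n → K)) (Fin n → K) ρ rfl (hquad a ha) (hquad b hb) hab hnp'
  have hφa : φ a ^ p = 1 := by rw [← map_pow, hpow₀ a ha, map_one]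
  have hφb : φ b ^ p = 1 := by rw [← map_pow, hpow₀ b hb, map_one]
  have hXgen : φ.range =
      Subgroup.closure ({φ a, φ b} : Set (Matrix.SpecialLinearGroup (Fin 2) K)) := by
    rw [MonoidHom.range_eq_map, ← hgen, MonoidHom.map_closure, Set.image_pair]
  have hnpr : ¬ IsPGroup p φ.range := by
    intro hX
    apply hnpφ
    intro g
    obtain ⟨j, hj⟩ := hX ⟨φ g, ⟨g, rfl⟩⟩
    refine ⟨j, ?_⟩
    have := congrArg Subtype.val hj
    simpa using this
  have hcard := card_sylow_gt_one_of_gens φ.range (φ a) (φ b) hφa hφb hXgen hnpr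
  obtain ⟨xb, yb, hxb, hyb, hx2, hy2, htr⟩ := exists_unip_pair_trace hp2 φ.range hcard
  obtain ⟨x, rfl⟩ := hxb
  obtain ⟨y, rfl⟩ := hyb
  obtain ⟨P, hPdet, hxP, hyP⟩ :=
    Cfsg.Agent.Lib.Helper54.exists_conj_unip (1 : K) one_ne_zero hx2 hy2 htr
  refine ⟨x, y, ?_⟩
  obtain ⟨w₁, hw₁⟩ : ∃ w₁ : Fin n → K, w₁ = P 0 0 • e₁ + P 1 0 • e₂ := ⟨_, rfl⟩
  obtain ⟨w₂, hw₂⟩ : ∃ w₂ : Fin n → K, w₂ = P 0 1 • e₁ + P 1 1 • e₂ := ⟨_, rfl⟩
  have ex := fun i j => congrFun (congrFun hxP i) j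
  have ey := fun i j => congrFun (congrFun hyP i) j
  have hx00 : φ x 0 0 * P 0 0 + φ x 0 1 * P 1 0 = P 0 0 := by
    have := ex 0 0; simpa [Matrix.mul_apply, Fin.sum_univ_two] using this
  have hx10 : φ x 1 0 * P 0 0 + φ x 1 1 * P 1 0 = P 1 0 := by
    have := ex 1 0; simpa [Matrix.mul_apply, Fin.sum_univ_two] using this
  have hx01 : φ x 0 0 * P 0 1 + φ x 0 1 * P 1 1 = P 0 0 + P 0 1 := by
    have := ex 0 1; simpa [Matrix.mul_apply, Fin.sum_univ_two] using this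
  have hx11 : φ x 1 0 * P 0 1 + φ x 1 1 * P 1 1 = P 1 0 + P 1 1 := by
    have := ex 1 1; simpa [Matrix.mul_apply, Fin.sum_univ_two] using this
  have hy00 : φ y 0 0 * P 0 0 + φ y 0 1 * P 1 0 = P 0 0 + P 0 1 := by
    have := ey 0 0; simpa [Matrix.mul_apply, Fin.sum_univ_two] using this
  have hy10 : φ y 1 0 * P 0 0 + φ y 1 1 * P 1 0 = P 1 0 + P 1 1 := by
    have := ey 1 0; simpa [Matrix.mul_apply, Fin.sum_univ_two] using this
  have hy01 : φ y 0 0 * P 0 1 + φ y 0 1 * P 1 1 = P 0 1 := by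
    have := ey 0 1; simpa [Matrix.mul_apply, Fin.sum_univ_two] using this
  have hy11 : φ y 1 0 * P 0 1 + φ y 1 1 * P 1 1 = P 1 1 := by
    have := ey 1 1; simpa [Matrix.mul_apply, Fin.sum_univ_two] using this
  -- the `K`-level relations
  have k1 : ρ x w₁ - w₁ ∈ U₂ := by
    have h : ρ x w₁ - w₁ = P 0 0 • (ρ x e₁ - (φ x 0 0 • e₁ + φ x 1 0 • e₂)) +
        P 1 0 • (ρ x e₂ - (φ x 0 1 • e₁ + φ x 1 1 • e₂)) +
        ((φ x 0 0 * P 0 0 + φ x 0 1 * P 1 0) - P 0 0) • e₁ +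
        ((φ x 1 0 * P 0 0 + φ x 1 1 * P 1 0) - P 1 0) • e₂ := by
      rw [hw₁, map_add, map_smul, map_smul]; module
    rw [h, hx00, hx10, sub_self, sub_self, zero_smul, zero_smul, add_zero, add_zero]
    exact U₂.add_mem (U₂.smul_mem _ (r1 x)) (U₂.smul_mem _ (r2 x))
  have k2 : ρ x w₂ - (w₁ + w₂) ∈ U₂ := by
    have h : ρ x w₂ - (w₁ + w₂) = P 0 1 • (ρ x e₁ - (φ x 0 0 • e₁ + φ x 1 0 • e₂)) +
        P 1 1 • (ρ x e₂ - (φ x 0 1 • e₁ + φ x 1 1 • e₂)) +
        ((φ x 0 0 * P 0 1 + φ x 0 1 * P 1 1) - (P 0 0 + P 0 1)) • e₁ +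
        ((φ x 1 0 * P 0 1 + φ x 1 1 * P 1 1) - (P 1 0 + P 1 1)) • e₂ := by
      rw [hw₁, hw₂, map_add, map_smul, map_smul]; module
    rw [h, hx01, hx11, sub_self, sub_self, zero_smul, zero_smul, add_zero, add_zero]
    exact U₂.add_mem (U₂.smul_mem _ (r1 x)) (U₂.smul_mem _ (r2 x))
  have k3 : ρ y w₁ - (w₁ + w₂) ∈ U₂ := by
    have h : ρ y w₁ - (w₁ + w₂) = P 0 0 • (ρ y e₁ - (φ y 0 0 • e₁ + φ y 1 0 • e₂)) +
        P 1 0 • (ρ y e₂ - (φ y 0 1 • e₁ + φ y 1 1 • e₂)) +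
        ((φ y 0 0 * P 0 0 + φ y 0 1 * P 1 0) - (P 0 0 + P 0 1)) • e₁ +
        ((φ y 1 0 * P 0 0 + φ y 1 1 * P 1 0) - (P 1 0 + P 1 1)) • e₂ := by
      rw [hw₁, hw₂, map_add, map_smul, map_smul]; module
    rw [h, hy00, hy10, sub_self, sub_self, zero_smul, zero_smul, add_zero, add_zero]
    exact U₂.add_mem (U₂.smul_mem _ (r1 y)) (U₂.smul_mem _ (r2 y))
  have k4 : ρ y w₂ - w₂ ∈ U₂ := by
    have h : ρ y w₂ - w₂ = P 0 1 • (ρ y e₁ - (φ y 0 0 • e₁ + φ y 1 0 • e₂)) +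
        P 1 1 • (ρ y e₂ - (φ y 0 1 • e₁ + φ y 1 1 • e₂)) +
        ((φ y 0 0 * P 0 1 + φ y 0 1 * P 1 1) - P 0 1) • e₁ +
        ((φ y 1 0 * P 0 1 + φ y 1 1 * P 1 1) - P 1 1) • e₂ := by
      rw [hw₂, map_add, map_smul, map_smul]; module
    rw [h, hy01, hy11, sub_self, sub_self, zero_smul, zero_smul, add_zero, add_zero]
    exact U₂.add_mem (U₂.smul_mem _ (r1 y)) (U₂.smul_mem _ (r2 y))
  have k0 : w₁ ∉ U₂ := by
    intro h
    rw [hw₁] at h
    obtain ⟨h1, h2⟩ := hind _ _ h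
    apply hPdet
    rw [Matrix.det_fin_two, h1, h2]; ring
  -- descent to `M`
  let bK := Module.finBasis (ZMod p) K
  let π : Fin (Module.finrank (ZMod p) K) → (Fin n → K) →ₗ[ZMod p] M := fun i =>
    (bas.equivFun.symm : (Fin n → ZMod p) ≃ₗ[ZMod p] M).toLinearMap ∘ₗ
      (bK.coord i).compLeft (Fin n)
  have hπ : ∀ i (v : Fin n → K), π i v = bas.equivFun.symm (fun j => bK.coord i (v j)) :=
    fun i v => rfl
  have hΦπ : ∀ (T : Module.End (ZMod p) M) (i) (v : Fin n → K), π i (Φ T v) = T (π i v) := by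
    intro T i v
    have hΦT : Φ T v = ((LinearMap.toMatrix bas bas T).map (algebraMap (ZMod p) K)).mulVec v :=
      rfl
    have h1 : (fun j => bK.coord i ((Φ T v) j)) =
        (LinearMap.toMatrix bas bas T).mulVec (fun j => bK.coord i (v j)) := by
      funext j
      rw [hΦT]
      simp only [Matrix.mulVec, dotProduct, Matrix.map_apply, map_sum]
      apply Finset.sum_congr rfl
      intro k _
      rw [← Algebra.smul_def, map_smul, smul_eq_mul]
    rw [hπ, h1, hπ]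
    have h2 := LinearMap.toMatrix_mulVec_repr bas bas T
      (bas.equivFun.symm (fun j => bK.coord i (v j)))
    have h3 : (bas.repr (bas.equivFun.symm (fun j => bK.coord i (v j))) : Fin n → ZMod p) =
        fun j => bK.coord i (v j) := by
      have := bas.equivFun.apply_symm_apply (fun j => bK.coord i (v j))
      exact this
    rw [h3] at h2
    rw [h2]
    exact bas.equivFun.symm_apply_apply _
  have hπinj : ∀ v : Fin n → K, (∀ i, π i v = 0) → v = 0 := by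
    intro v hv
    funext j
    apply (Module.Basis.forall_coord_eq_zero_iff bK).mp
    intro i
    have h1 := hv i
    rw [hπ, LinearEquiv.map_eq_zero_iff] at h1
    exact congrFun h1 j
  have hdata : HasNData ((ρ x).restrictScalars (ZMod p)) ((ρ y).restrictScalars (ZMod p)) :=
    ⟨U₂.restrictScalars (ZMod p), w₁, w₂, fun v hv => hinv x v hv, fun v hv => hinv y v hv,
      k0, k1, k2, k3, k4⟩
  exact ndata_descent ((ρ x).restrictScalars (ZMod p)) ((ρ y).restrictScalars (ZMod p))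
    (ρ₀ x) (ρ₀ y) π (fun i v => hΦπ (ρ₀ x) i v) (fun i v => hΦπ (ρ₀ y) i v) hπinj hdata

end lin

end Cfsg.Agent.Lib.Helper15
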