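import Mathlib
import Cfsg.Agent.Lib.Helper15.QuadNData
import Cfsg.Agent.Lib.Helper15.QdCore

set_option autoImplicit false
set_option linter.unusedSectionVars false
set_option linter.unusedVariables false
set_option linter.unusedSimpArgs false

/-! The module-level statement `NDataStmt p` for odd `p`, and the resulting theorems on
`Qd(p)`-sections: a quadratic element on a normal `p`-subgroup whose image is not in `O_p` of
the automizer forces a section `Qd(p)`. -/

namespace Cfsg.Agent.Lib.Helper15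

open Cfsg
open scoped commutatorElement

section grp

variable {Γ : Type*} [Group Γ] [Finite Γ] {p : ℕ} [Fact p.Prime]

theorem quad_pair_ndata_aux {A : Type*} [CommGroup A] [Finite A]
    [Module (ZMod p) (Additive A)] (hp2 : p ≠ 2) (θ : Γ →* MulAut A)
    (hθ : ∀ g : Γ, θ g = 1 → g = 1) (a b : Γ) (hgen : Subgroup.closure {a, b} = ⊤)
    (ha : ∀ v : A, θ a (θ a v / v) = θ a v / v) (hb : ∀ v : A, θ b (θ b v / v) = θ b v / v)
    (hnp : ¬ IsPGroup p Γ) :
    ∃ (x y : Γ) (A₂ : Subgroup A) (w₁ w₂ : A), (∀ v ∈ A₂, θ x v ∈ A₂) ∧ (∀ v ∈ A₂, θ y v ∈ A₂) ∧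
      w₁ ∉ A₂ ∧ θ x w₁ / w₁ ∈ A₂ ∧ θ x w₂ / (w₁ * w₂) ∈ A₂ ∧ θ y w₁ / (w₁ * w₂) ∈ A₂ ∧
      θ y w₂ / w₂ ∈ A₂ := by
  let ρ₀ : Γ →* Module.End (ZMod p) (Additive A) :=
    { toFun := fun g => (MulEquiv.toAdditive (θ g)).toAddMonoidHom.toZModLinearMap p
      map_one' := by
        apply LinearMap.ext
        intro x
        rw [Module.End.one_apply]
        show Additive.ofMul (θ 1 (Additive.toMul x)) = x
        rw [map_one]; rfl
      map_mul' := fun g h => by
        apply LinearMap.ext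
        intro x
        rw [Module.End.mul_apply]
        show Additive.ofMul (θ (g * h) (Additive.toMul x)) =
          Additive.ofMul (θ g (Additive.toMul (Additive.ofMul (θ h (Additive.toMul x)))))
        rw [map_mul]; rfl }
  have hρ₀ : ∀ g x, ρ₀ g x = Additive.ofMul (θ g (Additive.toMul x)) := fun g x => rfl
  have hquad₀ : ∀ g : Γ, (∀ v : A, θ g (θ g v / v) = θ g v / v) → (ρ₀ g - 1) * (ρ₀ g - 1) = 0 := by
    intro g hg
    apply LinearMap.ext
    intro x
    simp only [Module.End.mul_apply, LinearMap.sub_apply, Module.End.one_apply,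
      LinearMap.zero_apply]
    have := hg (Additive.toMul x)
    rw [sub_eq_zero, hρ₀, hρ₀]
    have h2 : Additive.ofMul (θ g (Additive.toMul x)) - x =
        Additive.ofMul (θ g (Additive.toMul x) / Additive.toMul x) := rfl
    rw [h2, toMul_ofMul, this]
  have hρ₀inj : ∀ g : Γ, ρ₀ g = 1 → g = 1 := by
    intro g hg
    apply hθ
    ext v
    have := congrArg (fun T : Module.End (ZMod p) (Additive A) => T (Additive.ofMul v)) hg
    exact this
  obtain ⟨x, y, X₂, w₁, w₂, hXx, hXy, hw, r1, r2, r3, r4⟩ :=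
    quad_pair_ndata_lin hp2 ρ₀ hρ₀inj a b hgen (hquad₀ a ha) (hquad₀ b hb) hnp
  let A₂ : Subgroup A :=
    { carrier := {v | Additive.ofMul v ∈ X₂}
      mul_mem' := fun {u v} hu hv => X₂.add_mem hu hv
      one_mem' := X₂.zero_mem
      inv_mem' := fun {u} hu => X₂.neg_mem hu }
  exact ⟨x, y, A₂, Additive.toMul w₁, Additive.toMul w₂, fun v hv => hXx _ hv,
    fun v hv => hXy _ hv, hw, r1, r2, r3, r4⟩

end grp

section final

universe u

variable {p : ℕ} [Fact p.Prime]

/-- **The module-level statement holds for odd `p`.** -/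
theorem ndataStmt_of_odd (hp2 : p ≠ 2) : NDataStmt.{u} p := by
  intro Γ _ _ A _ _ hcomm hA θ hθ a b hgen ha hb hnp
  let cg : CommGroup A := { (inferInstance : Group A) with mul_comm := hcomm }
  exact @quad_pair_ndata_aux Γ _ _ p _ A cg _ (AddCommGroup.zmodModule (n := p) (fun x => by
    show Additive.ofMul (Additive.toMul x ^ p) = 0
    rw [hA]; rfl)) hp2 θ hθ a b hgen ha hb hnp

variable {X : Type u} [Group X] [Finite X]

/-- **`Qd(p)` from a quadratic element on a normal `p`-subgroup** (`p` odd): if `a` acts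
quadratically on the normal `p`-subgroup `P` of `X` and the image of `a` in `X / C_X(P)` is not
in `O_p(X / C_X(P))`, then `X` has a section isomorphic to `Qd(p)`. -/
theorem qd_section_of_normal (hp2 : p ≠ 2) (P : Subgroup X) [P.Normal] (hP : IsPGroup p P)
    (C : Subgroup X) [C.Normal] (hC : C = Subgroup.centralizer (P : Set X)) (a : X)
    (hq : ⁅⁅P, Subgroup.zpowers a⁆, Subgroup.zpowers a⁆ = ⊥)
    (ha : QuotientGroup.mk' C a ∉ pCore p (X ⧸ C)) :
    ∃ (K R : Subgroup X) (hR : (R.subgroupOf K).Normal),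
      Nonempty ((K ⧸ R.subgroupOf K) ≃* ↥(Cfsg.qd p)) :=
  qd_section_of_normal_of (ndataStmt_of_odd hp2) hp2 P hP C hC a hq ha

/-- **`Qd(p)`-free groups act `p`-stably on their normal `p`-subgroups** (`p` odd). -/
theorem isPStableOn_of_qd_free (hp2 : p ≠ 2)
    (hfree : ¬ ∃ (K R : Subgroup X) (hR : (R.subgroupOf K).Normal),
      Nonempty ((K ⧸ R.subgroupOf K) ≃* ↥(Cfsg.qd p)))
    (P : Subgroup X) [P.Normal] (hP : IsPGroup p P) : IsPStableOn p P :=
  isPStableOn_of_qd_free_of (ndataStmt_of_odd hp2) hp2 hfree P hP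

/-- Failure of the inner clause of `IsPStable` (or of `IsNormalizerPStable`) gives a section
`Qd(p)` (`p` odd). -/
theorem qd_section_of_quad_normalizer (hp : p ≠ 2)
    (A P : Subgroup X) (hP : IsPGroup p P) (hquad : ⁅⁅P, A⁆, A⁆ = ⊥)
    (hnot : ¬ (A.subgroupOf (Subgroup.normalizer (P : Set X))).map
          (QuotientGroup.mk' ((Subgroup.centralizer (P : Set X)).subgroupOf
            (Subgroup.normalizer (P : Set X)))) ≤ pCore p _) :
    ∃ (K R : Subgroup X) (hR : (R.subgroupOf K).Normal),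
      Nonempty ((K ⧸ R.subgroupOf K) ≃* ↥(Cfsg.qd p)) :=
  qd_section_of_quad_normalizer_of (ndataStmt_of_odd hp) hp A P hP hquad hnot

end final

end Cfsg.Agent.Lib.Helper15
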